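import Cfsg.Agent.H2.Chain
import Cfsg.Agent.H8.Simple

/-! Involutions of alternating groups as products of squares; automorphisms of `L2(8)`. -/

set_option autoImplicit false

namespace H8

open Equiv Equiv.Perm

section Alt

variable {α : Type*} [Fintype α] [DecidableEq α] {s : Perm α} {N : Subgroup (Perm α)}

theorem swap_pair_mem (h6 : 6 ≤ Fintype.card α) (hs : s * s = 1)
    (h : ∀ x, sign x = 1 → x * s = s * x → x * x ∈ N) {a c : α} (ha : s a ≠ a) (hc : s c ≠ c)
    (h1 : c ≠ a) (h2 : c ≠ s a) : swap a (s a) * swap c (s c) ∈ N := by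
  have ss : ∀ x, s (s x) = x := fun x => by rw [← mul_apply, hs, one_apply]
  have h3 : s c ≠ a := fun e => h2 (by rw [← e, ss])
  have h4 : s c ≠ s a := fun e => h1 (s.injective e)
  obtain ⟨e, f, ef, he, hf, hef⟩ : ∃ e f, e ≠ f ∧ e ∉ ({a, s a, c, s c} : Finset α) ∧
      f ∉ ({a, s a, c, s c} : Finset α) ∧ ((s e = f ∧ s f = e) ∨ (s e = e ∧ s f = f)) := by
    have c4 : ({a, s a, c, s c} : Finset α).card ≤ 4 := Finset.card_le_four
    have : 1 < ({a, s a, c, s c} : Finset α)ᶜ.card := by rw [Finset.card_compl]; omega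
    obtain ⟨e, he, f, hf, ef⟩ := Finset.one_lt_card.1 this
    rw [Finset.mem_compl] at he hf
    have key : ∀ e, e ∉ ({a, s a, c, s c} : Finset α) → s e ∉ ({a, s a, c, s c} : Finset α) := by
      intro e he hse
      simp only [Finset.mem_insert, Finset.mem_singleton] at he hse
      rcases hse with r | r | r | r
      · exact he (Or.inr (Or.inl (by rw [← r, ss])))
      · exact he (Or.inl (s.injective r))
      · exact he (Or.inr (Or.inr (Or.inr (by rw [← r, ss]))))
      · exact he (Or.inr (Or.inr (Or.inl (s.injective r))))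
    by_cases p : s e = e
    · by_cases q : s f = f
      · exact ⟨e, f, ef, he, hf, Or.inr ⟨p, q⟩⟩
      · exact ⟨f, s f, Ne.symm q, hf, key f hf, Or.inl ⟨rfl, ss f⟩⟩
    · exact ⟨e, s e, Ne.symm p, he, key e he, Or.inl ⟨rfl, ss e⟩⟩
  simp only [Finset.mem_insert, Finset.mem_singleton, not_or] at he hf
  have := h (swap a (s a) * (swap a c * swap (s a) (s c)) * swap e f) (by
    simp only [Perm.sign_mul, sign_swap ha.symm, sign_swap h1.symm, sign_swap h4.symm, sign_swap ef]
    decide) (by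
    ext x
    have := ss x
    have := ss a
    have := ss c
    have inj : ∀ x y, s x = s y → x = y := fun x y => s.injective.eq_iff.1
    simp only [mul_apply, swap_apply_def]
    grind)
  convert this using 1
  ext x
  simp only [mul_apply, swap_apply_def]
  grind

theorem mem_of_sq (h6 : 6 ≤ Fintype.card α) (hs : s * s = 1) (h1 : sign s = 1)
    (h : ∀ x, sign x = 1 → x * s = s * x → x * x ∈ N) : s ∈ N := by
  have ss : ∀ x, s (s x) = x := fun x => by rw [← mul_apply, hs, one_apply]
  suffices key : ∀ n (u : Perm α), u.support.card = n → (∀ x, u x = x ∨ u x = s x) → sign u = 1 →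
      u ∈ N from key _ s rfl (fun x => Or.inr rfl) h1
  intro n
  induction n using Nat.strong_induction_on with
  | _ n ih =>
  intro u hn hu h2
  by_cases e : u = 1
  · exact e ▸ N.one_mem
  have two : ∀ a, u a ≠ a → u a = s a ∧ u (s a) = a ∧ s a ≠ a := fun a ha => by
    have b1 := (hu a).resolve_left ha
    refine ⟨b1, ?_, b1 ▸ ha⟩
    rcases hu (s a) with r | r
    · exact absurd (u.injective (r.trans b1.symm)) (b1 ▸ ha)
    · rw [r, ss]
  obtain ⟨a, ha⟩ : ∃ a, u a ≠ a := by
    by_contra c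
    push Not at c
    exact e (Equiv.ext c)
  obtain ⟨a1, a2, a3⟩ := two a ha
  obtain ⟨c, hc, c1, c2⟩ : ∃ c, u c ≠ c ∧ c ≠ a ∧ c ≠ s a := by
    by_contra k
    push Not at k
    have : u = swap a (s a) := by
      ext x
      rw [swap_apply_def]
      split_ifs with p q
      · rw [p, a1]
      · rw [q, a2]
      · by_contra r
        exact q (k x r p)
    rw [this, sign_swap a3.symm] at h2
    exact absurd h2 (by decide)
  obtain ⟨d1, d2, d3⟩ := two c hc
  have m := swap_pair_mem h6 hs h a3 d3 c1 c2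
  have h3 : s c ≠ a := fun e => c2 (by rw [← e, ss])
  have h4 : s c ≠ s a := fun e => c1 (s.injective e)
  have val : ∀ x, (u * (swap a (s a) * swap c (s c))) x = x ∨
      (x ≠ a ∧ (u * (swap a (s a) * swap c (s c))) x = u x) := fun x => by
    simp only [mul_apply, swap_apply_def]
    grind
  refine (N.mul_mem_cancel_right m).1 (ih _ ?_ _ rfl (fun x => ?_) ?_)
  · rw [← hn]
    refine Finset.card_lt_card ⟨fun x hx => ?_, fun k => ?_⟩
    · rw [mem_support] at hx ⊢
      exact ((val x).resolve_left hx).2 ▸ hx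
    · have := k (mem_support.2 ha)
      rw [mem_support] at this
      exact ((val a).resolve_left this).1 rfl
  · rcases val x with r | r
    · exact Or.inl r
    · exact r.2 ▸ hu x
  · simp only [Perm.sign_mul, h2, sign_swap a3.symm, sign_swap d3.symm]; decide

end Alt

section Aut

open scoped Pointwise
open MulAction Subgroup

variable {L : Type*} [Group L] [Finite L]

omit [Finite L] in
theorem aut_smul_conj (α : MulAut L) (x : L) (Q : Sylow 2 L) : α • x • Q = α x • α • Q := by
  rw [Sylow.smul_def, Sylow.smul_def, ← mul_smul, ← mul_smul]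
  congr 1
  ext y
  simp

theorem card_mulAut_le [IsSimpleGroup L] (hc : Nat.card L = 504) (P : Sylow 2 L)
    (h8 : Nat.card P = 8) (hN : Nat.card (normalizer (P : Set L)) = 56)
    (hC : ∀ j ∈ (P : Subgroup L), j ≠ 1 → centralizer {j} = (P : Subgroup L))
    (sq : ∀ p ∈ (P : Subgroup L), p * p = 1) :
    Nat.card (MulAut L) ≤ 1512 := by
  classical
  haveI : Fact (Nat.Prime 7) := ⟨by norm_num⟩
  have h9 : Nat.card (Sylow 2 L) = 9 := by
    have := (normalizer (P : Set L)).card_mul_index
    rw [hN, hc, ← P.card_eq_index_normalizer] at this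
    omega
  have cm : ∀ x ∈ (P : Subgroup L), ∀ y ∈ (P : Subgroup L), x * y = y * x := fun x hx y hy => by
    by_cases e : y = 1
    · simp [e]
    · exact mem_centralizer_singleton_iff.1 (hC y hy e ▸ hx)
  -- `P` acts freely on the other Sylow subgroups
  have free : ∀ Q : Sylow 2 L, Q ≠ P → ∀ p ∈ (P : Subgroup L), p • Q = Q → p = 1 := by
    intro Q hQ p hp e
    by_contra p1
    have pQ : p ∈ (Q : Subgroup L) := by
      have := (P.isPGroup'.to_le (zpowers_le.2 hp : zpowers p ≤ (P : Subgroup L))).inf_normalizer_sylow Q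
      have m : p ∈ zpowers p ⊓ normalizer (Q : Set L) :=
        ⟨mem_zpowers p, Sylow.smul_eq_iff_mem_normalizer.1 e⟩
      exact (this ▸ m).2
    obtain ⟨g, rfl⟩ := exists_smul_eq L P Q
    refine hQ (Sylow.ext (eq_of_le_of_card_ge (fun x hx => ?_) ?_))
    · rw [← hC p hp p1, mem_centralizer_singleton_iff]
      obtain ⟨x, hx, rfl⟩ := hx
      obtain ⟨y, hy, rfl⟩ := pQ
      show MulAut.conj g x * MulAut.conj g y = MulAut.conj g y * MulAut.conj g x
      rw [← map_mul, ← map_mul, cm x hx y hy]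
    · exact (Nat.card_congr (Sylow.equivSMul P g).toEquiv).le
  have reg : ∀ Q : Sylow 2 L, Q ≠ P → ∀ R : Sylow 2 L, R ≠ P → ∃ p ∈ (P : Subgroup L), p • Q = R := by
    intro Q hQ R hR
    have a := H2.card_eq_orbit_mul (P : Subgroup L) Q {x | ∃ g ∈ (P : Subgroup L), g • Q = x}
      fun _ => Iff.rfl
    rw [h8, show (P : Subgroup L) ⊓ stabilizer L Q = ⊥ from
      le_bot_iff.1 fun x hx => free Q hQ x hx.1 hx.2, card_bot, mul_one] at a
    have b : {x | ∃ g ∈ (P : Subgroup L), g • Q = x} = {P}ᶜ := Set.eq_of_subset_of_ncard_le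
      (by
        rintro _ ⟨g, hg, rfl⟩ e
        exact hQ (smul_left_cancel g (e.trans
          (Sylow.smul_eq_iff_mem_normalizer.2 (le_normalizer hg)).symm)))
      (by rw [Set.ncard_compl, h9, Set.ncard_singleton, ← a])
    exact (b.ge hR : _)
  have faith : ∀ α : MulAut L, (∀ Q : Sylow 2 L, α • Q = Q) → α = 1 := fun α h => by
    have inj := toPermHom_injective (G := L) (α := Sylow 2 L) (by
      by_contra c
      push Not at c
      have : Subsingleton (Sylow 2 L) := ⟨fun a b => by
        obtain ⟨g, rfl⟩ := exists_smul_eq L a b; exact (c g a).symm⟩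
      have := Nat.card_of_subsingleton P
      omega)
    ext x
    refine inj (Equiv.ext fun Q => ?_)
    have := aut_smul_conj α x Q
    rw [h, h] at this
    exact this.symm
  haveI : Nontrivial (Sylow 2 L) := Finite.one_lt_card_iff_nontrivial.1 (by omega)
  obtain ⟨Q, hQ⟩ := exists_ne P
  obtain ⟨j, j1⟩ : ∃ j : P, j ≠ 1 := by
    haveI : Nontrivial P := Finite.one_lt_card_iff_nontrivial.1 (by omega)
    exact exists_ne 1
  obtain ⟨j, hj⟩ := j
  replace j1 : j ≠ 1 := fun e => j1 (Subtype.ext e)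
  have hR : j • Q ≠ P := fun e => hQ (smul_left_cancel j (e.trans
    (Sylow.smul_eq_iff_mem_normalizer.2 (le_normalizer hj)).symm))
  -- the torus
  have hD : Nat.card ↥(normalizer (P : Set L) ⊓ stabilizer L Q) = 7 := by
    have a := H2.card_eq_orbit_mul (normalizer (P : Set L)) Q {P}ᶜ fun x => ⟨fun hx => by
      obtain ⟨p, hp, e⟩ := reg Q hQ x hx
      exact ⟨p, le_normalizer hp, e⟩, by
      rintro ⟨g, hg, rfl⟩ e
      exact hQ (smul_left_cancel g (e.trans (Sylow.smul_eq_iff_mem_normalizer.2 hg).symm))⟩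
    rw [hN, Set.ncard_compl, h9, Set.ncard_singleton] at a
    omega
  obtain ⟨d, hd, o7⟩ : ∃ d ∈ normalizer (P : Set L) ⊓ stabilizer L Q, orderOf d = 7 := by
    obtain ⟨d, e⟩ := exists_prime_orderOf_dvd_card' (G := ↥(normalizer (P : Set L) ⊓ stabilizer L Q))
      7 hD.symm.dvd
    exact ⟨d, d.2, (orderOf_coe d).trans e⟩
  have zD : zpowers d = normalizer (P : Set L) ⊓ stabilizer L Q :=
    eq_of_le_of_card_ge (zpowers_le.2 hd) (by rw [hD, Nat.card_zpowers, o7])
  have d7 : d ^ 7 = 1 := o7 ▸ pow_orderOf_eq_one d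
  let J : ℕ → L := fun i => d ^ i * j * (d ^ i)⁻¹
  have JP : ∀ i, J i ∈ (P : Subgroup L) := fun i =>
    (mem_normalizer_iff.1 ((normalizer (P : Set L)).pow_mem hd.1 i) j).1 hj
  have Jinj : ∀ i < 7, ∀ k < 7, J i = J k → i = k := fun i hi k hk e => by
    have m : (d ^ k)⁻¹ * d ^ i ∈ (P : Subgroup L) := by
      rw [← hC j hj j1, mem_centralizer_singleton_iff]
      calc (d ^ k)⁻¹ * d ^ i * j = (d ^ k)⁻¹ * J i * d ^ i := by simp only [J]; group
        _ = _ := by rw [e]; simp only [J]; group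
    have := free Q hQ _ m ((stabilizer L Q).mul_mem ((stabilizer L Q).inv_mem
      ((stabilizer L Q).pow_mem hd.2 k)) ((stabilizer L Q).pow_mem hd.2 i))
    exact (pow_injOn_Iio_orderOf (o7 ▸ hk) (o7 ▸ hi) (inv_mul_eq_one.1 this)).symm
  have Jall : ∀ p ∈ (P : Subgroup L), p ≠ 1 → ∃ i < 7, J i = p := fun p hp p1 => by
    have a : J '' Set.Iio 7 = ((P : Subgroup L) : Set L) \ {1} := Set.eq_of_subset_of_ncard_le
      (by
        rintro _ ⟨i, -, rfl⟩
        exact ⟨JP i, fun e => j1 (by simpa [J] using e)⟩)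
      (by
        rw [Set.InjOn.ncard_image (s := Set.Iio 7) fun i hi k hk => Jinj i hi k hk,
          Set.ncard_sdiff_singleton_of_mem (one_mem (P : Subgroup L)), ← Nat.card_coe_set_eq]
        simp only [Set.ncard_Iio_nat]
        exact (congrArg (· - 1) h8).le)
    exact (a.ge ⟨hp, p1⟩ : _)
  let Y := ⊤ ⊓ stabilizer (MulAut L) P ⊓ stabilizer (MulAut L) Q ⊓ stabilizer (MulAut L) (j • Q)
  have Yj : ∀ α ∈ Y, α j = j := fun α h => by
    have m : α j ∈ (P : Subgroup L) := by
      have : α • j ∈ ((α • P : Sylow 2 L) : Subgroup L) := smul_mem_pointwise_smul _ _ _ hj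
      rwa [show α • P = P from h.1.1.2] at this
    have e := aut_smul_conj α j Q
    rw [show α • Q = Q from h.1.2, show α • j • Q = j • Q from h.2] at e
    refine (inv_mul_eq_one.1 (free Q hQ _ ((P : Subgroup L).mul_mem
      ((P : Subgroup L).inv_mem hj) m) ?_)).symm
    rw [mul_smul, ← e, inv_smul_smul]
  have Yd : ∀ α ∈ Y, α d ∈ zpowers d := fun α h => by
    have e := aut_smul_conj α d Q
    have e' := aut_smul_conj α d P
    rw [show d • Q = Q from hd.2, show α • Q = Q from h.1.2] at e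
    rw [Sylow.smul_eq_iff_mem_normalizer.2 hd.1, show α • P = P from h.1.1.2] at e'
    exact zD ▸ ⟨Sylow.smul_eq_iff_mem_normalizer.1 e'.symm, e.symm⟩
  have Y1 : ∀ α ∈ Y, α d = d → α = 1 := fun α h e => faith α fun R => by
    by_cases c : R = P
    · exact c ▸ h.1.1.2
    obtain ⟨p, hp, rfl⟩ := reg Q hQ R c
    rw [aut_smul_conj, show α • Q = Q from h.1.2]
    by_cases p1 : p = 1
    · rw [p1, map_one]
    obtain ⟨i, -, rfl⟩ := Jall p hp p1
    simp only [J, map_mul, map_inv, map_pow, e, Yj α h]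
  have Y6 : ∀ α ∈ Y, α d ≠ d ^ 6 := fun α h e => by
    have aJ : ∀ i, α (J i) = J (6 * i % 7) := fun i => by
      simp only [J, map_mul, map_inv, map_pow, e, Yj α h, ← pow_mul]
      rw [← o7, pow_mod_orderOf]
    by_cases c : J 1 * J 6 = 1
    · have : J 1 = J 6 := by rw [eq_inv_of_mul_eq_one_left c, inv_eq_of_mul_eq_one_left (sq _ (JP 6))]
      exact absurd (Jinj 1 (by norm_num) 6 (by norm_num) this) (by norm_num)
    obtain ⟨i, hi, e1⟩ := Jall _ ((P : Subgroup L).mul_mem (JP 1) (JP 6)) c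
    have e2 : J (6 * i % 7) = J i := by
      rw [← aJ, e1, map_mul, aJ, aJ, cm _ (JP 1) _ (JP 6)]
    have i0 : i = 0 := by have := Jinj _ (Nat.mod_lt _ (by norm_num)) i hi e2; omega
    subst i0
    have e3 : J 1 = J 2 * J 0 := by
      have : J 1 = d * J 0 * d⁻¹ := by simp [J]
      calc J 1 = d * (J 1 * J 6) * d⁻¹ := by rw [← e1, this]
        _ = J 2 * (d ^ 7 * j * (d ^ 7)⁻¹) := by simp only [J]; group
        _ = _ := by simp [d7, J]
    have e4 : J 2 = J 6 := by
      calc J 2 = J 1 * J 0 := by rw [e3, mul_assoc, sq _ (JP 0), mul_one]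
        _ = J 6 := by rw [e1, ← mul_assoc, sq _ (JP 1), one_mul]
    exact absurd (Jinj 2 (by norm_num) 6 (by norm_num) e4) (by norm_num)
  have cY : Nat.card Y ≤ 3 := by
    have key : ∀ α ∈ Y, α d ∈ ({d, d ^ 2, d ^ 4} : Finset L) := fun α h => by
      obtain ⟨k, hk, e⟩ : ∃ k < 7, α d = d ^ k := by
        obtain ⟨k, hk, e⟩ := Finset.mem_image.1 (mem_zpowers_iff_mem_range_orderOf.1 (Yd α h))
        exact ⟨k, o7 ▸ Finset.mem_range.1 hk, e.symm⟩
      have e3 : (α ^ 3) d = d ^ (k ^ 3 % 7) := by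
        rw [← o7, pow_mod_orderOf]
        simp only [pow_succ, pow_zero, one_mul, MulAut.mul_apply, e, map_pow, pow_mul]
      have n6 := Y6 _ (Y.pow_mem h 3)
      rw [e3] at n6
      have n0 : k ≠ 0 := by
        rintro rfl
        rw [pow_zero, map_eq_one_iff _ α.injective] at e
        simp [e] at o7
      interval_cases k <;> simp_all
    refine (Nat.card_le_card_of_injective (fun α : Y => (⟨α.1 d, key _ α.2⟩ :
      ({d, d ^ 2, d ^ 4} : Finset L))) fun α β e => ?_).trans
      ((Nat.card_eq_finsetCard _).le.trans Finset.card_le_three)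
    refine Subtype.ext (inv_mul_eq_one.1 (Y1 _ (Y.mul_mem (Y.inv_mem α.2) β.2) ?_))
    rw [MulAut.mul_apply, ← Subtype.mk.inj e]
    simp
  have step : ∀ (K : Subgroup (MulAut L)) (R : Sylow 2 L) (A : Set (Sylow 2 L)),
      (∀ α ∈ K, α • R ∉ A) →
      Nat.card K ≤ (9 - A.ncard) * Nat.card ↥(K ⊓ stabilizer (MulAut L) R) := fun K R A h => by
    rw [H2.card_eq_orbit_mul K R {x | ∃ g ∈ K, g • R = x} fun _ => Iff.rfl, ← h9, ← Set.ncard_compl]
    refine Nat.mul_le_mul_right _ (Set.ncard_le_ncard ?_)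
    rintro _ ⟨g, hg, rfl⟩
    exact h g hg
  have s1 := step ⊤ P ∅ (by simp)
  have s2 := step (⊤ ⊓ stabilizer (MulAut L) P) Q {P} fun α h e =>
    hQ (smul_left_cancel α (e.trans (show α • P = P from h.2).symm))
  have jQ : j • Q ≠ Q := fun e => j1 (free Q hQ j hj e)
  have s3 := step (⊤ ⊓ stabilizer (MulAut L) P ⊓ stabilizer (MulAut L) Q) (j • Q) {P, Q}
    fun α h e => by
      rcases e with e | e
      · exact hR (smul_left_cancel α (e.trans (show α • P = P from h.1.2).symm))
      · exact jQ (smul_left_cancel α (e.trans (show α • Q = Q from h.2).symm))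
  rw [Set.ncard_pair hQ.symm] at s3
  rw [Set.ncard_singleton] at s2
  rw [Set.ncard_empty, card_top] at s1
  change _ ≤ _ * Nat.card Y at s3
  omega

end Aut

end H8
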