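import Cfsg.Agent.H8.Few3

/-!
Brauer's theorem on groups with few Sylow subgroups of prime order: the case of an automiser of
even order.
-/

set_option autoImplicit false
set_option linter.unusedVariables false
set_option linter.style.haveILetI false
set_option linter.unusedSectionVars false

namespace H8

open Subgroup Cfsg MulAction
open scoped ComplexConjugate Classical commutatorElement

universe u

variable {G : Type u} [Group G] [Fintype G] {p : ℕ} [hp : Fact p.Prime] {x : G} {h : DefOne p x}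

/-- a sign depending on the order of an element -/
noncomputable def sgnOrd (m : ℕ) : G → ℂ := fun g => if g ^ m = 1 then 1 else -1

theorem cf_sgnOrd (m : ℕ) : FT.CF ⊤ (sgnOrd m : G → ℂ) :=
  ⟨FT.on_top _, fun y _ g => by simp [sgnOrd, conj_pow]⟩

theorem norm_sgnOrd (m : ℕ) (g : G) : ‖sgnOrd m g‖ = 1 := by
  unfold sgnOrd; split_ifs <;> simp

theorem ip_reg_one {L : Subgroup G} {θ : G → ℂ} (hθ : FT.Chr L θ) :
    FT.ip L ((Nat.card L : ℂ) • FT.one ⊥) θ = θ 1 := by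
  rw [← relIndex_bot_left, ← FT.ind_one_eq bot_le (H5.le_normalizer_bot L), ← FT.conj_ip,
    FT.ip_ind_one bot_le hθ.cf bot_le, hθ.cc_apply_one]

theorem chr_reg_one (L : Subgroup G) : FT.Chr L ((Nat.card L : ℂ) • FT.one ⊥) := by
  rw [← relIndex_bot_left, ← FT.ind_one_eq bot_le (H5.le_normalizer_bot L)]
  exact (FT.chr_one ⊥).ind bot_le

/-- a virtual character that restricts to the regular character minus a linear character -/
theorem norm_eq_one_off {X E : Subgroup G} (hE : E ≤ X) (hn : X ≤ FT.Nor E) {f l : G → ℂ}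
    (hf : FT.VChr X f) (hl : FT.Lin E l) (h1 : l ≠ FT.one E)
    (hfE : ∀ y ∈ E, f y = ((Nat.card E : ℂ) • FT.one ⊥ - l : G → ℂ) y)
    (hle : ∀ g ∈ X, g ∉ E → ‖f g‖ ≤ 1) {g : G} (hg : g ∈ X) (hg' : g ∉ E) : f g ≠ 0 := by
  obtain ⟨A, hA, Y, hY, e, o1, o2⟩ := (FT.on_irrs (L := X) (S := FT.irrK X E)
    fun χ a => (FT.mem_irrK.mp a).1).split (fun χ a => (FT.mem_irrK.mp a).1.vchr) hf
  have a1 : E ≤ FT.cfker X A := fun y hy => FT.Zs_induction (P := fun A => y ∈ FT.cfker X A)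
    (fun χ a => (FT.mem_irrK.mp a).2 hy) (by rw [FT.cfker_zero]; exact hE hy)
    (fun _ _ => FT.mem_cfker_add) (fun _ => by rw [FT.cfker_neg]; exact id) hA
  have a2 : FT.ip E Y (FT.one E) = 0 := by
    rw [← FT.ip_ind_right hE _ hY.cf, ← FT.sum_irrK_smul hE hn, FT.ip_sum_right]
    exact Finset.sum_eq_zero fun χ a => by rw [FT.ip_smul_right, o1 χ a, mul_zero]
  have a3 : A 1 = 1 := by
    have := FT.ip_congr (L := E) hfE fun y _ => (rfl : FT.one E y = _)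
    rwa [e, FT.ip_add_left, a2, FT.ip_one_of_le_cfker a1, FT.ip_sub_left,
      ip_reg_one (FT.chr_one E), FT.one_one, hl.irr.ip_of_ne (FT.irr_one E) h1, add_zero,
      sub_zero] at this
  have a4 : FT.nrm E f = Nat.card E - 1 := by
    rw [FT.nrm_eq_re, FT.ip_congr hfE hfE, ← FT.nrm_eq_re, FT.nrm_sub, FT.nrm_eq_re,
      ip_reg_one (chr_reg_one E), ip_reg_one hl.chr, hl.irr.nrm, hl.apply_one]
    simp [FT.one_one]; ring
  have a5 : FT.nrm E f = 1 + FT.nrm E Y := by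
    have i1 : ∀ y ∈ E, A y = FT.one E y := fun y hy => by
      rw [FT.cfker_apply (a1 hy), a3, FT.one_of_mem hy]
    rw [e, FT.nrm_add_of_orth (by
      rw [FT.ip_congr i1 fun _ _ => rfl, FT.ip_eq_zero_comm, a2]), FT.nrm_eq_re E A,
      FT.ip_congr i1 i1, FT.ip_one_one]; simp
  have a6 := FT.nrm_res_le hE Y
  have a7 := (FT.vchr_of_mem_Zs (fun χ a => (FT.mem_irrK.mp a).1.vchr) hA).one_le_nrm
    fun c => by rw [c] at a3; exact zero_ne_one a3
  have a8 : FT.nrm X f = FT.nrm X A + FT.nrm X Y := by rw [e, FT.nrm_add_of_orth o2]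
  have a9 : Nat.card X * FT.nrm X f = Nat.card E * FT.nrm E f +
      ∑ y ∈ Finset.univ.filter (fun y => y ∈ X ∧ y ∉ E), ‖f y‖ ^ 2 := by
    rw [FT.nrm, FT.nrm, mul_inv_cancel_left₀ (by exact_mod_cast Nat.card_pos.ne'),
      mul_inv_cancel_left₀ (by exact_mod_cast Nat.card_pos.ne'),
      ← Finset.sum_filter_add_sum_filter_not _ (· ∈ E), Finset.filter_filter, Finset.filter_filter,
      Finset.filter_congr (q := (· ∈ E)) fun y _ => and_iff_right_of_imp fun a => hE a]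
  intro h0
  have b1 : ∑ y ∈ Finset.univ.filter (fun y => y ∈ X ∧ y ∉ E), ‖f y‖ ^ 2 <
      ∑ y ∈ Finset.univ.filter (fun y => y ∈ X ∧ y ∉ E), (1 : ℝ) :=
    Finset.sum_lt_sum (fun y hy => by
      obtain ⟨c1, c2⟩ := (Finset.mem_filter.mp hy).2
      exact pow_le_one₀ (norm_nonneg _) (hle y c1 c2)) ⟨g, by simp [hg, hg'], by simp [h0]⟩
  have b2 : ((Finset.univ.filter (fun y => y ∈ X ∧ y ∉ E)).card : ℝ) = Nat.card X - Nat.card E := by
    rw [← FT.card_filter_mem X, ← FT.card_filter_mem E, ← Finset.card_filter_add_card_filter_not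
      (s := Finset.univ.filter (· ∈ X)) (· ∈ E), Finset.filter_filter, Finset.filter_filter,
      Finset.filter_congr (q := (· ∈ E)) fun y _ => and_iff_right_of_imp fun a => hE a]
    simp
  rw [Finset.sum_const, nsmul_eq_mul, mul_one, b2] at b1
  have b3 : (Nat.card X : ℝ) = Nat.card E * E.relIndex X := by
    exact_mod_cast (H5.card_mul_relIndex hE).symm
  have b4 : (0 : ℝ) < Nat.card E := by exact_mod_cast Nat.card_pos
  have b5 : (0 : ℝ) ≤ E.relIndex X := by positivity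
  rw [a8, b3] at a9
  rw [b3] at b1
  nlinarith [mul_le_mul_of_nonneg_left a6 b4.le, mul_le_mul_of_nonneg_left a7 (mul_nonneg b4.le b5)]

theorem fixedBy_pow_sub {α : Type*} [MulAction G α] (g : G) (k : ℕ) :
    fixedBy α g ⊆ fixedBy α (g ^ k) := by
  simpa using fixedBy_subset_fixedBy_zpow α g k

namespace Few
variable {n : ℕ} (f : Few h n) (b : h.Block)
include f

theorem nu_eq_one {y : Nx x} : h.nu y = 1 ↔ (y : G) ∈ zpowers x := by
  rw [h.nu_eq_one_iff, f.Cx_eq]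

theorem pow_mem_P {y : G} (hy : y ∈ Nx x) : y ^ Nat.card h.H ∈ zpowers x :=
  (f.nu_eq_one (y := ⟨y, hy⟩ ^ Nat.card h.H)).mp (by
    rw [map_pow]; exact congrArg Subtype.val (pow_card_eq_one' (G := h.H) (x := ⟨_, _, rfl⟩)))

theorem pow_P {u : G} (hu : u ∈ zpowers x) : u ^ p = 1 :=
  orderOf_dvd_iff_pow_eq_one.mp (h.card_zpowers ▸ orderOf_dvd_natCard _ hu)

theorem sgnOrd_N (r : ℕ) (y : Nx x) :
    sgnOrd (r * p) (y : G) = if h.nu y ^ r = 1 then 1 else -1 := by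
  refine if_congr ?_ rfl rfl
  rw [← map_pow, f.nu_eq_one, pow_mul]
  exact ⟨h.mem_zpowers_of_mem_Nx (pow_mem y.2 r), f.pow_P⟩

theorem lin_sgnOrd {r : ℕ} (hr : Nat.card h.H = r + r) :
    FT.Lin (Nx x) (FT.res (Nx x) (sgnOrd (r * p))) := by
  have h1 : ∀ y : Nx x, h.nu y ^ r = 1 ∨ h.nu y ^ r = -1 := fun y => by
    have : h.nu y ^ r * h.nu y ^ r = 1 := by
      rw [← pow_add, ← hr]
      exact congrArg Subtype.val (pow_card_eq_one' (G := h.H) (x := ⟨_, _, rfl⟩))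
    simpa [Units.ext_iff] using mul_self_eq_one_iff.mp (congrArg Units.val this)
  have h2 : (-1 : (ZMod p)ˣ) ≠ 1 := fun e => by
    haveI : Fact (2 < p) := ⟨f.three_le⟩
    exact ZMod.neg_one_ne_one (by simpa using congrArg Units.val e)
  refine FT.lin_of_mul (FT.on_res _ _) (by simp [FT.res_one, sgnOrd]) fun a ha c hc => ?_
  rw [FT.res_of_mem _ ha, FT.res_of_mem _ hc, FT.res_of_mem _ (mul_mem ha hc),
    f.sgnOrd_N r ⟨a, ha⟩, f.sgnOrd_N r ⟨c, hc⟩,
    show sgnOrd _ (a * c) = _ from f.sgnOrd_N r (⟨a, ha⟩ * ⟨c, hc⟩), map_mul, mul_pow]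
  rcases h1 ⟨a, ha⟩ with e | e <;> rcases h1 ⟨c, hc⟩ with e' | e' <;> simp [e, e', h2]

theorem inv_not_mem {i : G} (h1 : i ≠ 1) (h2 : i * i = 1) : i ∉ zpowers x := fun c => by
  obtain ⟨k, hk⟩ := f.odd_p
  have := f.pow_P c
  rw [hk, pow_succ, pow_mul, pow_two, h2, one_pow, one_mul] at this
  exact h1 this

theorem exists_conj_inv {i w : G} (hi : i ∈ Nx x) (h1 : i ≠ 1) (h2 : i * i = 1)
    (hw : w ∈ zpowers x) : ∃ u ∈ zpowers x, u * i * u⁻¹ = w * i := by
  obtain ⟨k, hk⟩ := f.odd_p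
  have a1 := pow_mem hw (k + 1)
  refine ⟨_, a1, ?_⟩
  have a2 : i * (w ^ (k + 1))⁻¹ ∉ zpowers x := fun c =>
    f.inv_not_mem h1 h2 ((mul_mem_cancel_right (inv_mem a1)).mp c)
  have a3 : i * (w ^ (k + 1))⁻¹ * (i * (w ^ (k + 1))⁻¹) = 1 := by
    refine mem_bot.mp (f.inf_cen a2 ▸ mem_inf.mpr ⟨?_, mem_centralizer_singleton_iff.mpr (by group)⟩)
    have := mul_mem (H5.conj_mem_of_le_normalizer le_rfl hi (inv_mem a1)) (inv_mem a1)
    rwa [inv_eq_of_mul_eq_one_right h2, mul_assoc _ i] at this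
  have a4 : w ^ (k + 1) * w ^ (k + 1) = w := by
    rw [← pow_add, show k + 1 + (k + 1) = p + 1 by omega, pow_succ, f.pow_P hw, one_mul]
  rw [mul_assoc, eq_inv_of_mul_eq_one_left a3, mul_inv_rev, inv_inv, ← mul_assoc, a4,
    inv_eq_of_mul_eq_one_right h2]

theorem mul_inv_mem {i j : G} (hi : i ∈ Nx x) (h1 : i ≠ 1) (h2 : i * i = 1) (hj : j ∈ Nx x)
    (h3 : j ≠ 1) (h4 : j * j = 1) : j * i⁻¹ ∈ zpowers x := by
  have key : ∀ y : Nx x, (y : G) ≠ 1 → (y : G) * y = 1 → h.nu y = -1 := fun y a c => by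
    have : h.nu y * h.nu y = 1 := by rw [← map_mul, show y * y = 1 from Subtype.ext c, map_one]
    rcases mul_self_eq_one_iff.mp (congrArg Units.val this) with e | e
    · exact absurd (f.nu_eq_one.mp (Units.ext e)) (f.inv_not_mem a c)
    · exact Units.ext e
  exact (f.nu_eq_one (y := ⟨j, hj⟩ * ⟨i, hi⟩⁻¹)).mp (by
    rw [map_mul, map_inv, key _ h3 h4, key _ h1 h2, mul_inv_cancel])

theorem sd_inv {i : G} (hi : i ∈ Nx x) (h1 : i ≠ 1) (h2 : i * i = 1) :
    FT.SD (zpowers x) (FT.Cen1 i ⊓ Nx x) (Nx x) := by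
  refine ⟨le_antisymm (sup_le f.P_le inf_le_right) fun y hy => ?_, by
    rw [← inf_assoc, f.inf_cen (f.inv_not_mem h1 h2), bot_inf_eq], inf_le_right⟩
  obtain ⟨u, hu, e⟩ := f.exists_conj_inv hi h1 h2 (f.der_le (commutator_mem_commutator hy hi))
  rw [← mul_inv_cancel_left u y]
  refine mul_mem (mem_sup_left hu) (mem_sup_right (mem_inf.mpr
    ⟨mem_centralizer_singleton_iff.mpr ?_, mul_mem (inv_mem (f.P_le hu)) hy⟩))
  calc _ = u⁻¹ * (⁅y, i⁆ * i) * y := by group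
    _ = _ := by rw [← e]; group

theorem card_cen_inf {i : G} (hi : i ∈ Nx x) (h1 : i ≠ 1) (h2 : i * i = 1) :
    Nat.card ↥(FT.Cen1 i ⊓ Nx x) = Nat.card h.H := by
  rw [← (f.sd_inv hi h1 h2).relIndex_left, f.relIndex_P]

theorem card_cen {i : G} (hi : i ∈ Nx x) (h1 : i ≠ 1) (h2 : i * i = 1) :
    Nat.card (FT.Cen1 i) = (n + 1) * Nat.card h.H := by
  have a1 := card_fixedBy_mul_card' (Nx x) i
  have a2 := f.permN_N hi (f.inv_not_mem h1 h2)
  rw [permN_apply, Nat.cast_inj] at a2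
  have a3 : Nat.card (zpowers x) = Nat.card {y : G // IsConj i y ∧ y ∈ Nx x} :=
    Nat.card_eq_of_bijective (fun w => ⟨w * i, by
      obtain ⟨u, -, e⟩ := f.exists_conj_inv hi h1 h2 w.2
      exact isConj_iff.mpr ⟨u, e⟩, mul_mem (f.P_le w.2) hi⟩)
      ⟨fun a c e => Subtype.ext (mul_right_cancel (congrArg Subtype.val e)), fun ⟨y, c1, c2⟩ => by
        obtain ⟨g, rfl⟩ := isConj_iff.mp c1
        exact ⟨⟨_, f.mul_inv_mem hi h1 h2 c2 (by simpa using h1) (by
          rw [conj_mul, h2]; simp)⟩, Subtype.ext (inv_mul_cancel_right _ _)⟩⟩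
  rw [a2, ← a3, f.card_N, h.card_zpowers] at a1
  exact Nat.eq_of_mul_eq_mul_right hp.out.pos (a1.symm.trans (by ring))

theorem card_fixedBy {g : G} (h1 : g ≠ 1) (h2 : ¬ p ∣ orderOf g)
    (h3 : (fixedBy (G ⧸ Nx x) g).Nonempty) : Nat.card (fixedBy (G ⧸ Nx x) g) = n + 1 := by
  obtain ⟨a, ha⟩ := h3
  obtain ⟨y, rfl⟩ := QuotientGroup.mk_surjective a
  have a1 := f.permN_N ((smul_mk_eq_iff _ g y).mp ha) fun c => h2 (by
    rw [← orderOf_inv_conj y, orderOf_eq_of_mem_of_card_prime h.card_zpowers c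
      fun e => h1 (by simpa using (conj_eq_one_iff (a := y⁻¹) (b := g)).mp (by simpa using e))])
  rwa [permN_chr.cf.cnj' (mem_top y), permN_apply, Nat.cast_inj] at a1

theorem fixedBy_pow {g : G} {k : ℕ} (h1 : g ^ k ≠ 1) (h2 : ¬ p ∣ orderOf g)
    (h3 : (fixedBy (G ⧸ Nx x) g).Nonempty) :
    fixedBy (G ⧸ Nx x) g = fixedBy (G ⧸ Nx x) (g ^ k) :=
  Set.eq_of_subset_of_ncard_le (fixedBy_pow_sub g k) (by
    rw [← Nat.card_coe_set_eq, ← Nat.card_coe_set_eq, f.card_fixedBy h1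
      (fun c => h2 (c.trans (orderOf_pow_dvd k))) (h3.mono (fixedBy_pow_sub g k)),
      f.card_fixedBy (fun e => h1 (by rw [e, one_pow])) h2 h3])

theorem even_block {r : ℕ} (hr : Nat.card h.H = r + r)
    (hne : FT.res (Nx x) (sgnOrd (r * p)) ≠ FT.one (Nx x)) : b.sgn0 = 1 ∧ b.E.card = n + 1 ∧
      ∀ g, ¬ p ∣ orderOf g → (n + 1 : ℕ) * (b.ex 1).1 g = permN x g * sgnOrd (r * p) g := by
  have hl := f.lin_sgnOrd hr
  have a1 : FT.ind (Nx x) ⊤ (FT.res (Nx x) (sgnOrd (r * p))) = permN x * sgnOrd (r * p) := by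
    rw [permN, ← FT.ind_mul_res (cf_sgnOrd _), hl.on.one_mul]
  have a2 : classInner (permN x * sgnOrd (r * p)) (permN x * sgnOrd (r * p)) = (n + 1 : ℕ) := by
    rw [← f.ip_permN_self, ← FT.ip_top, ← FT.ip_top, FT.ip_self, FT.ip_self, FT.nrm, FT.nrm]
    simp [norm_sgnOrd]
  rcases f.ind_decomp b (FT.mem_irrK.mpr ⟨hl.irr, fun u hu => hl.mem_cfker.mpr (by
    rw [FT.res_of_mem _ (f.P_le hu), sgnOrd, if_pos (by rw [pow_mul', f.pow_P hu, one_pow])])⟩) hne
    with ⟨χ, -, -, c⟩ | ⟨c1, c2⟩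
  · rw [← a1, c, irr_classInner_self χ.2] at a2
    have : 1 = n + 1 := by exact_mod_cast a2
    have := f.pos
    omega
  have a3 : b.E.card = n + 1 := by
    rw [← a1, c2, classInner_sum_left, Finset.sum_congr rfl (g := fun _ => 1) fun θ hθ => by
      rw [classInner_sum_right, Finset.sum_eq_single_of_mem θ hθ fun ψ _ c =>
        irr_classInner_of_ne θ.2 ψ.2 fun e => c (Subtype.ext e).symm, irr_classInner_self θ.2],
      Finset.sum_const, nsmul_eq_mul, mul_one] at a2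
    exact_mod_cast a2
  refine ⟨c1, a3, fun g hg => ?_⟩
  rw [← Pi.mul_apply, ← a1, c2, Finset.sum_apply, b.sum_E_reg 1 _ fun l => b.ex_apply_reg l 1 hg,
    nsmul_eq_mul, a3]

end Few

end H8
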