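import Cfsg.Agent.H8.Few4
import Cfsg.Agent.H9.Psl2Even

/-!
Brauer's theorem on groups with few Sylow subgroups of prime order: the centraliser of an
involution and the identification of the group.
-/

set_option autoImplicit false
set_option linter.unusedVariables false
set_option linter.style.haveILetI false
set_option linter.unusedSectionVars false

namespace H8

open Subgroup Cfsg MulAction
open scoped ComplexConjugate Classical commutatorElement MatrixGroups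

universe u

variable {G : Type u} [Group G] [Fintype G] {p : ℕ} [hp : Fact p.Prime] {x : G} {h : DefOne p x}

theorem base_mem_fixedBy {N : Subgroup G} {y : G} : ((1 : G) : G ⧸ N) ∈ fixedBy (G ⧸ N) y ↔ y ∈ N := by
  rw [mem_fixedBy, smul_mk_eq_iff, inv_one, one_mul, mul_one]

namespace Few
variable {n : ℕ} (f : Few h n) {i : G} (hi : i ∈ Nx x) (h1 : i ≠ 1) (h2 : i * i = 1)
include f h1 h2

theorem reg_cen {g : G} (hg : g ∈ FT.Cen1 i) : ¬ p ∣ orderOf g := fun c =>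
  h.not_dvd_card_Cx f.V_eq h1 (fun e => by
    have := Nat.le_of_dvd two_pos (e.trans (orderOf_dvd_of_pow_eq_one (pow_two i ▸ h2)))
    have := f.three_le
    omega) (c.trans (orderOf_dvd_natCard _ hg))

include hi

theorem exists_gen : ∃ z, zpowers z = FT.Cen1 i ⊓ Nx x :=
  (Subgroup.isCyclic_iff_exists_zpowers_eq_top _).mp (isCyclic_of_injective
    (h.nu.comp (inclusion inf_le_right)) ((injective_iff_map_eq_one _).mpr fun y hy =>
      Subtype.ext (mem_bot.mp (f.inf_cen (f.inv_not_mem h1 h2) ▸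
        mem_inf.mpr ⟨f.nu_eq_one.mp hy, y.2.1⟩))))

theorem fix_E {y : G} (hy : y ∈ FT.Cen1 i ⊓ Nx x) (hy1 : y ≠ 1) :
    fixedBy (G ⧸ Nx x) y = fixedBy (G ⧸ Nx x) i := by
  obtain ⟨z, hz⟩ := f.exists_gen hi h1 h2
  have a1 : z ∈ FT.Cen1 i ⊓ Nx x := hz ▸ mem_zpowers z
  have key : ∀ w ∈ FT.Cen1 i ⊓ Nx x, w ≠ 1 → fixedBy (G ⧸ Nx x) z = fixedBy (G ⧸ Nx x) w :=
    fun w hw hw1 => by
      obtain ⟨k, rfl⟩ := mem_powers_iff_mem_zpowers.mpr (hz ▸ hw : w ∈ zpowers z)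
      exact f.fixedBy_pow hw1 (f.reg_cen h1 h2 a1.1) ⟨_, base_mem_fixedBy.mpr a1.2⟩
  rw [← key y hy hy1, ← key i ⟨mem_centralizer_singleton_iff.mpr rfl, hi⟩ h1]

theorem mem_of_fix {g : G} (hg : g ∈ FT.Cen1 i) {ω : G ⧸ Nx x} (a1 : ω ∈ fixedBy (G ⧸ Nx x) g)
    (a2 : ω ∈ fixedBy (G ⧸ Nx x) i) : g ∈ FT.Cen1 i ⊓ Nx x := by
  obtain ⟨y, rfl⟩ := QuotientGroup.mk_surjective ω
  have a3 : FT.Cen1 i ⊓ Nx x ≤ FT.Cen1 i ⊓ stabilizer G (y : G ⧸ Nx x) := fun w hw => ⟨hw.1, by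
    by_cases c : w = 1
    · rw [c]; exact one_mem _
    · exact (f.fix_E hi h1 h2 hw c ▸ a2 : _ ∈ fixedBy (G ⧸ Nx x) w)⟩
  have a4 : (FT.Cen1 i ⊓ stabilizer G (y : G ⧸ Nx x)).map (MulAut.conj y⁻¹).toMonoidHom ≤
      FT.Cen1 (y⁻¹ * i * y) ⊓ Nx x := by
    rintro _ ⟨w, ⟨c1, c2⟩, rfl⟩
    refine mem_inf.mpr ⟨mem_centralizer_singleton_iff.mpr ?_, by
      simpa using (smul_mk_eq_iff _ w y).mp c2⟩
    have := mem_centralizer_singleton_iff.mp c1
    calc _ = y⁻¹ * (w * i) * y := by simp [mul_assoc]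
      _ = _ := by rw [this]; simp [mul_assoc]
  have a5 := card_le_of_le a4
  rw [H5.card_map_conj, f.card_cen_inf ((smul_mk_eq_iff _ i y).mp a2)
    (fun e => h1 (by simpa using (conj_eq_one_iff (a := y⁻¹) (b := i)).mp (by simpa using e)))
    (by calc _ = y⁻¹ * (i * i) * y := by group
      _ = 1 := by rw [h2]; simp), ← f.card_cen_inf hi h1 h2] at a5
  rw [eq_of_le_of_card_ge a3 a5]
  exact ⟨hg, a1⟩

theorem cen_le_nor : FT.Cen1 i ≤ FT.Nor (FT.Cen1 i ⊓ Nx x) := fun g hg =>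
  H5.mem_normalizer_of_forall fun y hy => by
    refine mem_inf.mpr ⟨mul_mem (mul_mem hg hy.1) (inv_mem hg), base_mem_fixedBy.mp ?_⟩
    by_cases c : y = 1
    · simp [c]
    have a1 : g * i * g⁻¹ = i := by rw [mem_centralizer_singleton_iff.mp hg]; simp
    rw [← smul_fixedBy, f.fix_E hi h1 h2 hy c, smul_fixedBy, a1]
    exact base_mem_fixedBy.mpr hi

theorem fix_nonempty {r : ℕ} (hr : Nat.card h.H = r + r) : (n + 1) * Nat.card h.H = p - 1 ∧
    ∀ g ∈ FT.Cen1 i, (fixedBy (G ⧸ Nx x) g).Nonempty := by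
  obtain ⟨b⟩ := h.nonempty_block
  obtain ⟨z, hz⟩ := f.exists_gen hi h1 h2
  have a1 : z ∈ FT.Cen1 i ⊓ Nx x := hz ▸ mem_zpowers z
  have hE := f.card_cen_inf hi h1 h2
  have a2 : sgnOrd (r * p) z ≠ 1 := by
    rw [sgnOrd, if_neg fun c => ?_]
    · norm_num
    have c1 := (Nat.Coprime.dvd_mul_right ((Nat.coprime_comm.mp (hp.out.coprime_iff_not_dvd.mpr
      (f.reg_cen h1 h2 a1.1))))).mp (orderOf_dvd_of_pow_eq_one c)
    rw [← Nat.card_zpowers, hz, hE] at c1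
    have := f.one_lt_H
    have := Nat.le_of_dvd (by omega) c1
    omega
  obtain ⟨a3, a4, a5⟩ := f.even_block b hr fun e => a2 (by
    rw [← FT.res_of_mem (K := Nx x) (sgnOrd _) a1.2, e, FT.one_of_mem a1.2])
  have a6 := b.card_E_mul
  rw [a4] at a6
  refine ⟨a6, fun g hg => ?_⟩
  by_cases hg' : g ∈ FT.Cen1 i ⊓ Nx x
  · exact ⟨_, base_mem_fixedBy.mpr hg'.2⟩
  have hn0 : ((n + 1 : ℕ) : ℂ) ≠ 0 := by exact_mod_cast n.succ_ne_zero
  have a7 : ∀ y ∈ FT.Cen1 i, y ≠ 1 → (fixedBy (G ⧸ Nx x) y).Nonempty →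
      (b.ex 1).1 y = sgnOrd (r * p) y := fun y hy c1 c2 => mul_left_cancel₀ hn0 (by
    rw [a5 y (f.reg_cen h1 h2 hy), permN_apply, f.card_fixedBy c1 (f.reg_cen h1 h2 hy) c2])
  have a8 : ∀ y ∈ FT.Cen1 i, ¬ (fixedBy (G ⧸ Nx x) y).Nonempty → (b.ex 1).1 y = 0 :=
    fun y hy c => mul_left_cancel₀ hn0 (by
      rw [a5 y (f.reg_cen h1 h2 hy), permN_apply, Set.not_nonempty_iff_eq_empty.mp c]; simp)
  have a9 : ∀ y ∈ FT.Cen1 i, y ≠ 1 → ((Nat.card (FT.Cen1 i) : ℂ) • FT.one ⊥ -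
      FT.res (FT.Cen1 i) (b.ex 1).1 : G → ℂ) y = -(b.ex 1).1 y := fun y hy c => by
    rw [Pi.sub_apply, Pi.smul_apply, FT.one_of_not_mem (mt mem_bot.mp c), FT.res_of_mem _ hy]; simp
  by_contra c
  refine norm_eq_one_off inf_le_left (f.cen_le_nor hi h1 h2) ((chr_reg_one _).vchr.sub
    ((FT.irr_top_iff.mpr (b.ex 1).2).vchr.res le_top)) ((f.lin_sgnOrd hr).res inf_le_right)
    (fun e => a2 (by
      have := congrFun e z
      rwa [FT.res_of_mem _ a1, FT.res_of_mem _ (mem_inf.mp a1).2, FT.one_of_mem a1] at this))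
    (fun y hy => ?_) (fun y hy hy' => ?_) hg hg' (by
      rw [a9 g hg fun e => hg' (e ▸ one_mem _), a8 g hg c, neg_zero])
  · by_cases c : y = 1
    · have d1 := b.deg_ex_pos f.perf f.index f.lt f.bound 1 a3
      have d2 : Nat.card (FT.Cen1 i) + 1 = deg (b.ex 1) + Nat.card h.H := by
        rw [f.card_cen hi h1 h2]
        refine Nat.eq_of_mul_eq_mul_left n.succ_pos ?_
        have := f.three_le
        have d0 : p = (n + 1) * Nat.card h.H + 1 := by omega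
        rw [mul_add _ (deg _), Nat.succ_eq_add_one, ← a4, d1, a4]
        nlinarith
      have d3 := congrArg (Nat.cast : ℕ → ℂ) d2
      simp only [c, Pi.sub_apply, Pi.smul_apply, FT.one_one, FT.res_one, hE, deg_eq, sgnOrd,
        one_pow, if_true, smul_eq_mul, mul_one]
      push_cast at d3
      linear_combination d3
    · rw [a9 y hy.1 c, a7 y hy.1 c ⟨_, base_mem_fixedBy.mpr hy.2⟩, Pi.sub_apply, Pi.smul_apply,
        FT.one_of_not_mem (mt mem_bot.mp c), FT.res_of_mem _ hy, FT.res_of_mem _ (mem_inf.mp hy).2]; simp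
  · have c1 : y ≠ 1 := fun e => hy' (e ▸ one_mem _)
    rw [a9 y hy c1, norm_neg]
    by_cases c2 : (fixedBy (G ⧸ Nx x) y).Nonempty
    · rw [a7 y hy c1 c2, norm_sgnOrd]
    · rw [a8 y hy c2]; simp

theorem mul_self_eq_one (hX : ∀ g ∈ FT.Cen1 i, (fixedBy (G ⧸ Nx x) g).Nonempty) {g : G}
    (hg : g ∈ FT.Cen1 i) (hg' : g ∉ FT.Cen1 i ⊓ Nx x) : g * g = 1 := by
  by_contra c
  have a0 : i ∈ FT.Cen1 i := mem_centralizer_singleton_iff.mpr rfl
  have a1 : (g * i) ^ 2 = g ^ 2 := by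
    rw [Commute.mul_pow (mem_centralizer_singleton_iff.mp hg), pow_two i, h2, mul_one]
  have a2 : g ^ 2 ≠ 1 := by rwa [pow_two]
  have a3 := f.fixedBy_pow (a1 ▸ a2 : (g * i) ^ 2 ≠ 1) (f.reg_cen h1 h2 (mul_mem hg a0))
    (hX _ (mul_mem hg a0))
  rw [a1, ← f.fixedBy_pow a2 (f.reg_cen h1 h2 hg) (hX g hg)] at a3
  obtain ⟨ω, hω⟩ := hX g hg
  refine hg' (f.mem_of_fix hi h1 h2 hg hω ?_)
  have a4 : (g * i) • ω = ω := (a3 ▸ hω : ω ∈ fixedBy (G ⧸ Nx x) (g * i))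
  rw [mem_fixedBy, ← smul_left_cancel_iff g, ← mul_smul, a4, hω]

theorem even_cases {r : ℕ} (hr : Nat.card h.H = r + r) : (n + 1) * Nat.card h.H = p - 1 ∧
    (n = 1 ∨ Nat.card h.H = 2 ∧ ∀ s ∈ FT.Cen1 i, s * s = 1 ∧ (s ≠ 1 → IsConj i s)) := by
  obtain ⟨a1, hX⟩ := f.fix_nonempty hi h1 h2 hr
  refine ⟨a1, or_iff_not_imp_left.mpr fun hn => ?_⟩
  have hE := f.card_cen_inf hi h1 h2
  have a2 : (FT.Cen1 i ⊓ Nx x).relIndex (FT.Cen1 i) = n + 1 := by
    have := H5.card_mul_relIndex (inf_le_left : FT.Cen1 i ⊓ Nx x ≤ _)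
    rw [hE, f.card_cen hi h1 h2, mul_comm] at this
    exact Nat.eq_of_mul_eq_mul_right Nat.card_pos this
  have hp := f.pos
  obtain ⟨a, a3, a4⟩ : ∃ a ∈ FT.Cen1 i, a ∉ FT.Cen1 i ⊓ Nx x := by
    by_contra! c
    rw [relIndex_eq_one.mpr c] at a2
    omega
  obtain ⟨c, c1, c2, c3⟩ : ∃ c ∈ FT.Cen1 i, c * a ∉ FT.Cen1 i ⊓ Nx x ∧ c ∉ FT.Cen1 i ⊓ Nx x := by
    by_contra! c
    rw [relIndex_eq_two_iff_exists_notMem_and.mpr ⟨a, a3, a4, fun b hb =>
      or_iff_not_imp_left.mpr (c b hb)⟩] at a2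
    omega
  have inv : ∀ g ∈ FT.Cen1 i, g ∉ FT.Cen1 i ⊓ Nx x → ∀ y ∈ FT.Cen1 i ⊓ Nx x, g * y * g⁻¹ = y⁻¹ :=
    fun g hg hg' y hy => by
      have d1 := f.mul_self_eq_one hi h1 h2 hX hg hg'
      have d2 := f.mul_self_eq_one hi h1 h2 hX (mul_mem hg hy.1)
        fun e => hg' ((mul_mem_cancel_right hy).mp e)
      rw [inv_eq_of_mul_eq_one_right d1, eq_inv_iff_mul_eq_one, mul_assoc, d2]
  have a5 : ∀ y ∈ FT.Cen1 i ⊓ Nx x, y * y = 1 := fun y hy => by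
    have d1 := inv _ (mul_mem c1 a3) c2 y hy
    rw [show c * a * y * (c * a)⁻¹ = c * (a * y * a⁻¹) * c⁻¹ by group, inv a a3 a4 y hy,
      inv c c1 c3 _ (inv_mem hy), inv_inv] at d1
    exact mul_eq_one_iff_eq_inv.mpr d1
  have a6 : ∀ s ∈ FT.Cen1 i, s * s = 1 := fun s hs => by
    by_cases e : s ∈ FT.Cen1 i ⊓ Nx x
    exacts [a5 s e, f.mul_self_eq_one hi h1 h2 hX hs e]
  refine ⟨?_, fun s hs => ⟨a6 s hs, fun hs1 => ?_⟩⟩
  · obtain ⟨z, hz⟩ := f.exists_gen hi h1 h2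
    have := Nat.le_of_dvd two_pos (orderOf_dvd_of_pow_eq_one
      (pow_two z ▸ a5 z (hz ▸ mem_zpowers z) : z ^ 2 = 1))
    rw [← Nat.card_zpowers, hz, hE] at this
    have := f.one_lt_H
    omega
  obtain ⟨ω, hω⟩ := hX s hs
  obtain ⟨y, rfl⟩ := QuotientGroup.mk_surjective ω
  obtain ⟨u, -, e⟩ := f.exists_conj_inv hi h1 h2 (f.mul_inv_mem hi h1 h2
    ((smul_mk_eq_iff _ s y).mp hω)
    (fun e => hs1 (by simpa using (conj_eq_one_iff (a := y⁻¹) (b := s)).mp (by simpa using e)))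
    (by calc _ = y⁻¹ * (s * s) * y := by group
      _ = 1 := by rw [a6 s hs]; simp))
  exact isConj_iff.mpr ⟨y * u, by
    rw [show y * u * i * (y * u)⁻¹ = y * (u * i * u⁻¹) * y⁻¹ by group, e]; group⟩

end Few

/-- the conclusion of Brauer's theorem -/
def FewConcl (G : Type u) [Group G] (p : ℕ) : Prop :=
  (∃ (F : Type) (_ : Field F) (_ : Fintype F), Fintype.card F = p ∧ 3 < p ∧
    Nonempty (G ≃* PSL(2, F))) ∨
  ∃ (m : ℕ) (F : Type) (_ : Field F) (_ : Fintype F), Fintype.card F = 2 ^ m ∧ p = 2 ^ m + 1 ∧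
    3 < p ∧ Nonempty (G ≃* PSL(2, F))

theorem Few.concl [IsSimpleGroup G] {n : ℕ} (f : Few h n) : FewConcl G p := by
  have h1 := f.one_lt_H
  have key : n = 1 → 2 * Nat.card h.H = p - 1 → FewConcl G p := fun a1 a2 =>
    Or.inl ⟨ZMod p, inferInstance, inferInstance, ZMod.card p, by omega,
      H9.iso_psl2_prime (p := p) (m := (p + 1) * Nat.card h.H) (by omega) (Nat.card_zmod p)
        (by rw [f.card_G, a1]; ring) (by rw [← a2]; ring) (by rw [h.card_sylow, f.index, a1, one_mul])⟩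
  rcases Nat.even_or_odd (Nat.card h.H) with ⟨r, hr⟩ | ho
  swap
  · exact key (f.of_odd ho).1 (f.of_odd ho).2
  haveI := Fact.mk Nat.prime_two
  obtain ⟨⟨i, hi⟩, hi'⟩ := exists_prime_orderOf_dvd_card' (G := Nx x) 2
    (by rw [f.card_N, hr, ← two_mul]; exact (dvd_mul_right 2 r).mul_left p)
  rw [← orderOf_coe] at hi'
  have a1 : i ≠ 1 := fun e => by simp [e] at hi'
  have a2 : i * i = 1 := by rw [← pow_two, ← hi']; exact pow_orderOf_eq_one _
  obtain ⟨a3, a4 | ⟨a4, a5⟩⟩ := f.even_cases hi a1 a2 hr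
  · exact key a4 (by rw [← a3, a4])
  have a6 := f.card_cen hi a1 a2
  obtain ⟨m, hm⟩ := IsPGroup.iff_card.mp (show IsPGroup 2 (FT.Cen1 i) from fun s =>
    ⟨1, Subtype.ext (by simpa [pow_two] using (a5 s s.2).1)⟩)
  have hn := f.pos
  rw [a4] at a3 a6
  have a7 : p = 2 ^ m + 1 := by rw [← hm, a6]; omega
  have hm0 : m ≠ 0 := fun e => by rw [e] at a7; omega
  haveI := Fintype.ofFinite (GaloisField 2 m)
  have a8 := GaloisField.card 2 m hm0
  refine Or.inr ⟨m, GaloisField 2 m, inferInstance, inferInstance,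
    Nat.card_eq_fintype_card.symm.trans a8, a7, by omega, H9.iso_psl2_even (by rw [a8]; omega)
      (ringChar.eq _ 2) (FT.Cen1 i) (hm.trans a8.symm) (fun s hs => pow_two s ▸ (a5 s hs).1)
      (fun s hs c => (eq_of_le_of_card_ge (fun y hy => mem_centralizer_singleton_iff.mpr ?_)
        ?_).symm) (fun s hs c t ht d => ((a5 s hs).2 c).symm.trans ((a5 t ht).2 d)) ?_⟩
  · rw [← inv_eq_of_mul_eq_one_right (a5 _ (mul_mem hy hs)).1, mul_inv_rev,
      inv_eq_of_mul_eq_one_right (a5 _ hs).1, inv_eq_of_mul_eq_one_right (a5 _ hy).1]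
  · obtain ⟨y, rfl⟩ := isConj_iff.mp ((a5 s hs).2 c)
    exact (H9.card_Cen_conj i y).le
  · rw [a8, f.card_G, ← hm, a6, a4, show p = (n + 1) * 2 + 1 by omega,
      show (n + 1) * 2 - 1 = 2 * n + 1 by omega]
    ring

end H8
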