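import Cfsg.Agent.H8.Few5
import Cfsg.Agent.FT.BG1c

/-!
Brauer's theorem on groups with few Sylow subgroups of prime order and the theorem of Brauer and
Reynolds.
-/

set_option autoImplicit false
set_option linter.unusedVariables false
set_option linter.style.haveILetI false
set_option linter.unusedSectionVars false

namespace H8

open Subgroup Cfsg MulAction
open scoped ComplexConjugate Classical commutatorElement MatrixGroups

universe u

variable {G : Type u} [Group G] [Fintype G] {p : ℕ} [hp : Fact p.Prime] {x : G} {h : DefOne p x}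

theorem sup_der_eq_top (hG : _root_.commutator G = ⊤) {M K : Subgroup G} [M.Normal]
    (e : K ⊔ M = ⊤) : ⁅K, K⁆ ⊔ M = ⊤ := by
  have h1 : K.map (QuotientGroup.mk' M) = (⊤ : Subgroup G).map (QuotientGroup.mk' M) := by
    rw [← e, Subgroup.map_sup, (map_eq_bot_iff M).mpr (QuotientGroup.ker_mk' M).ge, sup_bot_eq]
  have h2 := congrArg (comap (QuotientGroup.mk' M)) (map_commutator K K (QuotientGroup.mk' M))
  rwa [h1, ← map_commutator, ← _root_.commutator_def, hG, comap_map_eq, comap_map_eq,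
    QuotientGroup.ker_mk', top_sup_eq] at h2

theorem Few.simple {n : ℕ} (f : Few h n) : IsSimpleGroup G := by
  haveI : Nontrivial G := ⟨x, 1, h.ne_one⟩
  refine ⟨fun M hM => ?_⟩
  have key : Nx x ⊔ M = ⊤ → M = ⊤ := fun e => by
    have := sup_der_eq_top f.perf (eq_top_mono (sup_le_sup_right f.der_le M)
      (sup_der_eq_top f.perf e))
    rwa [commutator_self_eq_bot_iff.mpr inferInstance, bot_sup_eq] at this
  obtain ⟨P, hP⟩ := h.exists_sylow
  by_cases c : zpowers x ≤ M
  · refine Or.inr (key ?_)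
    have := P.normalizer_sup_eq_top' (hP ▸ c)
    rwa [← P.coe_coe, hP] at this
  have a1 : zpowers x ⊓ M = ⊥ := eq_bot_iff.mpr fun g hg => by_contra fun e => c (by
    rw [← zpowers_eq_of_mem_of_card_prime h.card_zpowers hg.1 e]; exact zpowers_le.mpr hg.2)
  have a2 : FT.Semireg (zpowers x) M := fun y hy e => f.inf_cen fun d =>
    e (mem_bot.mp (a1 ▸ mem_inf.mpr ⟨d, hy⟩))
  have a3 := a2.symm.dvd_pred le_normalizer_of_normal
  have a4 : M ⊓ Nx x = ⊥ := eq_bot_iff.mpr fun y hy => a2.symm.eq_one hy.1 (mem_zpowers x) h.ne_one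
    (commutatorElement_eq_one_iff_mul_comm.mp (mem_bot.mp (a1 ▸ mem_inf.mpr
      ⟨mul_mem (H5.conj_mem_of_le_normalizer le_rfl hy.2 (mem_zpowers x))
        (inv_mem (mem_zpowers x)), commutator_le_left M ⊤
          (commutator_mem_commutator hy.1 (mem_top x))⟩)))
  have a5 := H5.card_sup_of_disjoint le_normalizer_of_normal a4
  have a6 := card_mul_index (M ⊔ Nx x)
  have a7 := card_mul_index (Nx x)
  rw [a5, ← a7, f.index, mul_comm (Nat.card M), mul_assoc, mul_right_inj' Nat.card_pos.ne'] at a6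
  rw [h.card_zpowers] at a3
  rcases few_num_pos hp.out.two_le f.lt ((Dvd.intro _ a6).mul_left _) (by
    have : 0 < Nat.card M := Nat.card_pos
    exact_mod_cast (Nat.cast_sub this : ((Nat.card M - 1 : ℕ) : ℤ) = _) ▸
      Int.natCast_dvd_natCast.mpr a3) with e | e
  · exact Or.inl (card_eq_one.mp e)
  · rw [e, mul_eq_left₀ (by omega), index_eq_one, sup_comm] at a6
    exact Or.inr (key a6)

theorem DefOne.exists_index (h : DefOne p x) (hG : _root_.commutator G = ⊤) :
    ∃ n, 0 < n ∧ (Nx x).index = n * p + 1 := by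
  have h1 := card_sylow_modEq_one p G
  rw [h.card_sylow] at h1
  obtain ⟨n, hn⟩ := (Nat.modEq_iff_dvd' (Nat.pos_of_ne_zero index_ne_zero_of_finite)).mp h1.symm
  have h2 : (Nx x).index ≠ 0 := index_ne_zero_of_finite
  refine ⟨n, Nat.pos_of_ne_zero fun e => ?_, by rw [mul_comm, ← hn]; omega⟩
  rw [e] at hn
  have h3 : Nx x = ⊤ := index_eq_one.mp (by omega)
  have h4 : Cx x = ⊤ := eq_top_mono (commutator_le.mpr fun a _ c _ => (h.nu_eq_one_iff
    ⁅(⟨a, h3 ▸ mem_top a⟩ : Nx x), ⟨c, h3 ▸ mem_top c⟩⁆).mp (by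
      rw [map_commutatorElement, commutatorElement_eq_one_iff_mul_comm, mul_comm])) hG
  have h5 := h.card_Nx
  rw [h3, h4, eq_comm, mul_eq_left₀ Nat.card_pos.ne'] at h5
  exact (h.one_lt_card_H hG).ne' h5

theorem brauer_few (hG : _root_.commutator G = ⊤) {z : G} (hz : orderOf z = p)
    (hC : centralizer ({z} : Set G) = zpowers z)
    (hn : 2 * Nat.card (Sylow p G) < (p + 1) * (p + 2)) : FewConcl G p := by
  have h1 : Nat.card (zpowers z) = p := (Nat.card_zpowers z).trans hz
  have h : DefOne p z := ⟨hz, fun c => by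
    obtain ⟨P, hP⟩ := (IsPGroup.of_card (h1.trans (pow_one p).symm)).exists_le_sylow
    haveI : Nontrivial P := ⟨⟨z, hP (mem_zpowers z)⟩, 1, fun e => hp.out.ne_one (by
      rw [← hz, show z = 1 from congrArg Subtype.val e, orderOf_one])⟩
    haveI := P.isPGroup'.center_nontrivial
    obtain ⟨⟨w, a1⟩, a2⟩ := exists_ne (1 : center P)
    have a3 : (w : G) ∈ zpowers z := hC ▸ mem_centralizer_singleton_iff.mpr
      (congrArg Subtype.val (mem_center_iff.mp a1 ⟨z, hP (mem_zpowers z)⟩)).symm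
    have a4 : (P : Subgroup G) ≤ zpowers z := fun g hg => by
      rw [← hC, ← centralizer_zpowers, ← zpowers_eq_of_mem_of_card_prime h1 a3
        fun e => a2 (Subtype.ext (Subtype.ext e)), centralizer_zpowers]
      exact mem_centralizer_singleton_iff.mpr (congrArg Subtype.val (mem_center_iff.mp a1 ⟨g, hg⟩))
    rw [← card_mul_index (P : Subgroup G), le_antisymm a4 hP, h1, pow_two,
      Nat.mul_dvd_mul_iff_left hp.out.pos, ← le_antisymm a4 hP] at c
    exact P.not_dvd_index c⟩
  obtain ⟨n, a1, a2⟩ := h.exists_index hG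
  have f : Few h n := ⟨hG, eq_bot_iff.mpr fun v hv => by_contra fun e => (h.mem_V'.mp hv).2
    (orderOf_eq_of_mem_of_card_prime h1 (hC ▸ h.V_le hv) e).symm.dvd, a2, by
      rw [h.card_sylow, a2] at hn
      exact Nat.lt_of_mul_lt_mul_right (a := p) (by nlinarith), a1⟩
  haveI := f.simple
  exact f.concl

theorem brauer_reynolds [IsSimpleGroup G] (hG : ¬ IsMulCommutative G) (hd : p ∣ Nat.card G)
    (hb : Nat.card G < p ^ 3) : FewConcl G p := by
  have hG' := commutator_eq_top_of_simple hG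
  obtain ⟨x, hx⟩ := exists_prime_orderOf_dvd_card' p hd
  have h : DefOne p x := ⟨hx, fun c => by
    obtain ⟨P⟩ : Nonempty (Sylow p G) := inferInstance
    have a1 := Nat.le_of_dvd Nat.card_pos (P.pow_dvd_card_of_pow_dvd_card c)
    have a2 := Nat.le_of_dvd (Nat.pos_of_ne_zero index_ne_zero_of_finite) P.card_dvd_index
    have a3 := card_mul_index (P : Subgroup G)
    have a4 : Nat.card (Sylow p G) < p := by
      by_contra d
      have := Nat.mul_le_mul a1 ((not_lt.mp d).trans a2)
      rw [a3, ← pow_succ] at this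
      exact hb.not_ge this
    exact card_sylow_ne_one hG hd ((card_sylow_modEq_one p G).eq_of_lt_of_lt a4 hp.out.one_lt)⟩
  obtain ⟨n, a1, a2⟩ := h.exists_index hG'
  obtain ⟨b⟩ := h.nonempty_block
  have a3 := h.one_lt_card_H hG'
  have a4 : 0 < Nat.card h.V := Nat.card_pos
  have a5 := h.card_eq
  have a6 : n * Nat.card h.V * Nat.card h.H < p := by
    rw [a5, a2] at hb
    exact Nat.lt_of_mul_lt_mul_right (a := p * p) (by nlinarith [Nat.zero_le (p * Nat.card h.V * Nat.card h.H)])
  have a7 : 2 * n < p + 3 := by nlinarith [Nat.mul_le_mul (Nat.mul_le_mul (le_refl n) a4) a3]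
  have a8 : Nat.card G < (p - 1) * Nat.card h.H * (n * p + 1) ^ 2 := by
    have d1 : 2 * Nat.card h.V < p := by
      nlinarith [Nat.mul_le_mul (Nat.mul_le_mul a1 (le_refl (Nat.card h.V))) a3]
    have d2 : p * Nat.card h.V < (p - 1) * (n * p + 1) := by
      obtain ⟨q, rfl⟩ : ∃ q, p = q + 1 := ⟨p - 1, by omega⟩
      rw [Nat.add_sub_cancel]
      nlinarith [Nat.mul_le_mul a1 (le_refl (q * (q + 1)))]
    rw [a5, a2]
    calc _ = (n * p + 1) * Nat.card h.H * (p * Nat.card h.V) := by ring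
      _ < (n * p + 1) * Nat.card h.H * ((p - 1) * (n * p + 1)) := by gcongr
      _ = _ := by ring
  refine Few.concl (h := h) ⟨hG', ?_, a2, a7, a1⟩
  rcases b.sgn0_eq with e | e
  · obtain ⟨a, c, -, c1, -, c2⟩ := b.exists_count hG' a2 a7 a8 1
    obtain ⟨χ, hχ⟩ := Finset.card_pos.mp ((Nat.pos_of_ne_zero fun d => by
      rw [e, d] at c1
      have : (0 : ℤ) ≤ a * (n * p + 1) := by positivity
      omega).trans_eq c2)
    obtain ⟨c3, c4⟩ := Finset.mem_filter.mp hχ
    exact b.V_eq_bot_of_deg_le hG c3 (fun d => by rw [d, b.sgn_one] at c4; omega) (by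
      rw [b.deg_neg_sgn hG' a2 a7 a8 c3 c4]; omega)
  · exact b.V_eq_bot_of_deg_ex_le hG 1 (by
      have := DefOne.Block.card_H_lt (h := h)
      rw [b.deg_ex_neg hG' a2 a7 a8 1 e]; omega)

end H8
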