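import Cfsg.Agent.H8.Few6
import Cfsg.Agent.H8.Blk

/-!
The theorem of Brauer and Tuan on simple groups of order `p * q ^ b * g` with `g < p - 1`.
-/

set_option autoImplicit false
set_option linter.unusedVariables false
set_option linter.style.haveILetI false
set_option linter.unusedSectionVars false

namespace H8

open Subgroup Cfsg MulAction
open scoped ComplexConjugate Classical commutatorElement MatrixGroups

universe u

theorem two_pow_le_of_dvd {m b : ℕ} (h1 : 2 ^ m + 1 ∣ 2 ^ b + 1) (h2 : 2 ^ b < (2 ^ m) ^ 3) :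
    b ≤ m := by
  by_contra c
  rw [← pow_mul, Nat.pow_lt_pow_iff_right one_lt_two] at h2
  obtain ⟨r, rfl⟩ : ∃ r, b = m + (r + 1) := ⟨b - m - 1, by omega⟩
  have a1 : ∀ k, 2 ^ m + 1 ∣ 2 ^ (m + k) + 2 ^ k := fun k => ⟨2 ^ k, by ring⟩
  have a2 : 2 ^ m + 1 ∣ 2 ^ (r + 1) - 1 := by
    have := Nat.dvd_sub (a1 (r + 1)) h1
    rwa [Nat.add_sub_add_left] at this
  have a3 : 1 < 2 ^ (r + 1) := Nat.one_lt_two_pow (by omega)
  by_cases d : r + 1 ≤ m
  · have := Nat.le_of_dvd (by omega) a2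
    have := Nat.pow_le_pow_right two_pos d
    omega
  obtain ⟨s, hs⟩ : ∃ s, r + 1 = m + s := ⟨r + 1 - m, by omega⟩
  have a4 := Nat.dvd_sub (a1 s) (hs ▸ a2)
  rw [hs] at a3
  rw [Nat.sub_eq_of_eq_add (c := 2 ^ s + 1) (by generalize 2 ^ (m + s) = y at *; omega)] at a4
  have := Nat.le_of_dvd (by positivity) a4
  have := Nat.pow_lt_pow_right one_lt_two (show s < m by omega)
  omega

theorem bt_num1 {e a m P M : ℕ} (h1 : 1 + a + m = e) (h2 : P + (e + 1) = M) (h3 : 4 ≤ e)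
    (h4 : M ≤ (e + 1) * (e + 1)) (h5 : 1 + a * (2 * (e + 1)) ≤ P) (h6 : m * (4 * e + 1) ≤ M) :
    False := by
  have j3 : 2 * a < e := Nat.lt_of_mul_lt_mul_right (a := e + 1) (by nlinarith)
  nlinarith [Nat.mul_le_mul_right (4 * e + 1) (show e ≤ 2 * m + 1 by omega),
    Nat.mul_le_mul_left e h3]

theorem bt_num2 {e T : ℕ} (h3 : 4 ≤ e) (h : T ≤ 2 * ((e + 1) * (e + 1)) + 2 * (e + 1)) :
    e * T < (e * 2) ^ 3 := by
  nlinarith [Nat.mul_le_mul_left e h, Nat.mul_le_mul_left e h3, Nat.mul_le_mul_left (e * e) h3]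

theorem bt_num3 {e t a m P M : ℕ} (h1 : 1 + a + m = e) (h2 : P = M + e) (h3 : 1 < e) (ht : 1 < t)
    (h4 : P ≤ e * e) (h5 : 1 + a * (t * e + 1 + 1) ≤ P) (h6 : m * (t * e) ≤ M) :
    t = 2 ∧ ¬ 1 + a * (2 * (t * e + 1) + 1) ≤ P := by
  have d2 : m * t < e := Nat.lt_of_mul_lt_mul_right (a := e) (by rw [mul_assoc]; omega)
  have i1 : a * t < e := Nat.lt_of_mul_lt_mul_right (a := e) (by nlinarith)
  obtain rfl : t = 2 := by
    by_contra c
    nlinarith [Nat.mul_le_mul_left (a + m) (show 3 ≤ t by omega)]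
  exact ⟨rfl, fun c => by nlinarith⟩

theorem bt_num4 {n p e c s : ℕ} (h1 : (n * p + 1) * e = s * c) (h2 : 1 < e) (h3 : s ≤ p)
    (h4 : c ≤ p) : 2 * n < p + 3 := Nat.lt_of_mul_lt_mul_right (a := p) (by
  nlinarith [Nat.mul_le_mul_left (n * p + 1) h2, Nat.mul_le_mul h3 h4])

theorem bt_num5 {n e : ℕ} (h : n * (2 * e + 1) + 1 ≤ 2 * (e * e) + 2 * e) :
    2 * n < 2 * e + 1 + 3 := Nat.lt_of_mul_lt_mul_right (a := 2 * e + 1) (by nlinarith)

theorem eq_of_dvd_of_lt_two_mul {g d : ℕ} (h0 : 0 < g) (h1 : d ∣ g) (h2 : g < 2 * d) : g = d := by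
  obtain ⟨_ | _ | r, hr⟩ := h1
  · omega
  · omega
  · nlinarith

variable {G : Type u} [Group G] [Fintype G] {p : ℕ} [hp : Fact p.Prime] {x : G} {h : DefOne p x}

namespace DefOne.Block
variable (b : h.Block)

theorem deg_pos_ge (hG : _root_.commutator G = ⊤) {χ : IrrCharacter G} (hχ : χ ∈ b.B)
    (h1 : χ ≠ ⟨1, irr_one⟩) (hs : b.sgn χ = 1) : deg χ = p + 1 ∨ 2 * p + 1 ≤ deg χ := by
  obtain ⟨n, hn⟩ := b.deg_modEq hχ
  have := two_le_deg hG h1
  have := hp.out.two_le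
  rw [hs] at hn
  rcases n with _ | _ | _ | n <;> push_cast at hn
  · omega
  · omega
  · omega
  · exact Or.inr (by nlinarith)

theorem deg_neg_ge {χ : IrrCharacter G} (hχ : χ ∈ b.B) (hs : b.sgn χ = -1) :
    deg χ + 1 = p ∨ 2 * p ≤ deg χ + 1 := by
  obtain ⟨n, hn⟩ := b.deg_modEq hχ
  rw [hs] at hn
  rcases n with _ | n <;> push_cast at hn
  · omega
  · exact Or.inr (by nlinarith)

theorem exists_count' (k : (ZMod p)ˣ) : ∃ a m P M : ℕ, 1 + a + m = Nat.card h.H ∧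
    P + b.sgn0 * deg (b.ex k) = M ∧
    (1 < b.E.card → P ≤ deg (b.ex k) * deg (b.ex k) ∧ M ≤ deg (b.ex k) * deg (b.ex k)) ∧
    (∀ d, (∀ χ ∈ b.B, χ ≠ ⟨1, irr_one⟩ → b.sgn χ = 1 → d ≤ deg χ) → 1 + a * d ≤ P) ∧
    ∀ d, (∀ χ ∈ b.B, b.sgn χ = -1 → d ≤ deg χ) → m * d ≤ M := by
  refine ⟨((b.B.filter (b.sgn · = 1)).erase ⟨1, irr_one⟩).card, (b.B.filter (b.sgn · = -1)).card,
    _, _, ?_, ?_, fun ht => ⟨b.sum_deg_sgn_le ht k 1, b.sum_deg_sgn_le ht k (-1)⟩, fun d hd => ?_,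
    fun d hd => ?_⟩
  · rw [← b.card_B, Finset.card_eq_sum_ones b.B, b.sum_B_eq, ← Finset.card_eq_sum_ones,
      ← Finset.card_eq_sum_ones]
  · have := b.sum_deg k
    rw [b.sum_B_eq, Finset.add_sum_erase _ (fun χ => b.sgn χ * deg χ)
      (Finset.mem_filter.mpr ⟨b.one_mem, b.sgn_one⟩),
      Finset.sum_congr rfl (g := fun χ => (deg χ : ℤ)) fun χ hχ => by
        rw [(Finset.mem_filter.mp hχ).2, one_mul],
      Finset.sum_congr (s₁ := b.B.filter (b.sgn · = -1)) rfl (g := fun χ => -(deg χ : ℤ))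
      fun χ hχ => by rw [(Finset.mem_filter.mp hχ).2, neg_one_mul], Finset.sum_neg_distrib] at this
    push_cast; linarith
  · rw [← Finset.add_sum_erase _ _ (Finset.mem_filter.mpr ⟨b.one_mem, b.sgn_one⟩), deg_one,
      ← smul_eq_mul]
    exact Nat.add_le_add_left (Finset.card_nsmul_le_sum _ _ _ fun χ hχ => by
      obtain ⟨a1, a2⟩ := Finset.mem_erase.mp hχ
      exact hd χ (Finset.mem_filter.mp a2).1 a1 (Finset.mem_filter.mp a2).2) 1
  · rw [← smul_eq_mul]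
    exact Finset.card_nsmul_le_sum _ _ _ fun χ hχ =>
      hd χ (Finset.mem_filter.mp hχ).1 (Finset.mem_filter.mp hχ).2

theorem bt_sum (hV : h.V = ⊥) {q s : ℕ} [hq : Fact q.Prime] (hqp : q ≠ p)
    (hs : q ^ s ∣ Nat.card G) (k : (ZMod p)ˣ) : ∃ t ≤ b.E.card, ((q ^ s : ℕ) : ℤ) ∣
      (p - 1) * ∑ χ ∈ b.B.filter (· ∈ L.B0 q G), b.sgn χ * deg χ +
        t * (b.sgn0 * deg (b.ex k)) * Nat.card h.H := by
  obtain ⟨Q, hQ⟩ := Sylow.exists_subgroup_card_pow_prime q hs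
  refine ⟨_, Finset.card_filter_le _ (· ∈ L.B0 q G), int_dvd_of_isIntegral_div
    (by exact_mod_cast pow_ne_zero s hq.out.ne_zero) ?_⟩
  have h0 := fun i : {i : ZMod p // i ≠ 0} =>
    B0_sum_deg_isIntegral (p := q) Q (IsPGroup.of_card hQ) (y := xp x i.1) (by
      rw [h.orderOf_xp i.2, Nat.prime_dvd_prime_iff_eq hq.out hp.out]; exact hqp)
  have h1 := IsIntegral.sum (s := Finset.univ) _ fun i _ => h0 i
  rw [← Finset.sum_div, Finset.sum_comm, hQ, ← Finset.univ_inter (L.B0 q G), ← Finset.sum_ite_mem,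
    b.sum_irr_eq _ fun χ a1 a2 => by simp [fun i : {i : ZMod p // i ≠ 0} =>
      b.apply_other hV a1 a2 i.2], ← Finset.sum_filter, ← Finset.sum_filter,
    Finset.sum_congr rfl (g := fun χ => ((p : ℂ) - 1) * (b.sgn χ * deg χ)) fun χ hχ => by
      rw [Finset.sum_congr rfl fun i _ => by rw [b.apply_B' (Finset.mem_filter.mp hχ).1 i.2],
        Finset.sum_const, Finset.card_univ, Fintype.card_subtype_compl, ZMod.card,
        Fintype.card_unique, nsmul_eq_mul, Nat.cast_sub hp.out.one_le]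
      push_cast; ring,
    Finset.sum_congr (s₁ := b.E.filter (· ∈ L.B0 q G)) rfl
      (g := fun _ => (b.sgn0 : ℂ) * deg (b.ex k) * Nat.card h.H) fun θ hθ => by
      obtain ⟨l, rfl⟩ := b.mem_E.mp (Finset.mem_filter.mp hθ).1
      rw [← Finset.mul_sum, Finset.sum_congr rfl fun i _ => b.apply_ex' l i.2, ← Finset.mul_sum,
        h.sum_eta_ne l.ne_zero, b.deg_ex l k]
      ring, ← Finset.mul_sum, Finset.sum_const, nsmul_eq_mul] at h1
  push_cast at h1 ⊢
  rwa [mul_assoc]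

theorem bt_two (hV : h.V = ⊥) (ht : b.E.card = 2) (k : (ZMod p)ˣ) (hc : Odd (deg (b.ex k)))
    {χ : IrrCharacter G} (hχ : χ ∈ b.B) (hχ' : χ ∉ L.B0 2 G) {s : ℕ} (hs : 2 ^ s ∣ Nat.card G) :
    ∃ T, 0 < T ∧ T ≤ 2 * (deg (b.ex k) * deg (b.ex k)) + 2 * deg (b.ex k) ∧
      2 ^ s ∣ Nat.card h.H * T := by
  have h1 := b.card_E_mul
  have h2 : 0 < Nat.card h.H := Nat.card_pos
  rw [ht] at h1
  haveI := Fact.mk Nat.prime_two
  obtain ⟨t, a1, a2⟩ := b.bt_sum hV (q := 2) (by omega) hs k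
  have a3 : (p : ℤ) ∣ ∑ χ ∈ b.B.filter (· ∈ L.B0 2 G), b.sgn χ * deg χ -
      (b.B.filter (· ∈ L.B0 2 G)).card := by
    rw [Finset.card_eq_sum_ones, Nat.cast_sum, ← Finset.sum_sub_distrib]
    refine Finset.dvd_sum fun ψ hψ => ?_
    obtain ⟨n, hn⟩ := b.deg_modEq (Finset.mem_filter.mp hψ).1
    rcases b.sgn_eq ψ (Finset.mem_filter.mp hψ).1 with e | e <;> rw [e] at hn ⊢
    · exact ⟨n - 1, by push_cast; linarith⟩
    · exact ⟨-n - 1, by push_cast; linarith⟩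
  have a4 : (p : ℤ) ∣ b.sgn0 * deg (b.ex k) + Nat.card h.H := by
    obtain ⟨n, hn⟩ := b.deg_ex_modEq k
    rcases b.sgn0_eq with e | e <;> rw [e] at hn ⊢
    · exact ⟨n, by linarith⟩
    · exact ⟨-n, by linarith⟩
  have a5 : 0 < (b.B.filter (· ∈ L.B0 2 G)).card :=
    Finset.card_pos.mpr ⟨_, Finset.mem_filter.mpr ⟨b.one_mem, L.triv_mem_B0⟩⟩
  have a6 : (b.B.filter (· ∈ L.B0 2 G)).card < Nat.card h.H := b.card_B ▸
    Finset.card_lt_card (Finset.filter_ssubset.mpr ⟨χ, hχ, hχ'⟩)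
  have a7 : ∀ δ : ℤ, δ * δ = 1 → δ * ∑ χ ∈ b.B.filter (· ∈ L.B0 2 G), b.sgn χ * deg χ ≤
      deg (b.ex k) * deg (b.ex k) := fun δ hδ => by
    refine le_trans ?_ (Int.ofNat_le.mpr (b.sum_deg_sgn_le (by omega) k δ))
    rw [Finset.mul_sum, Nat.cast_sum, Finset.sum_filter, Finset.sum_filter]
    refine Finset.sum_le_sum fun ψ hψ => ?_
    have := deg_pos ψ
    rcases b.sgn_eq ψ hψ with e | e <;> rcases mul_self_eq_one_iff.mp hδ with e' | e' <;>
      rw [e, e'] <;> split_ifs <;> omega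
  have a8 := a7 1 rfl
  have a9 := a7 (-1) rfl
  generalize ∑ χ ∈ b.B.filter (· ∈ L.B0 2 G), b.sgn χ * deg χ = S at *
  generalize (b.B.filter (· ∈ L.B0 2 G)).card = r at *
  refine ⟨(2 * S + t * (b.sgn0 * deg (b.ex k))).natAbs, Int.natAbs_pos.mpr fun e => ?_, ?_, ?_⟩
  · have c1 : (p : ℤ) ∣ t * Nat.card h.H - 2 * r := by
      have := (a3.mul_left 2).add (a4.mul_left t)
      rwa [show 2 * (S - r) + t * (b.sgn0 * deg (b.ex k) + Nat.card h.H) =
        t * Nat.card h.H - 2 * r by linear_combination e] at this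
    rw [ht] at a1
    obtain ⟨d, hd⟩ := hc
    interval_cases t
    · have := Int.le_of_dvd (by omega) (dvd_neg.mpr c1)
      omega
    · rcases b.sgn0_eq with e' | e' <;> rw [e'] at e <;> omega
    · have := Int.le_of_dvd (by omega) c1
      omega
  · rw [ht] at a1
    rw [← Nat.cast_mul] at a8 a9
    interval_cases t <;> rcases b.sgn0_eq with e' | e' <;> rw [e'] <;> omega
  · rw [← Int.natAbs_natCast (Nat.card h.H), ← Int.natAbs_mul, ← Int.natCast_dvd]
    convert a2 using 1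
    rw [show (p : ℤ) = 2 * Nat.card h.H + 1 by omega]; ring

end DefOne.Block

theorem brauer_tuan_few [IsSimpleGroup G] (hG : ¬ IsMulCommutative G) {q s g : ℕ} (hq : q.Prime)
    (hqp : q ≠ p) (hN : Nat.card G = p * q ^ s * g) (hg : g < p - 1) (hqg : ¬ q ∣ g) :
    (∃ m, p = 2 ^ m + 1 ∨ p = 2 ^ m - 1) ∧ ∃ (x : G) (h : DefOne p x) (n : ℕ), Few h n := by
  have hG' := commutator_eq_top_of_simple hG
  have hg0 : 0 < g := Nat.pos_of_ne_zero fun e => hqg (e ▸ dvd_zero q)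
  obtain ⟨x, h⟩ := exists_defOne (hN.trans (mul_assoc _ _ _)) fun c => by
    rcases hp.out.dvd_mul.mp c with c | c
    · exact hqp ((Nat.prime_dvd_prime_iff_eq hp.out hq).mp (hp.out.dvd_of_dvd_pow c)).symm
    · have := Nat.le_of_dvd hg0 c; omega
  obtain ⟨n, a1, a2⟩ := h.exists_index hG'
  obtain ⟨b⟩ := h.nonempty_block
  have a3 := h.one_lt_card_H hG'
  have a4 : (n * p + 1) * Nat.card h.H * Nat.card h.V = q ^ s * g :=
    Nat.eq_of_mul_eq_mul_left hp.out.pos (by rw [← mul_assoc p (q ^ s), ← hN, h.card_eq, a2]; ring)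
  have a5 : (Cx x).index ∣ q ^ s * g := by rw [h.index_Cx, a2, ← a4]; exact dvd_mul_right _ _
  have a6 : ∀ d, d ∣ q ^ s * g → ¬ q ∣ d → d ∣ g := fun d c1 c2 =>
    ((hq.coprime_iff_not_dvd.mpr c2).symm.pow_right s).dvd_of_dvd_mul_left c1
  have a7 : ∀ χ ∈ b.B, χ ≠ ⟨1, irr_one⟩ → q ∣ deg χ := fun χ c1 c2 => by_contra fun c3 => by
    have := Nat.le_of_dvd hg0 (a6 _ ((b.deg_dvd c1).trans a5) c3)
    rcases b.sgn_eq χ c1 with e | e
    · have := b.deg_pos_ge hG' c1 c2 e; omega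
    · have := b.deg_neg_ge c1 e; omega
  have a8 := b.dvd_one_add 1 a7
  have a9 : deg (b.ex 1) ∣ g := a6 _ ((b.deg_ex_dvd 1).trans a5) fun c => hq.ne_one (by
    rw [dvd_add_left ((Int.natCast_dvd_natCast.mpr c).mul_left _)] at a8
    exact Nat.dvd_one.mp (by exact_mod_cast a8))
  have b1 := Nat.le_of_dvd hg0 a9
  have hV := b.V_eq_bot_of_deg_ex_le hG 1 (by omega)
  rw [hV, card_bot, mul_one] at a4
  have b4 := DefOne.Block.card_H_lt (h := h)
  have b2 : b.E.card * Nat.card h.H + 1 = p := by rw [b.card_E_mul]; omega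
  replace hg : g + 1 < p := by omega
  have b3 := two_le_deg hG' (b.ex_ne_one 1)
  obtain ⟨k, hk⟩ := b.deg_ex_modEq 1
  obtain ⟨a, m, P, M, c1, c2, c3, c4, c5⟩ := b.exists_count' 1
  have c6 := c4 (p + 1) fun χ i1 i2 i3 => by have := b.deg_pos_ge hG' i1 i2 i3; omega
  have hs : q ^ s ∣ Nat.card G := hN ▸ (dvd_mul_left _ _).mul_right _
  haveI := Fact.mk Nat.prime_two
  suffices (∃ m, p = 2 ^ m + 1 ∨ p = 2 ^ m - 1) ∧ 2 * n < p + 3 from
    ⟨this.1, x, h, n, hG', hV, a2, this.2, a1⟩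
  have two : ∀ χ ∈ b.B, χ ≠ ⟨1, irr_one⟩ → q = 2 → (deg χ).Coprime g →
      ∃ m, deg χ = 2 ^ m ∧ χ ∉ L.B0 2 G := fun χ i1 i2 i3 i4 => by
    obtain ⟨m, -, e⟩ := (Nat.dvd_prime_pow hq).mp
      (i4.dvd_of_dvd_mul_right ((b.deg_dvd i1).trans a5))
    subst i3
    exact ⟨m, e, not_mem_B0_of_deg_pow hG ((a7 χ i1 i2).trans (deg_dvd_card χ)) i2 e⟩
  have half := fun d => eq_of_dvd_of_lt_two_mul (d := d) hg0
  rcases b.sgn0_eq with e0 | e0 <;> rw [e0] at hk c2 a8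
  · -- the exceptional degree is `p - e`
    have d1 : deg (b.ex 1) + Nat.card h.H = p := by
      rcases k with _ | _ | k <;> push_cast at hk
      · omega
      · omega
      · have : (0 : ℤ) ≤ p * k := by positivity
        rw [mul_add, mul_add] at hk; omega
    have ht : 1 < b.E.card := by
      by_contra c
      have := Nat.mul_le_mul_right (Nat.card h.H) (not_lt.mp c)
      omega
    have d2 := Nat.mul_le_mul_right (Nat.card h.H) ht
    have d3 : g = deg (b.ex 1) := half _ a9 (by omega)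
    have d4 : (Nat.card h.H).Coprime p :=
      (Nat.coprime_of_lt_prime (by omega) b4 hp.out).symm
    obtain ⟨r, -, hr⟩ := (Nat.dvd_prime_pow hq).mp ((show (Nat.card h.H).Coprime g by
      rwa [d3, ← Nat.coprime_add_self_right, d1]).dvd_of_dvd_mul_right (Dvd.intro_left _ a4))
    have d5 : q ∣ Nat.card h.H := hr ▸ dvd_pow_self q fun e => by rw [e, pow_zero] at hr; omega
    have d6 : q = 2 := by
      have i1 := Int.natCast_dvd_natCast.mpr d5
      have i2 := (a8.add i1).sub (i1.mul_left b.E.card)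
      rw [show 1 + 1 * (deg (b.ex 1) : ℤ) + Nat.card h.H - b.E.card * Nat.card h.H = (2 : ℕ) by
        rw [← Nat.cast_mul]; omega, Int.natCast_dvd_natCast] at i2
      exact (Nat.prime_dvd_prime_iff_eq hq Nat.prime_two).mp i2
    subst d6
    rw [d3] at a4 hqg
    have d7 : p ∣ 2 ^ s + 1 := by
      refine d4.symm.dvd_of_dvd_mul_right
        ((Nat.dvd_add_left (dvd_mul_left p (n * Nat.card h.H))).mp ⟨2 ^ s, ?_⟩)
      linear_combination a4 + 2 ^ s * d1
    suffices ∃ m, p = 2 ^ m + 1 ∧ 2 ^ s < (2 ^ m) ^ 3 by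
      obtain ⟨j, i1, i2⟩ := this
      have := Nat.pow_le_pow_right two_pos (two_pow_le_of_dvd (i1 ▸ d7) i2)
      exact ⟨⟨j, Or.inl i1⟩, bt_num4 a4 a3 (by omega) (by omega)⟩
    by_cases e2 : Nat.card h.H = 2
    · obtain ⟨χ, i1⟩ := Finset.card_eq_one.mp (show (b.B.erase ⟨1, irr_one⟩).card = 1 by
        rw [Finset.card_erase_of_mem b.one_mem, b.card_B, e2])
      obtain ⟨i2, i3⟩ := Finset.mem_erase.mp (i1 ▸ Finset.mem_singleton_self χ)
      have i4 := b.sum_deg 1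
      rw [← Finset.add_sum_erase _ _ b.one_mem, i1, Finset.sum_singleton, b.sgn_one, deg_one,
        e0] at i4
      have i5 : deg χ = deg (b.ex 1) + 1 := by
        rcases b.sgn_eq χ i3 with e | e <;> rw [e] at i4 <;> omega
      obtain ⟨j, j1, j2⟩ := two χ i3 i2 rfl (by rw [i5, d3]; simp)
      obtain ⟨t, t1, t2⟩ := b.bt_sum hV hqp hs 1
      rw [← Finset.insert_erase b.one_mem, i1, Finset.filter_insert, if_pos (show ⟨1, irr_one⟩ ∈ L.B0 2 G from L.triv_mem_B0),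
       
        Finset.filter_singleton, if_neg j2, Finset.insert_empty, Finset.sum_singleton, b.sgn_one,
        deg_one, e0, e2, show ((p : ℤ) - 1) * (1 * (1 : ℕ)) + t * (1 * deg (b.ex 1)) * (2 : ℕ) =
          (deg χ + t * 2 * deg (b.ex 1) : ℕ) by
            rw [show (p : ℤ) = deg χ + 1 by omega]; push_cast; ring, Int.natCast_dvd_natCast] at t2
      have t3 := Nat.le_of_dvd (by omega) t2
      have t4 := Nat.mul_le_mul_right (deg (b.ex 1)) (show t * 2 ≤ deg χ by rw [e2] at b2; omega)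
      refine ⟨j, by omega, ?_⟩
      rw [← j1]
      calc _ ≤ deg χ * deg χ := by nth_rw 2 [i5]; rw [mul_add]; omega
        _ < _ := by rw [← pow_two]; exact Nat.pow_lt_pow_right (by omega) (by omega)
    have d8 : 4 ∣ Nat.card h.H := by
      rw [hr] at e2 a3 ⊢
      rcases r with _ | _ | r
      · omega
      · omega
      · exact ⟨2 ^ r, by ring⟩
    obtain ⟨χ, i1, i2, i3⟩ : ∃ χ ∈ b.B, χ ≠ ⟨1, irr_one⟩ ∧ ¬ 4 ∣ deg χ := by
      by_contra! c
      have := b.dvd_one_add 1 c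
      have := d8.mul_left b.E.card
      rw [e0] at *
      omega
    obtain ⟨d, hd⟩ := a7 χ i1 i2
    have d9 : p = 2 * Nat.card h.H + 1 := by
      have := half d (a6 d ((Dvd.intro_left _ hd.symm).trans ((b.deg_dvd i1).trans a5)) (by omega))
      rcases b.sgn_eq χ i1 with e | e
      · have := b.deg_pos_ge hG' i1 i2 e; omega
      · have := b.deg_neg_ge i1 e; omega
    have ht2 : b.E.card = 2 := Nat.eq_of_mul_eq_mul_right (by omega : 0 < Nat.card h.H) (by omega)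
    have d10 : deg (b.ex 1) = Nat.card h.H + 1 := by omega
    have d11 := Nat.le_of_dvd (by omega) d8
    obtain ⟨ψ, j1, j2, j3⟩ : ∃ ψ ∈ b.B, b.sgn ψ = -1 ∧ deg ψ + 1 = p := by
      by_contra! c
      have j1 := c5 (4 * Nat.card h.H + 1) fun ψ j1 j2 => by
        have := (b.deg_neg_ge j1 j2).resolve_left (c ψ j1 j2); omega
      have j2 := (c3 ht).2
      rw [d10] at j2 c2
      rw [show p + 1 = 2 * (Nat.card h.H + 1) by omega] at c6
      exact bt_num1 c1 (by omega) d11 j2 c6 j1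
    have j4 : ψ ≠ ⟨1, irr_one⟩ := fun e => by rw [e, b.sgn_one] at j2; omega
    obtain ⟨T, t1, t2, t3⟩ := b.bt_two hV ht2 1 (Nat.odd_iff.mpr (by omega)) j1
      (not_mem_B0_of_deg_pow hG ((a7 ψ j1 j4).trans (deg_dvd_card ψ)) j4 (k := r + 1)
        (by rw [pow_succ]; omega)) hs
    refine ⟨r + 1, by rw [pow_succ]; omega, (Nat.le_of_dvd (by positivity) t3).trans_lt ?_⟩
    rw [pow_succ 2, ← hr]
    exact bt_num2 d11 (d10 ▸ t2)
  · -- the exceptional degree is `e`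
    have d1 : deg (b.ex 1) = Nat.card h.H := by
      rcases k with _ | k <;> push_cast at hk
      · omega
      · have : (0 : ℤ) ≤ p * k := by positivity
        rw [mul_add] at hk; omega
    have ht : 1 < b.E.card := by
      by_contra c
      have := Nat.mul_le_mul_right (Nat.card h.H) (not_lt.mp c)
      omega
    obtain ⟨c8, c9⟩ := c3 ht
    rw [d1] at c2 c8 c9 a8 a9 b1
    obtain ⟨d3, d2⟩ := bt_num3 c1 (by omega) a3 ht c8 (by rwa [b2])
      (c5 _ fun χ i1 i3 => by have := b.deg_neg_ge i1 i3; omega)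
    obtain ⟨χ, i1, i2, i3⟩ : ∃ χ ∈ b.B, χ ≠ ⟨1, irr_one⟩ ∧ deg χ = p + 1 := by
      by_contra! c
      exact d2 (c4 _ fun χ i1 i2 i3 => by
        rw [b2]; exact (b.deg_pos_ge hG' i1 i2 i3).resolve_left (c χ i1 i2))
    rw [d3] at b2
    have d4 : q = 2 := by
      have j1 := (Int.natCast_dvd_natCast.mpr (a7 χ i1 i2)).add (a8.mul_left 2)
      rw [show (deg χ : ℤ) + 2 * (1 + -1 * Nat.card h.H) = (2 ^ 2 : ℕ) by omega,
        Int.natCast_dvd_natCast] at j1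
      exact (Nat.prime_dvd_prime_iff_eq hq Nat.prime_two).mp (hq.dvd_of_dvd_pow j1)
    have d5 : g = Nat.card h.H := half _ a9 (by omega)
    subst d4
    have d6 : (Nat.card h.H).Coprime 2 := (Nat.prime_two.coprime_iff_not_dvd.mpr (d5 ▸ hqg)).symm
    obtain ⟨j, j1, j2⟩ := two χ i1 i2 rfl (by
      rw [i3, d5, show p + 1 = 2 + Nat.card h.H * 2 by omega, Nat.coprime_add_mul_left_left]
      exact d6.symm)
    obtain ⟨T, t1, t2, t3⟩ := b.bt_two hV d3 1 (d1 ▸ Nat.coprime_two_right.mp d6) i1 j2 hs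
    have := Nat.le_of_dvd t1 ((d6.symm.pow_left s).dvd_of_dvd_mul_left t3)
    rw [d5, mul_left_inj' (by omega)] at a4
    rw [d1] at t2
    exact ⟨⟨j, Or.inr (by omega)⟩, b2 ▸ bt_num5 (by rw [b2]; omega)⟩

theorem brauer_tuan [IsSimpleGroup G] (hG : ¬ IsMulCommutative G) {q s g : ℕ} (hq : q.Prime)
    (hqp : q ≠ p) (hN : Nat.card G = p * q ^ s * g) (hg : g < p - 1) (hqg : ¬ q ∣ g) :
    (∃ m, p = 2 ^ m + 1 ∨ p = 2 ^ m - 1) ∧ FewConcl G p := by
  obtain ⟨h1, x, h, n, f⟩ := brauer_tuan_few hG hq hqp hN hg hqg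
  exact ⟨h1, f.concl⟩

theorem Few.cases {n : ℕ} (f : Few h n) :
    n = 1 ∧ 2 * Nat.card h.H + 1 = p ∨ Nat.card h.H = 2 ∧ 2 * n + 3 = p := by
  have := f.three_le
  rcases Nat.even_or_odd (Nat.card h.H) with ⟨r, hr⟩ | ho
  swap
  · have := f.of_odd ho; omega
  haveI := Fact.mk Nat.prime_two
  obtain ⟨⟨i, hi⟩, hi'⟩ := exists_prime_orderOf_dvd_card' (G := Nx x) 2
    (by rw [f.card_N, hr, ← two_mul]; exact (dvd_mul_right 2 r).mul_left p)
  rw [← orderOf_coe] at hi'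
  obtain ⟨a3, a4 | ⟨a4, -⟩⟩ := f.even_cases hi (fun e => by simp [e] at hi')
    (by rw [← pow_two, ← hi']; exact pow_orderOf_eq_one _) hr <;> rw [a4] at a3 <;> omega

theorem simple_p_r_qb [IsSimpleGroup G] (hG : ¬ IsMulCommutative G) {q r s : ℕ} (hq : q.Prime)
    (hr : r.Prime) (hqp : q ≠ p) (hqr : q ≠ r) (hrp : r < p) (hN : Nat.card G = p * q ^ s * r) :
    (p = 5 ∨ p = 7) ∧ Nonempty (G ≃* PSL(2, ZMod p)) := by
  have h2 : r ≠ 2 := by
    rintro rfl
    haveI := Fact.mk Nat.prime_two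
    obtain ⟨P⟩ : Nonempty (Sylow 2 G) := inferInstance
    have a1 := card_sylow_eq_pow (a := 1) (hN.trans (mul_comm _ _)) (fun c => by
      rcases hr.dvd_mul.mp c with c | c
      · exact hrp.ne ((Nat.prime_dvd_prime_iff_eq hr hp.out).mp c)
      · exact hqr ((Nat.prime_dvd_prime_iff_eq hr hq).mp (hr.dvd_of_dvd_pow c)).symm) P
    haveI := isCyclic_of_prime_card (p := 2) a1
    obtain ⟨t, j, c1, -, c2, c3, c4, -⟩ := exists_prime_of_abelian_sylow hG P a1 one_pos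
      inferInstance
    obtain rfl : j = 1 := by omega
    exact c1.ne_one (Nat.dvd_one.mp c4)
  have h3 := hr.two_le
  have h4 := Nat.odd_iff.mp (hr.odd_of_ne_two h2)
  have h5 := Nat.odd_iff.mp (hp.out.odd_of_ne_two (by omega))
  obtain ⟨-, x, h, n, f⟩ := brauer_tuan_few hG hq hqp hN (by omega)
    fun c => hqr ((Nat.prime_dvd_prime_iff_eq hq hr).mp c)
  have h6 : (n * p + 1) * Nat.card h.H = q ^ s * r :=
    Nat.eq_of_mul_eq_mul_left hp.out.pos (by rw [← mul_assoc p (q ^ s), ← hN, f.card_G]; ring)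
  have h7 : ¬ 3 ∣ p := fun c => by
    have := (Nat.prime_dvd_prime_iff_eq Nat.prime_three hp.out).mp c; omega
  have key : ∀ u v, u * v = q ^ s * r → 2 ∣ v → 3 ∣ u * v → ¬ 2 ∣ u → u ≤ 3 := by
    intro u v c1 c2 c3 c4
    have c5 : ∀ t, t.Prime → t ∣ u * v → t = q ∨ t = r := fun t ht c =>
      (ht.dvd_mul.mp (c1 ▸ c)).imp (fun c => (Nat.prime_dvd_prime_iff_eq ht hq).mp
        (ht.dvd_of_dvd_pow c)) (Nat.prime_dvd_prime_iff_eq ht hr).mp
    obtain rfl := (c5 2 Nat.prime_two (c2.mul_left u)).resolve_right h2.symm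
    obtain rfl := (c5 3 Nat.prime_three c3).resolve_left (by omega)
    exact Nat.le_of_dvd three_pos (((hq.coprime_iff_not_dvd.mpr c4).symm.pow_right
      s).dvd_of_dvd_mul_left (Dvd.intro _ c1))
  have h8 : n = 1 ∧ 2 * Nat.card h.H + 1 = p := f.cases.elim id fun ⟨c1, c2⟩ => by
    have := key (2 * n + 1) (2 * (n + 1)) (by rw [← h6, c1, ← c2]; ring) (by omega)
      (by rcases (by rcases (by omega : n % 3 = 0 ∨ n % 3 = 1 ∨ n % 3 = 2) with c | c | c <;> omega :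
        3 ∣ 2 * n + 1 ∨ 3 ∣ 2 * (n + 1)) with c | c
          exacts [c.mul_right _, c.mul_left _]) (by omega)
    have := f.pos
    omega
  refine ⟨?_, H9.iso_psl2_prime (p := p) (m := (p + 1) * Nat.card h.H) (by omega) (Nat.card_zmod p)
    (by rw [f.card_G, h8.1]; ring) (by rw [show p - 1 = 2 * Nat.card h.H by omega]; ring)
    (by rw [h.card_sylow, f.index, h8.1, one_mul])⟩
  obtain ⟨rfl, h9⟩ := h8
  generalize Nat.card h.H = e at *
  have h10 : 3 ∣ e ∨ 3 ∣ e + 1 := by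
    rcases (by omega : e % 3 = 0 ∨ e % 3 = 1 ∨ e % 3 = 2) with c | c | c <;> omega
  by_cases c : 2 ∣ e
  · have := key (e + 1) (2 * e) (by rw [← h6, ← h9]; ring) (by omega)
      (h10.elim (fun c => (c.mul_left _).mul_left _) (·.mul_right _)) (by omega)
    omega
  · have := key e (2 * (e + 1)) (by rw [← h6, ← h9]; ring) (by omega)
      (h10.elim (·.mul_right _) fun c => (c.mul_left _).mul_left _) c
    omega

end H8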