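import Mathlib
import Cfsg.Agent.FT.BG1b
import Cfsg.Agent.H8.Char4

/-! 2-groups with exactly three involutions: counting squares. -/

set_option autoImplicit false
set_option linter.unusedVariables false
set_option linter.style.haveILetI false
set_option linter.unusedSectionVars false

namespace H8.Inv3

open Subgroup
open scoped commutatorElement

universe u
variable {G : Type u} [Group G]

/-- the involutions of `G` are `a, b, a b`, all central -/
structure T3 (a b : G) : Prop where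
  a1 : a ≠ 1
  b1 : b ≠ 1
  ab : a ≠ b
  a2 : a * a = 1
  b2 : b * b = 1
  ca : ∀ x, x * a = a * x
  cb : ∀ x, x * b = b * x
  all : ∀ x : G, x * x = 1 → x = 1 ∨ x = a ∨ x = b ∨ x = a * b

theorem T3.ab1 {a b : G} (h : T3 a b) : a * b ≠ 1 := fun e => h.ab (by
  have : a * (a * b) = a := by rw [e, mul_one]
  rw [← mul_assoc, h.a2, one_mul] at this; exact this.symm)

theorem T3.aba {a b : G} (h : T3 a b) : a * b ≠ a := fun e => h.b1 (by simpa using e)
theorem T3.abb {a b : G} (h : T3 a b) : a * b ≠ b := fun e => h.a1 (by simpa using e)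

theorem T3.abab {a b : G} (h : T3 a b) : a * b * (a * b) = 1 := by
  rw [mul_assoc, ← mul_assoc b, h.ca b, mul_assoc, h.b2, mul_one, h.a2]

theorem T3.swap {a b : G} (h : T3 a b) : T3 b a :=
  ⟨h.b1, h.a1, h.ab.symm, h.b2, h.a2, h.cb, h.ca, fun x hx => by
    rw [h.ca b]; rcases h.all x hx with e | e | e | e <;> simp [e]⟩

theorem T3.rot {a b : G} (h : T3 a b) : T3 (a * b) a :=
  ⟨h.ab1, h.a1, h.aba, h.abab, h.a2,
    fun x => by rw [← mul_assoc, h.ca, mul_assoc, h.cb, mul_assoc], h.ca, fun x hx => by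
    have : a * b * a = b := by rw [mul_assoc, h.ca b, ← mul_assoc, h.a2, one_mul]
    rw [this]; rcases h.all x hx with e | e | e | e <;> simp [e]⟩

theorem T3.cen {a b : G} (h : T3 a b) {w : G} (hw : w * w = 1) (x : G) : x * w = w * x := by
  rcases h.all w hw with e | e | e | e <;> rw [e]
  · simp
  · exact h.ca x
  · exact h.cb x
  · exact h.rot.ca x

theorem T3.sub {a b : G} (h : T3 a b) (H : Subgroup G) (ha : a ∈ H) (hb : b ∈ H) :
    T3 (⟨a, ha⟩ : H) ⟨b, hb⟩ :=
  ⟨fun e => h.a1 (congrArg Subtype.val e), fun e => h.b1 (congrArg Subtype.val e),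
    fun e => h.ab (congrArg Subtype.val e), Subtype.ext h.a2, Subtype.ext h.b2,
    fun x => Subtype.ext (h.ca x), fun x => Subtype.ext (h.cb x), fun x hx => by
      rcases h.all x (congrArg Subtype.val hx) with e | e | e | e
      · exact Or.inl (Subtype.ext e)
      · exact Or.inr (Or.inl (Subtype.ext e))
      · exact Or.inr (Or.inr (Or.inl (Subtype.ext e)))
      · exact Or.inr (Or.inr (Or.inr (Subtype.ext e)))⟩

open Classical in
/-- the character of the four-group with kernel `⟨a⟩` -/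
noncomputable def chi (a x : G) : ℤ := if x = 1 ∨ x = a then 1 else -1

theorem chi_mul {a b : G} (h : T3 a b) {u v : G} (hu : u * u = 1) (hv : v * v = 1) :
    chi a (u * v) = chi a u * chi a v := by
  have e1 : a * (a * b) = b := by rw [← mul_assoc, h.a2, one_mul]
  have e2 : b * a = a * b := h.ca b
  have e3 : b * (a * b) = a := by rw [← mul_assoc, e2, mul_assoc, h.b2, mul_one]
  have e4 : a * b * a = b := by rw [mul_assoc, e2, e1]
  have e5 : a * b * b = a := by rw [mul_assoc, h.b2, mul_one]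
  have c1 : chi a 1 = 1 := by simp [chi]
  have ca : chi a a = 1 := by simp [chi]
  have cb : chi a b = -1 := by simp [chi, h.b1, h.ab.symm]
  have cab : chi a (a * b) = -1 := by simp [chi, h.ab1, h.b1]
  rcases h.all u hu with rfl | rfl | rfl | rfl <;> rcases h.all v hv with e | e | e | e <;>
    rw [e] <;> simp [h.a2, h.b2, h.abab, e1, e2, e3, e4, e5, c1, ca, cb, cab]

theorem chi_sq (a x : G) : chi a x * chi a x = 1 := by
  unfold chi; split_ifs <;> simp

theorem sq4 (x : G) (hx : x ^ 4 = 1) : x * x * (x * x) = 1 := by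
  rw [← hx]; simp only [pow_succ, pow_zero, one_mul, mul_assoc]

/-- the "commutator" `x⁻¹ y⁻¹ x y`-like correction term -/
def cm (x y : G) : G := (x * x)⁻¹ * (x * y * (x * y)) * (y * y)⁻¹

section
variable {a b : G} (h : T3 a b) (h4 : ∀ x : G, x ^ 4 = 1)
include h h4

theorem sq_cen (x y : G) : y * (x * x) = x * x * y := h.cen (sq4 x (h4 x)) y

theorem inv_sq (x : G) : (x * x)⁻¹ = x * x := inv_eq_of_mul_eq_one_right (sq4 x (h4 x))

theorem cm_sq (x y : G) : cm x y * cm x y = 1 := by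
  unfold cm
  rw [inv_sq h h4, inv_sq h h4]
  have hx := sq4 x (h4 x)
  have hy := sq4 y (h4 y)
  have hz := sq4 _ (h4 (x * y))
  have c1 := h.cen hx
  have c2 := h.cen hy
  have c3 := h.cen hz
  generalize x * x = p at *
  generalize y * y = q at *
  generalize x * y * (x * y) = r at *
  calc p * r * q * (p * r * q) = p * (r * (q * p) * r) * q := by group
    _ = p * (r * (p * q) * r) * q := by rw [c1 q]
    _ = p * ((r * p) * (q * r)) * q := by group
    _ = p * ((p * r) * (r * q)) * q := by rw [c1 r, c2 r]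
    _ = (p * p) * (r * r) * (q * q) := by group
    _ = 1 := by rw [hx, hy, hz]; simp

theorem cm_eq (x y : G) : cm x y = x⁻¹ * y * x * y⁻¹ := by
  unfold cm; group

theorem cm_mul (x x' y : G) : cm (x * x') y = cm x y * cm x' y := by
  have c := h.cen (cm_sq h h4 x y)
  rw [cm_eq h h4 (x * x'), cm_eq h h4 x' y]
  calc (x * x')⁻¹ * y * (x * x') * y⁻¹ = x'⁻¹ * (x⁻¹ * y * x * y⁻¹) * (y * x' * y⁻¹) := by group
    _ = x'⁻¹ * cm x y * (y * x' * y⁻¹) := by rw [cm_eq h h4]
    _ = cm x y * (x'⁻¹ * y * x' * y⁻¹) := by rw [c]; group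

theorem cm_mul' (x y y' : G) : cm x (y * y') = cm x y * cm x y' := by
  have c := h.cen (cm_sq h h4 x y')
  rw [cm_eq h h4 x (y * y'), cm_eq h h4 x y]
  calc x⁻¹ * (y * y') * x * (y * y')⁻¹ = (x⁻¹ * y * x) * (x⁻¹ * y' * x * y'⁻¹) * y⁻¹ := by group
    _ = (x⁻¹ * y * x) * cm x y' * y⁻¹ := by rw [cm_eq h h4]
    _ = x⁻¹ * y * x * y⁻¹ * cm x y' := by rw [mul_assoc _ _ y⁻¹, ← c]; group

theorem chi_sq_mul (x y : G) :
    chi a (x * y * (x * y)) = chi a (x * x) * chi a (cm x y) * chi a (y * y) := by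
  have : x * y * (x * y) = x * x * cm x y * (y * y) := by unfold cm; group
  have hx := sq4 x (h4 x)
  have hc := cm_sq h h4 x y
  rw [this, chi_mul h _ (sq4 y (h4 y)), chi_mul h hx hc]
  calc x * x * cm x y * (x * x * cm x y) = x * x * (cm x y * (x * x)) * cm x y := by group
    _ = x * x * (x * x) * (cm x y * cm x y) := by rw [h.cen hx]; group
    _ = 1 := by rw [hx, hc, one_mul]

/-- the radical of the form attached to `chi a` -/
def rad : Subgroup G where
  carrier := {y | ∀ x, chi a (cm x y) = 1}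
  one_mem' := fun x => by rw [cm_eq h h4]; simp [chi]
  mul_mem' := fun {y y'} hy hy' x => by
    rw [cm_mul' h h4, chi_mul h (cm_sq h h4 _ _) (cm_sq h h4 _ _), hy x, hy' x, one_mul]
  inv_mem' := fun {y} hy x => by
    have e := cm_mul' h h4 x y y⁻¹
    have e1 : cm x (y * y⁻¹) = 1 := by rw [cm_eq h h4]; simp
    have := congrArg (chi a) e
    rw [e1, chi_mul h (cm_sq h h4 _ _) (cm_sq h h4 _ _), hy x, one_mul] at this
    rw [← this]; simp [chi]

end

/-- a `±1`-valued homomorphism sums to `0` or to the order -/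
theorem sum_hom {H : Type*} [Group H] [Fintype H] (f : H → ℤ) (hf : ∀ x y, f (x * y) = f x * f y)
    (h1 : ∀ x, f x * f x = 1) : (∀ x, f x = 1) ∨ ∑ x, f x = 0 := by
  by_cases hh : ∀ x, f x = 1
  · exact Or.inl hh
  · right
    push Not at hh
    obtain ⟨y, hy⟩ := hh
    have hy' : f y = -1 := by
      rcases Int.eq_one_or_neg_one_of_mul_eq_one (h1 y) with e | e
      · exact absurd e hy
      · exact e
    have : ∑ x, f x = ∑ x, f (y * x) := (Equiv.sum_comp (Equiv.mulLeft y) f).symm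
    simp only [hf, hy', ← Finset.mul_sum] at this
    linarith

theorem sum_sq [Fintype G] {a b : G} (h : T3 a b) (h4 : ∀ x : G, x ^ 4 = 1) :
    (∑ x : G, chi a (x * x)) = 0 ∨
      (∑ x : G, chi a (x * x)) ^ 2 = Nat.card G * Nat.card (rad h h4) := by
  classical
  have e1 : (∑ x : G, chi a (x * x)) ^ 2 = ∑ y : G, chi a (y * y) * ∑ x : G, chi a (cm x y) := by
    rw [sq, Finset.sum_mul_sum]
    have : ∀ x : G, ∑ y : G, chi a (x * x) * chi a (y * y) =
        ∑ y : G, chi a (y * y) * chi a (cm x y) := fun x => by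
      rw [← Equiv.sum_comp (Equiv.mulLeft x)]
      refine Finset.sum_congr rfl fun y _ => ?_
      simp only [Equiv.coe_mulLeft]
      rw [chi_sq_mul h h4, ← mul_assoc, ← mul_assoc, chi_sq, one_mul, mul_comm]
    rw [Finset.sum_congr rfl fun x _ => this x, Finset.sum_comm]
    simp only [Finset.mul_sum]
  have e2 : ∀ y : G, ∑ x : G, chi a (cm x y) = if y ∈ rad h h4 then (Nat.card G : ℤ) else 0 := by
    intro y
    split_ifs with hy
    · have hy' : ∀ x, chi a (cm x y) = 1 := hy
      simp [hy']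
    · rcases sum_hom (fun x => chi a (cm x y)) (fun x x' => by
        rw [cm_mul h h4, chi_mul h (cm_sq h h4 _ _) (cm_sq h h4 _ _)]) (fun x => chi_sq _ _) with
        e | e
      · exact absurd e hy
      · exact e
  have e3 : (∑ x : G, chi a (x * x)) ^ 2 = Nat.card G * ∑ y : rad h h4, chi a (y * y) := by
    rw [e1]
    simp only [e2, mul_ite, mul_zero]
    rw [← Finset.sum_filter, Finset.mul_sum]
    rw [Finset.sum_subtype (p := fun y => y ∈ rad h h4) _ (by simp)]
    exact Finset.sum_congr rfl fun y _ => mul_comm _ _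
  rcases sum_hom (fun y : rad h h4 => chi a (y * y)) (fun y y' => by
      simp only [coe_mul]
      rw [chi_sq_mul h h4, y'.2 y, mul_one]) (fun y => chi_sq _ _) with e | e
  · right
    rw [e3]
    simp [e]
  · left
    rw [e, mul_zero] at e3
    exact pow_eq_zero_iff (two_ne_zero) |>.mp e3

/-- number of square roots -/
noncomputable def cnt (c : G) : ℕ := Nat.card {x : G // x * x = c}

theorem cnt_eq [Fintype G] [DecidableEq G] (c : G) :
    cnt c = (Finset.univ.filter fun x : G => x * x = c).card := by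
  unfold cnt; rw [Nat.card_eq_fintype_card, Fintype.card_subtype]

theorem cnt_one [Finite G] {a b : G} (h : T3 a b) : cnt (1 : G) = 4 := by
  classical
  haveI := Fintype.ofFinite G
  rw [cnt_eq]
  have : (Finset.univ.filter fun x : G => x * x = 1) = {1, a, b, a * b} := by
    ext x
    simp only [Finset.mem_filter, Finset.mem_univ, true_and, Finset.mem_insert,
      Finset.mem_singleton]
    refine ⟨h.all x, ?_⟩
    rintro (e | e | e | e) <;> rw [e]
    · simp
    · exact h.a2
    · exact h.b2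
    · exact h.abab
  rw [this, Finset.card_insert_of_notMem, Finset.card_insert_of_notMem, Finset.card_pair h.abb.symm]
  · simp [h.ab, h.b1]
  · simp [h.a1.symm, h.b1.symm, h.ab1.symm]

theorem sum_chi [Fintype G] {a b : G} (h : T3 a b) :
    (∑ x : G, chi a (x * x)) = 2 * cnt a + 8 - Nat.card G := by
  classical
  have e : ∀ x : G, chi a (x * x) =
      2 * (if x * x = 1 then 1 else 0) + 2 * (if x * x = a then 1 else 0) - 1 := fun x => by
    unfold chi
    by_cases h1 : x * x = 1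
    · have : x * x ≠ a := by rw [h1]; exact h.a1.symm
      simp [h1, h.a1.symm]
    · by_cases h2 : x * x = a
      · simp [h2, h.a1]
      · simp [h1, h2]
  have c1 := cnt_one h
  rw [cnt_eq] at c1
  simp only [e, Finset.sum_sub_distrib, Finset.sum_add_distrib, ← Finset.mul_sum,
    Finset.sum_boole, c1, cnt_eq]
  simp
  ring

theorem cnt_sum [Finite G] {a b : G} (h : T3 a b) (h4 : ∀ x : G, x ^ 4 = 1) :
    cnt a + cnt b + cnt (a * b) + 4 = Nat.card G := by
  classical
  haveI := Fintype.ofFinite G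
  rw [← cnt_one h, Nat.card_eq_fintype_card, ← Finset.card_univ]
  simp only [cnt_eq, Finset.card_filter, ← Finset.sum_add_distrib]
  rw [Finset.card_eq_sum_ones]
  refine Finset.sum_congr rfl fun x _ => ?_
  rcases h.all _ (sq4 x (h4 x)) with e | e | e | e <;> rw [e] <;>
    simp [h.a1, h.b1, h.ab, h.ab1, h.a1.symm, h.b1.symm, h.ab.symm, h.ab1.symm, h.aba, h.abb,
      h.aba.symm, h.abb.symm]

theorem cnt_cases [Finite G] {a b : G} (h : T3 a b) (h4 : ∀ x : G, x ^ 4 = 1) {n : ℕ}
    (hn : Nat.card G = 2 ^ n) :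
    2 * cnt a + 8 = 2 ^ n ∨ ∃ j, n + 2 ≤ 2 * j ∧ j ≤ n ∧
      (2 * cnt a + 8 = 2 ^ n + 2 ^ j ∨ 2 * cnt a + 8 + 2 ^ j = 2 ^ n) := by
  classical
  haveI := Fintype.ofFinite G
  rcases sum_sq h h4 with e | e
  · left
    rw [sum_chi h, hn] at e
    push_cast at e
    zify; linarith
  · right
    rw [sum_chi h] at e
    obtain ⟨k, hk, hR⟩ := (Nat.dvd_prime_pow Nat.prime_two).mp
      (hn ▸ card_subgroup_dvd_card (rad h h4))
    have hw : ∀ w : G, w * w = 1 → w ∈ rad h h4 := fun w hw x => by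
      rw [cm_eq h h4, h.cen hw x⁻¹]; simp [chi]
    have h4R : 4 ≤ Nat.card (rad h h4) := by
      rw [← cnt_one h]
      exact Nat.card_le_card_of_injective
        (fun x : {x : G // x * x = 1} => (⟨x.1, hw x.1 x.2⟩ : rad h h4))
        fun x y e => Subtype.ext (congrArg (fun z : rad h h4 => (z : G)) e)
    have hk2 : 2 ≤ k := by
      by_contra hc
      have : k = 0 ∨ k = 1 := by omega
      rcases this with rfl | rfl <;> omega
    rw [hR, hn] at e
    set S : ℤ := 2 * cnt a + 8 - ((2 ^ n : ℕ) : ℤ) with hS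
    have e2 : S.natAbs ^ 2 = 2 ^ (n + k) := by
      have := congrArg Int.natAbs e
      rw [Int.natAbs_pow, Int.natAbs_mul, Int.natAbs_natCast, Int.natAbs_natCast] at this
      rw [this, pow_add]
    obtain ⟨j, -, hj⟩ := (Nat.dvd_prime_pow Nat.prime_two).mp
      (e2 ▸ dvd_pow_self S.natAbs two_ne_zero)
    rw [hj, ← pow_mul] at e2
    have e3 := Nat.pow_right_injective le_rfl e2
    refine ⟨j, by omega, by omega, ?_⟩
    generalize 2 ^ n = N at *
    generalize 2 ^ j = J at *
    omega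

/-- fixed points of an automorphism -/
def fx (α : MulAut G) : Subgroup G where
  carrier := {x | α x = x}
  one_mem' := map_one α
  mul_mem' := fun {x y} hx hy => by
    simp only [Set.mem_ofPred_eq] at *; rw [map_mul, hx, hy]
  inv_mem' := fun {x} hx => by
    simp only [Set.mem_ofPred_eq] at *; rw [map_inv, hx]

theorem modEq_of_pred [Finite G] (α : MulAut G) {r : ℕ} (hr : r.Prime) (hα : α ^ r = 1)
    (P : G → Prop) (hP : ∀ x, P x → P (α x)) :
    Nat.card {x // P x} ≡ Nat.card {x : fx α // P x} [MOD r] := by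
  classical
  haveI := Fintype.ofFinite G
  haveI := Fact.mk hr
  let f : Function.End {x // P x} := fun x => ⟨α x, hP _ x.2⟩
  have hf : ∀ (n : ℕ) (x : {x // P x}), ((f ^ n) x : G) = (α ^ n) x := by
    intro n
    induction n with
    | zero => intro x; rfl
    | succ n ih =>
      intro x
      rw [pow_succ, pow_succ]
      exact ih (f x)
  have h1 : f ^ r ^ 1 = 1 := by
    funext x
    apply Subtype.ext
    rw [hf, pow_one, hα]; rfl
  have := Equiv.Perm.card_fixedPoints_modEq h1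
  rw [← Nat.card_eq_fintype_card, ← Nat.card_eq_fintype_card] at this
  refine this.trans (congrArg (· % r) ?_)
  refine Nat.card_congr ⟨fun x => ⟨⟨x.1.1, congrArg Subtype.val x.2⟩, x.1.2⟩,
    fun x => ⟨⟨x.1.1, x.2⟩, Subtype.ext x.1.2⟩, fun x => rfl, fun x => rfl⟩

/-- `G` has an automorphism of order `r` fixing the involutions -/
def Has (G : Type u) [Group G] (r : ℕ) : Prop :=
  ∃ α : MulAut G, α ≠ 1 ∧ α ^ r = 1 ∧ ∀ x, x * x = 1 → α x = x

theorem Has.data [Finite G] {a b : G} (h : T3 a b) (h4 : ∀ x : G, x ^ 4 = 1) {n : ℕ}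
    (hn : Nat.card G = 2 ^ n) {r : ℕ} (hr : r.Prime) (H : Has G r) :
    ∃ f u v w : ℕ, f < n ∧ 2 ^ n ≡ 2 ^ f [MOD r] ∧ u + v + w + 4 = 2 ^ f ∧
      cnt a ≡ u [MOD r] ∧ cnt b ≡ v [MOD r] ∧ cnt (a * b) ≡ w [MOD r] ∧
      ∀ s ∈ ({u, v, w} : Set ℕ), 2 * s + 8 = 2 ^ f ∨ ∃ j, f + 2 ≤ 2 * j ∧ j ≤ f ∧
      (2 * s + 8 = 2 ^ f + 2 ^ j ∨ 2 * s + 8 + 2 ^ j = 2 ^ f) := by
  obtain ⟨α, h1, hα, hw⟩ := H
  have ha : a ∈ fx α := hw a h.a2
  have hb : b ∈ fx α := hw b h.b2
  have hF := h.sub (fx α) ha hb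
  have h4F : ∀ x : fx α, x ^ 4 = 1 := fun x => Subtype.ext (h4 x)
  obtain ⟨f, hf, hc⟩ := (Nat.dvd_prime_pow Nat.prime_two).mp
      (hn ▸ card_subgroup_dvd_card (fx α))
  have hlt : f < n := by
    refine lt_of_le_of_ne hf fun e => h1 ?_
    have : fx α = ⊤ := eq_top_of_card_eq _ (by rw [hc, hn, e])
    ext x
    exact (this ▸ mem_top x : x ∈ fx α)
  have key : ∀ (c : G) (hc : c ∈ fx α), cnt c ≡ cnt (⟨c, hc⟩ : fx α) [MOD r] := fun c hc => by
    have := modEq_of_pred α hr hα (fun x => x * x = c) fun x hx => by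
      rw [← map_mul, hx]; exact hc
    refine this.trans (congrArg (· % r) ?_)
    exact Nat.card_congr (Equiv.subtypeEquivRight fun x => by rw [Subtype.ext_iff]; rfl)
  refine ⟨f, cnt (⟨a, ha⟩ : fx α), cnt (⟨b, hb⟩ : fx α), cnt (⟨a, ha⟩ * ⟨b, hb⟩ : fx α), hlt, ?_,
    hc ▸ cnt_sum hF h4F, key a ha, key b hb, key (a * b) (mul_mem ha hb), ?_⟩
  · have := modEq_of_pred α hr hα (fun x => True) fun x hx => trivial
    rwa [Nat.card_congr (Equiv.subtypeUnivEquiv fun _ => trivial),
      Nat.card_congr (Equiv.subtypeUnivEquiv fun _ => trivial), hn, hc] at this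
  · rintro s (rfl | rfl | rfl)
    · exact cnt_cases hF h4F hc
    · exact cnt_cases hF.swap h4F hc
    · exact cnt_cases hF.rot h4F hc

/-- numerical shape -/
def Sh (n s : ℕ) : Prop := 2 * s + 8 = 2 ^ n ∨ ∃ j, n + 2 ≤ 2 * j ∧ j ≤ n ∧
      (2 * s + 8 = 2 ^ n + 2 ^ j ∨ 2 * s + 8 + 2 ^ j = 2 ^ n)

theorem Sh.dvd {n s : ℕ} (h : Sh n s) (hn : 7 ≤ n) : 32 ∣ 2 * s + 8 := by
  have h1 : 32 ∣ 2 ^ n := pow_dvd_pow 2 (show 5 ≤ n by omega)
  rcases h with e | ⟨j, h2, h3, e⟩
  · rwa [e]
  · have h4 : 32 ∣ 2 ^ j := pow_dvd_pow 2 (show 5 ≤ j by omega)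
    omega

theorem Sh.s2 {s : ℕ} (h : Sh 2 s) : s = 0 := by
  rcases h with e | ⟨j, h2, h3, e⟩
  · omega
  · obtain rfl : j = 2 := by omega
    omega

theorem Sh.s3 {s : ℕ} (h : Sh 3 s) : s = 0 ∨ s = 4 := by
  rcases h with e | ⟨j, h2, h3, e⟩
  · omega
  · obtain rfl : j = 3 := by omega
    omega

theorem Sh.s4 {s : ℕ} (h : Sh 4 s) : s = 0 ∨ s = 4 ∨ s = 8 ∨ s = 12 := by
  rcases h with e | ⟨j, h2, h3, e⟩
  · omega
  · obtain rfl | rfl : j = 3 ∨ j = 4 := by omega
    all_goals omega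

theorem Sh.s5 {s : ℕ} (h : Sh 5 s) : s = 4 ∨ s = 12 ∨ s = 20 ∨ s = 28 := by
  rcases h with e | ⟨j, h2, h3, e⟩
  · omega
  · obtain rfl | rfl : j = 4 ∨ j = 5 := by omega
    all_goals omega

theorem Sh.s6 {s : ℕ} (h : Sh 6 s) : s = 12 ∨ s = 20 ∨ s = 28 ∨ s = 36 ∨ s = 44 ∨ s = 60 := by
  rcases h with e | ⟨j, h2, h3, e⟩
  · omega
  · obtain rfl | rfl | rfl : j = 4 ∨ j = 5 ∨ j = 6 := by omega
    all_goals omega

theorem prime_of_modEq {r n f : ℕ} (hr : r.Prime) (h2 : r ≠ 2) (hf : f < n) (hn : n ≤ f + 4)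
    (h : 2 ^ n ≡ 2 ^ f [MOD r]) :
    (r = 3 ∧ (n = f + 2 ∨ n = f + 4)) ∨ (r = 7 ∧ n = f + 3) ∨ (r = 5 ∧ n = f + 4) := by
  obtain ⟨d, rfl⟩ := Nat.exists_eq_add_of_le hf.le
  have hc : Nat.Coprime r (2 ^ f) :=
    ((Nat.coprime_primes hr Nat.prime_two).mpr h2).pow_right _
  have h1 : 2 ^ d ≡ 1 [MOD r] := by
    refine Nat.ModEq.cancel_left_of_coprime hc ?_
    rwa [mul_one, ← pow_add]
  have h3 : r ∣ 2 ^ d - 1 := (Nat.modEq_iff_dvd' Nat.one_le_two_pow).mp h1.symm
  obtain rfl | rfl | rfl | rfl : d = 1 ∨ d = 2 ∨ d = 3 ∨ d = 4 := by omega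
  · exact absurd (Nat.dvd_one.mp h3) hr.one_lt.ne'
  · exact Or.inl ⟨(Nat.prime_dvd_prime_iff_eq hr Nat.prime_three).mp h3, Or.inl rfl⟩
  · exact Or.inr (Or.inl ⟨(Nat.prime_dvd_prime_iff_eq hr (by norm_num)).mp h3, rfl⟩)
  · rcases (Nat.Prime.dvd_mul hr).mp (show r ∣ 3 * 5 from h3) with e | e
    · exact Or.inl ⟨(Nat.prime_dvd_prime_iff_eq hr Nat.prime_three).mp e, Or.inr rfl⟩
    · exact Or.inr (Or.inr ⟨(Nat.prime_dvd_prime_iff_eq hr Nat.prime_five).mp e, rfl⟩)

theorem core [Finite G] {a b : G} (h : T3 a b) (h4 : ∀ x : G, x ^ 4 = 1) (h2 : IsPGroup 2 G) :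
    (∀ r : ℕ, r.Prime → r ≠ 2 → Has G r → r = 3 ∨ r = 5) ∧ ¬ (Has G 3 ∧ Has G 5) := by
  obtain ⟨n, hn⟩ := IsPGroup.iff_card.mp h2
  have sa : Sh n _ := cnt_cases h h4 hn
  have sb : Sh n _ := cnt_cases h.swap h4 hn
  have sc : Sh n _ := cnt_cases h.rot h4 hn
  have ss := cnt_sum h h4
  rw [hn] at ss
  have hn6 : n ≤ 6 := by
    by_contra hc
    have h1 := sa.dvd (by omega)
    have h2 := sb.dvd (by omega)
    have h3 := sc.dvd (by omega)
    have h4 : 32 ∣ 2 ^ n := pow_dvd_pow 2 (show 5 ≤ n by omega)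
    omega
  have f2 : ∀ f u v w : ℕ, u + v + w + 4 = 2 ^ f → 2 ≤ f := fun f u v w e => by
    by_contra hc
    obtain rfl | rfl : f = 0 ∨ f = 1 := by omega
    all_goals omega
  have key : ∀ r : ℕ, r.Prime → r ≠ 2 → Has G r →
      (r = 3 ∧ ¬ (n = 6 ∧ cnt a = 20 ∧ cnt b = 20 ∧ cnt (a * b) = 20)) ∨
      (r = 5 ∧ n = 6 ∧ cnt a = 20 ∧ cnt b = 20 ∧ cnt (a * b) = 20) := by
    intro r hr hr2 H
    obtain ⟨f, u, v, w, hf, hm, hs, ha, hb, hc, hsh⟩ := H.data h h4 hn hr
    have hf2 := f2 _ _ _ _ hs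
    have su : Sh f u := hsh u (by simp)
    have sv : Sh f v := hsh v (by simp)
    have sw : Sh f w := hsh w (by simp)
    unfold Nat.ModEq at ha hb hc
    rcases prime_of_modEq hr hr2 hf (by omega) hm with ⟨rfl, e⟩ | ⟨rfl, e⟩ | ⟨rfl, e⟩
    · refine Or.inl ⟨rfl, ?_⟩
      rintro ⟨rfl, e1, e2, e3⟩
      obtain rfl | rfl : f = 2 ∨ f = 4 := by omega
      · have := su.s2; omega
      · have := su.s4; have := sv.s4; have := sw.s4; omega
    · exfalso
      obtain rfl | rfl : f = 2 ∨ f = 3 := by omega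
      · subst e
        have := su.s2; have := sv.s2; have := sa.s5; have := sb.s5; omega
      · subst e
        have := su.s3; have := sv.s3; have := sw.s3
        have := sa.s6; have := sb.s6; have := sc.s6; omega
    · obtain rfl : f = 2 := by omega
      subst e
      have := su.s2; have := sv.s2; have := sw.s2
      have := sa.s6; have := sb.s6; have := sc.s6
      refine Or.inr ⟨rfl, rfl, ?_, ?_, ?_⟩ <;> omega
  refine ⟨fun r hr hr2 H => (key r hr hr2 H).imp And.left And.left, fun ⟨H3, H5⟩ => ?_⟩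
  rcases key 3 Nat.prime_three (by norm_num) H3 with e | e
  · rcases key 5 Nat.prime_five (by norm_num) H5 with e' | e'
    · omega
    · exact e.2 e'.2
  · omega

theorem stab {α : MulAut G} {r : ℕ} (hr : Odd r) (hα : α ^ r = 1) (h2 : IsPGroup 2 G) {x : G}
    (hy : α (x⁻¹ * α x) = x⁻¹ * α x) : α x = x := by
  set y := x⁻¹ * α x with hyd
  have e : ∀ n : ℕ, (α ^ n) x = x * y ^ n := by
    intro n
    induction n with
    | zero => simp
    | succ n ih =>
      rw [pow_succ', MulAut.mul_apply, ih, map_mul, map_pow, hy, pow_succ', ← mul_assoc, hyd]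
      simp
  have e1 : y ^ r = 1 := by
    have := e r
    rw [hα] at this
    simpa using this
  obtain ⟨k, hk⟩ := h2 y
  have e2 : y = 1 := by
    have := pow_gcd_eq_one.mpr ⟨e1, hk⟩
    rwa [(Nat.coprime_two_right.mpr hr).pow_right k, pow_one] at this
  rw [hyd, inv_mul_eq_one] at e2
  exact e2.symm

theorem Has.res {r : ℕ} (H : Subgroup G) [H.Characteristic]
    (hH : ∀ α : MulAut G, α ^ r = 1 → (∀ x ∈ H, α x = x) → α = 1) (h : Has G r) : Has H r := by
  obtain ⟨α, h1, hα, hw⟩ := h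
  refine ⟨MulAut.characteristic H α, fun e => h1 (hH α hα fun x hx => ?_), by
    rw [← map_pow, hα, map_one], fun x hx => Subtype.ext (hw x (congrArg Subtype.val hx))⟩
  exact congrArg (fun β : MulAut H => (β ⟨x, hx⟩ : G)) e

/-- elements of order dividing four in a group of class two with central involutions -/
def om2 {a b : G} (h : T3 a b) (hc : ∀ x y z : G, z * ⁅x, y⁆ = ⁅x, y⁆ * z) : Subgroup G where
  carrier := {x | x ^ 4 = 1}
  one_mem' := one_pow _
  inv_mem' := fun {x} hx => by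
    simp only [Set.mem_ofPred_eq] at *; rw [inv_pow, hx, inv_one]
  mul_mem' := fun {x y} hx hy => by
    simp only [Set.mem_ofPred_eq] at *
    have c1 := h.cen (sq4 x hx)
    have c2 := h.cen (sq4 y hy)
    set c := ⁅y, x⁆ with hcd
    have c3 : ∀ z, z * c = c * z := hc y x
    have e0 : y * x = c * x * y := by rw [hcd, commutatorElement_def]; group
    have e1 : c * c = 1 := by
      have : y * (x * x) = c * c * (x * x) * y := by
        calc y * (x * x) = (y * x) * x := by group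
          _ = c * x * (y * x) := by rw [e0, mul_assoc (c * x), ← e0]
          _ = c * (x * c) * x * y := by rw [e0]; group
          _ = c * c * (x * x) * y := by rw [c3]; group
      rw [c1 y, mul_assoc (c * c)] at this
      simpa using this
    have e2 : x * y * (x * y) = c * (x * x) * (y * y) := by
      calc x * y * (x * y) = x * (y * x) * y := by group
        _ = (x * c) * x * y * y := by rw [e0]; group
        _ = c * (x * x) * (y * y) := by rw [c3]; group
    have e3 : (x * y) ^ 4 = x * y * (x * y) * (x * y * (x * y)) := by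
      simp only [pow_succ, pow_zero, one_mul, mul_assoc]
    rw [e3, e2]
    have hx' := sq4 x hx
    have hy' := sq4 y hy
    generalize x * x = p at *
    generalize y * y = q at *
    calc c * p * q * (c * p * q) = c * p * (q * c) * p * q := by group
      _ = c * (p * c) * (q * p) * q := by rw [c3]; group
      _ = (c * c) * (p * p) * (q * q) := by rw [c3, c1 q]; group
      _ = 1 := by rw [e1, hx', hy']; simp

theorem class_two [Finite G] {a b : G} (h : T3 a b) (h2 : IsPGroup 2 G)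
    (hc : ∀ x y z : G, z * ⁅x, y⁆ = ⁅x, y⁆ * z) :
    (∀ r : ℕ, r.Prime → r ≠ 2 → Has G r → r = 3 ∨ r = 5) ∧ ¬ (Has G 3 ∧ Has G 5) := by
  haveI : (om2 h hc).Characteristic := characteristic_iff_le_comap.mpr fun φ x hx => by
    have hx' : x ^ 4 = 1 := hx
    show (φ x) ^ 4 = 1
    rw [← map_pow, hx', map_one]
  have m : ∀ w : G, w * w = 1 → w ∈ om2 h hc := fun w hw => by
    show w ^ 4 = 1
    calc w ^ 4 = w * w * (w * w) := by simp only [pow_succ, pow_zero, one_mul, mul_assoc]
      _ = 1 := by rw [hw, one_mul]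
  have res : ∀ r : ℕ, Odd r → Has G r → Has (om2 h hc) r := fun r hr =>
    Has.res _ fun α hα hf => by
      have : ∀ (k : ℕ) (x : G), x ^ 2 ^ k = 1 → α x = x := by
        intro k
        induction k with
        | zero => intro x hx; simp at hx; simp [hx]
        | succ k ih =>
          intro x hx
          have e1 : α (x * x) = x * x := ih _ (by rw [← sq, ← pow_mul, ← pow_succ', hx])
          refine stab hr hα h2 (hf _ ?_)
          set y := x⁻¹ * α x with hy
          have e2 : α x = x * y := by rw [hy]; group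
          rw [map_mul, e2] at e1
          have e3 : y * x * y = x := by
            have : x * (y * x * y) = x * x := by rw [← e1]; group
            exact mul_left_cancel this
          have e4 : x * y * x⁻¹ = y⁻¹ := by
            calc x * y * x⁻¹ = y⁻¹ * (y * x * y) * x⁻¹ := by group
              _ = y⁻¹ := by rw [e3]; group
          have e5 : ⁅x, y⁆ = y⁻¹ * y⁻¹ := by rw [commutatorElement_def, e4]
          have e6 := hc x y x
          rw [e5] at e6
          have e7 : x * (y⁻¹ * y⁻¹) * x⁻¹ = y * y := by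
            calc x * (y⁻¹ * y⁻¹) * x⁻¹ = (x * y * x⁻¹)⁻¹ * (x * y * x⁻¹)⁻¹ := by group
              _ = y * y := by rw [e4]; group
          rw [e6] at e7
          show y ^ 4 = 1
          calc y ^ 4 = y * y * (y * y) := by simp only [pow_succ, pow_zero, one_mul, mul_assoc]
            _ = y * y * (y⁻¹ * y⁻¹ * x * x⁻¹) := by rw [e7]
            _ = 1 := by group
      ext x
      obtain ⟨k, hk⟩ := h2 x
      exact this k x hk
  obtain ⟨c1, c2⟩ := core (h.sub _ (m a h.a2) (m b h.b2)) (fun x => Subtype.ext x.2)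
    (h2.to_subgroup _)
  exact ⟨fun r hr hr2 H => c1 r hr hr2 (res r (hr.odd_of_ne_two hr2) H),
    fun ⟨H3, H5⟩ => c2 ⟨res 3 (by decide) H3, res 5 (by decide) H5⟩⟩

theorem central [Finite G] {a b : G} (h : T3 a b) (h2 : IsPGroup 2 G) :
    (∀ r : ℕ, r.Prime → r ≠ 2 → Has G r → r = 3 ∨ r = 5) ∧ ¬ (Has G 3 ∧ Has G 5) := by
  obtain ⟨D, hD, h1, h3⟩ := FT.exists_critical h2.isNilpotent
  have res : ∀ r : ℕ, Odd r → Has G r → Has D r := fun r hr =>
    Has.res _ fun α hα hf => by
      ext x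
      refine stab hr hα h2 (hf _ (h3 fun d hd => ?_))
      have hn : D.Normal := inferInstance
      have e := hf _ (hn.conj_mem d hd x)
      rw [map_mul, map_mul, map_inv, hf d hd] at e
      calc d * (x⁻¹ * α x) = x⁻¹ * (x * d * x⁻¹) * α x := by group
        _ = x⁻¹ * α x * d := by rw [← e]; group
  obtain ⟨c1, c2⟩ := class_two (h.sub D (h3 fun d _ => h.ca d) (h3 fun d _ => h.cb d))
    (h2.to_subgroup _) fun x y z => Subtype.ext
      ((h1 (commutator_mem_commutator x.2 (mem_top (y : G)))).2 z z.2)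
  exact ⟨fun r hr hr2 H => c1 r hr hr2 (res r (hr.odd_of_ne_two hr2) H),
    fun ⟨H3, H5⟩ => c2 ⟨res 3 (by decide) H3, res 5 (by decide) H5⟩⟩

theorem three [Finite G] (h2 : IsPGroup 2 G) (h3 : Nat.card {x : G // orderOf x = 2} = 3) :
    ∃ z a : G, z ≠ 1 ∧ a ≠ 1 ∧ z ≠ a ∧ z * z = 1 ∧ a * a = 1 ∧ (∀ x, x * z = z * x) ∧
      ∀ x : G, x * x = 1 → x = 1 ∨ x = z ∨ x = a ∨ x = z * a := by
  classical
  haveI := Fintype.ofFinite G
  haveI := Fact.mk Nat.prime_two
  have ho : ∀ x : G, orderOf x = 2 ↔ x * x = 1 ∧ x ≠ 1 := fun x => by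
    rw [orderOf_eq_prime_iff, sq]
  rw [Nat.card_eq_fintype_card, Fintype.card_subtype] at h3
  set I := Finset.univ.filter fun x : G => orderOf x = 2 with hI
  have mI : ∀ x, x ∈ I ↔ x * x = 1 ∧ x ≠ 1 := fun x => by simp [hI, ho]
  obtain ⟨x0, hx0⟩ : I.Nonempty := Finset.card_pos.mp (by omega)
  haveI : Nontrivial G := ⟨⟨x0, 1, ((mI _).mp hx0).2⟩⟩
  haveI := h2.center_nontrivial
  obtain ⟨z, hz⟩ := exists_prime_orderOf_dvd_card' (G := center G) 2
    ((h2.to_subgroup _).card_eq_or_dvd.resolve_left Finite.one_lt_card.ne')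
  rw [← orderOf_coe, ho] at hz
  have hzc : ∀ x : G, x * z = z * x := mem_center_iff.mp z.2
  obtain ⟨a, ha, haz⟩ := Finset.exists_mem_ne (s := I) (by omega) (z : G)
  rw [mI] at ha
  have e1 : (z : G) * a ≠ 1 := fun e => haz (by
    have : (z : G) * (z * a) = z := by rw [e, mul_one]
    rwa [← mul_assoc, hz.1, one_mul] at this)
  have e2 : (z : G) * a * (z * a) = 1 := by
    rw [mul_assoc, ← mul_assoc a, hzc a, mul_assoc, ha.1, mul_one, hz.1]
  have hs : ({(z : G), a, z * a} : Finset G) = I := by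
    refine Finset.eq_of_subset_of_card_le ?_ ?_
    · intro x hx
      simp only [Finset.mem_insert, Finset.mem_singleton] at hx
      rw [mI]
      rcases hx with rfl | rfl | rfl
      · exact hz
      · exact ha
      · exact ⟨e2, e1⟩
    · rw [h3, Finset.card_insert_of_notMem, Finset.card_pair]
      · simpa using hz.2
      · simp [haz.symm, ha.2]
  refine ⟨z, a, hz.2, ha.2, haz.symm, hz.1, ha.1, hzc, fun x hx => ?_⟩
  by_cases h1 : x = 1
  · exact Or.inl h1
  · have : x ∈ ({(z : G), a, z * a} : Finset G) := hs ▸ (mI x).mpr ⟨hx, h1⟩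
    simpa using Or.inr this

theorem general [Finite G] (h2 : IsPGroup 2 G) (h3 : Nat.card {x : G // orderOf x = 2} = 3) :
    (∀ r : ℕ, r.Prime → r ≠ 2 → Has G r → r = 3 ∨ r = 5) ∧ ¬ (Has G 3 ∧ Has G 5) := by
  obtain ⟨z, a, z1, a1, za, z2, a2, zc, all⟩ := three h2 h3
  let X := centralizer {x : G | x * x = 1}
  haveI : X.Characteristic := characteristic_iff_le_comap.mpr fun φ x hx w hw => by
    have hw' : w * w = 1 := hw
    have := hx (φ.symm w) (by
      show φ.symm w * φ.symm w = 1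
      rw [← map_mul, hw', map_one])
    simpa using congrArg φ this
  have mX : ∀ x, x ∈ X ↔ a * x = x * a := fun x => ⟨fun hx => hx a a2, fun hx w hw => by
    rcases all w hw with e | e | e | e <;> rw [e]
    · simp
    · exact (zc x).symm
    · exact hx
    · rw [mul_assoc, hx, ← mul_assoc, ← zc x, mul_assoc]⟩
  have nX : ∀ x, x ∉ X → x * a * x⁻¹ = z * a := fun x hx => by
    rcases all (x * a * x⁻¹) (by
      calc x * a * x⁻¹ * (x * a * x⁻¹) = x * (a * a) * x⁻¹ := by group
        _ = 1 := by rw [a2]; simp) with e | e | e | e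
    · exact absurd (by simpa using e) a1
    · exfalso
      apply za
      calc z = x⁻¹ * (x * z) := by group
        _ = x⁻¹ * (x * a * x⁻¹ * x) := by rw [zc, e]
        _ = a := by group
    · exact absurd ((mX x).mpr (by rw [← mul_inv_eq_iff_eq_mul, eq_comm, ← mul_inv_eq_iff_eq_mul]
                                   simpa [mul_inv_eq_iff_eq_mul] using e)) hx
    · exact e
  have res : ∀ r : ℕ, Odd r → Has G r → Has X r := fun r hr =>
    Has.res _ fun α hα hf => by
      ext x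
      by_cases hx : x ∈ X
      · exact hf x hx
      refine stab hr hα h2 (hf _ ((mX _).mpr ?_))
      have hx' : α x ∉ X := fun hc => hx (by
        have : α (α x) = α x := hf _ hc
        rw [← α.injective this]; exact hc)
      have e1 := nX _ (fun hc => hx (inv_mem_iff.mp hc) : x⁻¹ ∉ X)
      have e2 := nX _ hx'
      rw [inv_inv] at e1
      calc a * (x⁻¹ * α x) = (z * z) * a * (x⁻¹ * α x) := by rw [z2, one_mul]
        _ = z * (z * a) * (x⁻¹ * α x) := by group
        _ = z * (x⁻¹ * a * x) * (x⁻¹ * α x) := by rw [e1]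
        _ = (z * x⁻¹) * a * α x := by group
        _ = x⁻¹ * (z * a) * α x := by rw [← zc]; group
        _ = x⁻¹ * α x * a := by rw [← e2]; group
  have hz : z ∈ X := (mX z).mpr (zc a)
  have ha : a ∈ X := (mX a).mpr rfl
  have T : T3 (⟨z, hz⟩ : X) ⟨a, ha⟩ :=
    ⟨fun e => z1 (congrArg Subtype.val e), fun e => a1 (congrArg Subtype.val e),
    fun e => za (congrArg Subtype.val e), Subtype.ext z2, Subtype.ext a2,
    fun x => Subtype.ext (zc x), fun x => Subtype.ext ((mX _).mp x.2).symm, fun x hx => by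
      rcases all x (congrArg Subtype.val hx) with e | e | e | e
      · exact Or.inl (Subtype.ext e)
      · exact Or.inr (Or.inl (Subtype.ext e))
      · exact Or.inr (Or.inr (Or.inl (Subtype.ext e)))
      · exact Or.inr (Or.inr (Or.inr (Subtype.ext e)))⟩
  obtain ⟨c1, c2⟩ := central T (h2.to_subgroup _)
  exact ⟨fun r hr hr2 H => c1 r hr hr2 (res r (hr.odd_of_ne_two hr2) H),
    fun ⟨H3, H5⟩ => c2 ⟨res 3 (by decide) H3, res 5 (by decide) H5⟩⟩

theorem dvd_of_primes {n p q : ℕ} (hn : n ≠ 0) (hp : p.Prime) (hq : q.Prime)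
    (h : ∀ r : ℕ, r.Prime → r ∣ n → r = p ∨ r = q) : n ∣ p ^ n * q ^ n := by
  rw [← mul_pow]
  refine (Nat.dvd_pow_self_iff hn (mul_ne_zero hp.ne_zero hq.ne_zero)).mpr fun r hr => ?_
  rw [Nat.mem_primeFactors] at hr ⊢
  refine ⟨hr.1, ?_, mul_ne_zero hp.ne_zero hq.ne_zero⟩
  rcases h r hr.1 hr.2.1 with rfl | rfl
  · exact dvd_mul_right _ _
  · exact dvd_mul_left _ _

theorem solvable [Finite G] (h2 : IsPGroup 2 G) (h3 : Nat.card {x : G // orderOf x = 2} = 3) :
    Group.IsSolvable (MulAut G) := by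
  obtain ⟨c1, c2⟩ := general h2 h3
  let ρ : MulAut G →* Equiv.Perm {x : G // orderOf x = 2} :=
    { toFun := fun α => Equiv.subtypeEquiv α.toEquiv fun x => by
        rw [MulEquiv.toEquiv_eq_coe, MulEquiv.coe_toEquiv, MulEquiv.orderOf_eq]
      map_one' := by ext; rfl
      map_mul' := fun _ _ => by ext; rfl }
  haveI : Group.IsSolvable (Equiv.Perm {x : G // orderOf x = 2}) :=
    isSolvable_of_card_eq_prime_pow_mul Nat.prime_two Nat.prime_three 1 1
      (by rw [Nat.card_perm, h3]; rfl)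
  have hK : ∀ r : ℕ, r.Prime → r ∣ Nat.card ρ.ker → Has G r := fun r hr hd => by
    haveI := Fact.mk hr
    haveI := Fact.mk Nat.prime_two
    obtain ⟨α, hα⟩ := exists_prime_orderOf_dvd_card' r hd
    rw [← orderOf_coe, orderOf_eq_prime_iff] at hα
    refine ⟨α, hα.2, hα.1, fun x hx => ?_⟩
    by_cases h1 : x = 1
    · simp [h1]
    · exact congrArg (fun σ : Equiv.Perm {x : G // orderOf x = 2} =>
        (σ ⟨x, orderOf_eq_prime (by rw [sq, hx]) h1⟩ : G)) (α.2 : ρ α = 1)
  haveI : Group.IsSolvable ρ.ker := by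
    have h0 : Nat.card ρ.ker ≠ 0 := Nat.card_pos.ne'
    by_cases H3 : Has G 3
    · refine isSolvable_of_card_dvd_prime_pow_mul Nat.prime_two Nat.prime_three _ _ _ _ rfl
        (dvd_of_primes h0 Nat.prime_two Nat.prime_three fun r hr hd => ?_)
      by_cases e : r = 2
      · exact Or.inl e
      · rcases c1 r hr e (hK r hr hd) with rfl | rfl
        · exact Or.inr rfl
        · exact absurd ⟨H3, hK _ hr hd⟩ c2
    · refine isSolvable_of_card_dvd_prime_pow_mul Nat.prime_two Nat.prime_five _ _ _ _ rfl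
        (dvd_of_primes h0 Nat.prime_two Nat.prime_five fun r hr hd => ?_)
      by_cases e : r = 2
      · exact Or.inl e
      · rcases c1 r hr e (hK r hr hd) with rfl | rfl
        · exact absurd (hK _ hr hd) H3
        · exact Or.inr rfl
  exact Group.isSolvable_of_ker_le_range ρ.ker.subtype ρ (by simp)

end H8.Inv3
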