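import Mathlib
import Cfsg.Agent.H7.PBasic
import Cfsg.Agent.H7.CyclicTwo
import Cfsg.Agent.H6.Stab

/-! Elementary abelian sections of 2-groups with small fixed points. -/

set_option autoImplicit false
set_option linter.unusedVariables false
set_option linter.style.haveILetI false
set_option linter.unusedSectionVars false

namespace H8.Ru

open Subgroup
open scoped commutatorElement

variable {Q : Type*} [Group Q]

theorem two {A B : Subgroup Q} [Finite Q] (h : A ≤ B) (hc : Nat.card B = Nat.card A * 2) {x y : Q}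
    (hx : x ∈ B) (hy : y ∈ B) (hxA : x ∉ A) (hyA : y ∉ A) : x * y ∈ A := by
  have h1 := H7.card_mul_relIndex h
  rw [hc] at h1
  have h2 : (A.subgroupOf B).index = 2 := Nat.eq_of_mul_eq_mul_left Nat.card_pos h1
  have := (mul_mem_iff_of_index_two h2 (a := ⟨x, hx⟩) (b := ⟨y, hy⟩)).mpr (by
    simp [mem_subgroupOf, hxA, hyA])
  exact this

theorem comm_of_sq {U : Subgroup Q} (h2 : ∀ x ∈ U, x * x = 1) {x y : Q} (hx : x ∈ U) (hy : y ∈ U) :
    x * y = y * x := by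
  have e := h2 _ (mul_mem hx hy)
  calc x * y = (x * y)⁻¹ := (inv_eq_of_mul_eq_one_right e).symm
    _ = y * x := by
      rw [mul_inv_rev, inv_eq_of_mul_eq_one_right (h2 x hx), inv_eq_of_mul_eq_one_right (h2 y hy)]

theorem half [Finite Q] {U : Subgroup Q} (h2 : ∀ x ∈ U, x * x = 1) {t : Q}
    (ht : t ∈ normalizer (U : Set Q)) (ht2 : ∀ x ∈ U, t * t * x = x * (t * t)) :
    Nat.card U ≤ Nat.card ↥(U ⊓ centralizer {t}) ^ 2 ∧
      (Nat.card U = Nat.card ↥(U ⊓ centralizer {t}) ^ 2 →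
        ∀ s ∈ U, t * s = s * t → ∃ u ∈ U, s = u * (t * u * t⁻¹)) := by
  have cj : ∀ u ∈ U, t * u * t⁻¹ ∈ U := fun u hu => H7.conj_mem_of_mem_normalizer ht hu
  let φ : U →* Q :=
    { toFun := fun u => u * (t * u * t⁻¹)
      map_one' := by simp
      map_mul' := fun u v => by
        have := comm_of_sq h2 v.2 (cj u u.2)
        simp only [coe_mul]
        calc (u : Q) * v * (t * (u * v) * t⁻¹) = u * (v * (t * u * t⁻¹)) * (t * v * t⁻¹) := by group
          _ = _ := by rw [this]; group }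
  have hk : φ.ker = (U ⊓ centralizer {t}).subgroupOf U := by
    ext u
    rw [MonoidHom.mem_ker, mem_subgroupOf, mem_inf, mem_centralizer_singleton_iff]
    show (u : Q) * (t * u * t⁻¹) = 1 ↔ _
    rw [mul_eq_one_iff_inv_eq, inv_eq_of_mul_eq_one_right (h2 u u.2), eq_mul_inv_iff_mul_eq]
    simp
  have hr : φ.range ≤ U ⊓ centralizer {t} := by
    rintro _ ⟨u, rfl⟩
    refine ⟨mul_mem u.2 (cj u u.2), mem_centralizer_singleton_iff.mpr ?_⟩
    show (u : Q) * (t * u * t⁻¹) * t = t * (u * (t * u * t⁻¹))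
    calc (u : Q) * (t * u * t⁻¹) * t = (t * u * t⁻¹) * u * t := by
          rw [comm_of_sq h2 u.2 (cj u u.2)]
      _ = t * u * t⁻¹ * (u * (t * t)) * t⁻¹ := by group
      _ = _ := by rw [← ht2 u u.2]; group
  have h1 : Nat.card U = Nat.card ↥(U ⊓ centralizer {t}) * Nat.card φ.range := by
    rw [← φ.ker.card_mul_index, index_ker, hk,
      Nat.card_congr (subgroupOfEquivOfLe inf_le_left).toEquiv]
  have h3 := card_le_of_le hr
  refine ⟨by rw [h1, sq]; exact Nat.mul_le_mul_left _ h3, fun e s hs hst => ?_⟩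
  rw [h1, sq] at e
  have h4 := eq_of_le_of_card_ge hr (Nat.eq_of_mul_eq_mul_left Nat.card_pos e).ge
  obtain ⟨u, hu⟩ : s ∈ φ.range := h4 ▸ ⟨hs, mem_centralizer_singleton_iff.mpr hst.symm⟩
  exact ⟨u, u.2, hu.symm⟩

theorem cen_sup (V H : Subgroup Q) (t : Q) :
    V ⊓ centralizer ((H ⊔ zpowers t : Subgroup Q) : Set Q) =
      V ⊓ centralizer (H : Set Q) ⊓ centralizer {t} := by
  ext x
  simp only [mem_inf, and_assoc]
  refine and_congr_right fun _ => ?_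
  constructor
  · intro h
    exact ⟨fun y hy => h y (mem_sup_left hy), mem_centralizer_singleton_iff.mpr
      (h t (mem_sup_right (mem_zpowers t))).symm⟩
  · rintro ⟨h1, h2⟩ y hy
    have : H ⊔ zpowers t ≤ centralizer {x} := sup_le
      (fun y hy => mem_centralizer_singleton_iff.mpr (h1 y hy))
      (zpowers_le.mpr (mem_centralizer_singleton_iff.mpr (mem_centralizer_singleton_iff.mp h2).symm))
    exact mem_centralizer_singleton_iff.mp (this hy)

theorem half' [Finite Q] {V H : Subgroup Q} [V.Normal] (h2 : ∀ x ∈ V, x * x = 1) {t : Q}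
    (ht : t ∈ normalizer (H : Set Q)) (ht2 : t * t ∈ H) :
    Nat.card ↥(V ⊓ centralizer (H : Set Q)) ≤
      Nat.card ↥(V ⊓ centralizer ((H ⊔ zpowers t : Subgroup Q) : Set Q)) ^ 2 ∧
      (Nat.card ↥(V ⊓ centralizer (H : Set Q)) =
        Nat.card ↥(V ⊓ centralizer ((H ⊔ zpowers t : Subgroup Q) : Set Q)) ^ 2 →
        ∀ s ∈ V ⊓ centralizer (H : Set Q), t * s = s * t →
          ∃ u ∈ V ⊓ centralizer (H : Set Q), s = u * (t * u * t⁻¹)) := by
  rw [cen_sup]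
  refine half (fun x hx => h2 x (mem_inf.mp hx).1) ?_ fun x hx => (mem_inf.mp hx).2 _ ht2
  exact zpowers_le.mp (H7.le_normalizer_inf (by rw [normalizer_eq_top]; exact le_top)
    (zpowers_le.mpr (H7.normalizer_le_normalizer_centralizer H ht)))

theorem bound [Finite Q] (hQ : IsPGroup 2 Q) {V : Subgroup Q} [V.Normal]
    (h2 : ∀ x ∈ V, x * x = 1) {H : Subgroup Q} (k : ℕ) : ∀ K : Subgroup Q, H ≤ K →
    Nat.card K = Nat.card H * 2 ^ k → Nat.card ↥(V ⊓ centralizer (H : Set Q)) ≤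
      Nat.card ↥(V ⊓ centralizer (K : Set Q)) ^ 2 ^ k := by
  haveI := Fact.mk Nat.prime_two
  induction k with
  | zero =>
    intro K hK hc
    rw [eq_of_le_of_card_ge hK (by simp [hc])]; simp
  | succ k ih =>
    intro K hK hc
    have hp : 0 < Nat.card H := Nat.card_pos
    have hlt : H < K := lt_of_le_of_ne hK fun e => by
      rw [← e, pow_succ] at hc
      have : 0 < 2 ^ k := by positivity
      nlinarith
    obtain ⟨M, h1, h3, h4, h5, -, h6⟩ := H7.exists_maximal_of_lt (hQ.to_subgroup K) hlt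
    obtain ⟨t, ht, htM⟩ := SetLike.exists_of_lt h3
    have e : M ⊔ zpowers t = K := eq_of_le_of_card_ge (sup_le h3.le (zpowers_le.mpr ht)) (by
      rw [H7.card_sup_zpowers (h4 ht) htM (h6 t ht), h5])
    have := (half' h2 (h4 ht) (sq t ▸ h6 t ht)).1
    rw [e] at this
    refine (ih M h1 (by rw [h5, pow_succ, ← mul_assoc] at hc; omega)).trans ?_
    rw [pow_succ', pow_mul]
    exact Nat.pow_le_pow_left this _

/-- the free situation -/
theorem free [Finite Q] (hQ : IsPGroup 2 Q) {V : Subgroup Q} [V.Normal]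
    (h2 : ∀ x ∈ V, x * x = 1) (hV : Nat.card V = 2 ^ 8) (hT : Nat.card Q = 2 ^ 11)
    (hZ : Nat.card ↥(V ⊓ center Q) ≤ 2) {H : Subgroup Q} (hVH : V ≤ H) {j : ℕ} (hj : j ≤ 1)
    (hH : Nat.card H = 2 ^ (8 + j)) {t : Q} (ht : t ∈ normalizer (H : Set Q)) (ht1 : t ∉ H)
    (ht2 : t * t ∈ H) : ∀ s ∈ V ⊓ centralizer (H : Set Q), t * s = s * t →
          ∃ u ∈ V ⊓ centralizer (H : Set Q), s = u * (t * u * t⁻¹) := by
  haveI := Fact.mk Nat.prime_two
  obtain ⟨h3, h4⟩ := half' h2 ht ht2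
  apply h4
  have c1 := H7.card_sup_zpowers ht ht1 (sq t ▸ ht2)
  have b1 := bound hQ h2 (H := V) j H hVH (by rw [hH, hV, pow_add])
  have b2 := bound hQ h2 (H := H ⊔ zpowers t) (2 - j) ⊤ le_top (by
    rw [c1, hH, card_top, hT, ← pow_succ, ← pow_add]; congr 1; omega)
  rw [coe_top, centralizer_univ] at b2
  rw [inf_of_le_left (show V ≤ centralizer (V : Set Q) from fun x hx y hy => comm_of_sq h2 hy hx),
    hV] at b1
  have b3 := b2.trans (Nat.pow_le_pow_left hZ _)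
  generalize Nat.card ↥(V ⊓ centralizer ((H ⊔ zpowers t : Subgroup Q) : Set Q)) = m at *
  generalize Nat.card ↥(V ⊓ centralizer (H : Set Q)) = n at *
  obtain rfl | rfl : j = 0 ∨ j = 1 := by omega
  · norm_num at *; nlinarith
  · norm_num at *
    have : 16 ≤ n := by by_contra hc; push Not at hc; nlinarith
    nlinarith

/-- the commutator computation -/
theorem comm_norm {N W : Subgroup Q} [W.Normal] (hN : ∀ n ∈ N, ∀ g, g * n = n * g)
    (hN2 : ∀ n ∈ N, n * n = 1) (hW : ∀ x ∈ W, ∀ y ∈ W, ⁅x, y⁆ ∈ N) {u t z y s n₁ n₂ : Q}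
    (hu : u ∈ W) (ht : t * t ∈ N) (hz : z * z ∈ W) (hzt : ⁅z, t⁆ ∈ W) (h1 : n₁ ∈ N) (h2 : n₂ ∈ N)
    (hy : y = u * (z * u * z⁻¹) * n₁) (hs : s = y * (t * y * t⁻¹) * n₂) : t * s = s * t := by
  have cj : ∀ g, ∀ x ∈ W, g * x * g⁻¹ ∈ W := fun g x hx => Normal.conj_mem inferInstance x hx g
  have ml : ∀ x ∈ W, ∀ x' ∈ W, ∀ v ∈ W, ⁅x * x', v⁆ = ⁅x, v⁆ * ⁅x', v⁆ := fun x hx x' hx' v hv => by
    have := hN _ (hW x' hx' v hv)
    calc ⁅x * x', v⁆ = x * ⁅x', v⁆ * x⁻¹ * ⁅x, v⁆ := by simp only [commutatorElement_def]; group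
      _ = _ := by rw [this x, mul_inv_cancel_right, ← this]
  have mr : ∀ x ∈ W, ∀ x' ∈ W, ∀ v ∈ W, ⁅v, x * x'⁆ = ⁅v, x⁆ * ⁅v, x'⁆ := fun x hx x' hx' v hv => by
    have := hN _ (hW v hv x' hx')
    calc ⁅v, x * x'⁆ = ⁅v, x⁆ * (x * ⁅v, x'⁆) * x⁻¹ := by simp only [commutatorElement_def]; group
      _ = _ := by rw [this x]; group
  have iv : ∀ g, ∀ x ∈ W, ∀ v ∈ W, ⁅g * x * g⁻¹, g * v * g⁻¹⁆ = ⁅x, v⁆ := fun g x hx v hv => by
    have := hN _ (hW x hx v hv)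
    calc ⁅g * x * g⁻¹, g * v * g⁻¹⁆ = g * ⁅x, v⁆ * g⁻¹ := by simp only [commutatorElement_def]; group
      _ = _ := by rw [this g]; group
  have nl : ∀ n ∈ N, ∀ x v, ⁅n * x, v⁆ = ⁅x, v⁆ := fun n hn x v => by
    calc ⁅n * x, v⁆ = n * (x * v * x⁻¹) * n⁻¹ * v⁻¹ := by simp only [commutatorElement_def]; group
      _ = _ := by rw [← hN n hn]; simp only [commutatorElement_def]; group
  have nr : ∀ n ∈ N, ∀ x v, ⁅v, n * x⁆ = ⁅v, x⁆ := fun n hn x v => by
    rw [← commutatorElement_inv, nl n hn, commutatorElement_inv]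
  have wl : ∀ w ∈ W, ∀ x ∈ W, ∀ v, ⁅w * x * w⁻¹, v⁆ = ⁅x, v⁆ := fun w hw x hx v => by
    rw [← nl _ (hW w hw x hx) x v]; congr 1; simp only [commutatorElement_def]; group
  have wr : ∀ w ∈ W, ∀ x ∈ W, ∀ v, ⁅v, w * x * w⁻¹⁆ = ⁅v, x⁆ := fun w hw x hx v => by
    rw [← commutatorElement_inv, wl w hw x hx, commutatorElement_inv]
  have uz := cj z u hu
  have ut := cj t u hu
  have utz := cj t _ uz
  have key : ⁅t * y * t⁻¹, y⁆ = 1 := by
    have e1 : t * y * t⁻¹ = n₁ * ((t * u * t⁻¹) * (t * (z * u * z⁻¹) * t⁻¹)) := by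
      rw [hy, ← hN n₁ h1, mul_assoc t _ t⁻¹, mul_assoc _ n₁, ← hN n₁ h1]; group
    have e2 : y = n₁ * (u * (z * u * z⁻¹)) := by rw [hy, hN n₁ h1]
    have e3 : z * (t * u * t⁻¹) * z⁻¹ = ⁅z, t⁆ * (t * (z * u * z⁻¹) * t⁻¹) * ⁅z, t⁆⁻¹ := by
      simp only [commutatorElement_def]; group
    have e4 : z * (z * u * z⁻¹) * z⁻¹ = z * z * u * (z * z)⁻¹ := by group
    have a1 : ⁅t * u * t⁻¹, u⁆ = ⁅t * (z * u * z⁻¹) * t⁻¹, z * u * z⁻¹⁆ := by
      rw [← iv z _ ut _ hu, e3, wl _ hzt _ utz]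
    have a2 : ⁅t * u * t⁻¹, z * u * z⁻¹⁆ = ⁅t * (z * u * z⁻¹) * t⁻¹, u⁆ := by
      rw [← iv z _ ut _ uz, e3, wl _ hzt _ utz, e4, wr _ hz _ hu]
    rw [e1, nl _ h1]
    conv_lhs => rw [e2]
    rw [nr _ h1, ml _ ut _ utz _ (mul_mem hu uz), mr _ hu _ uz _ ut, mr _ hu _ uz _ utz, a1, a2]
    have p1 := hW _ utz _ hu
    have p2 := hW _ utz _ uz
    generalize ⁅t * (z * u * z⁻¹) * t⁻¹, u⁆ = p at *
    generalize ⁅t * (z * u * z⁻¹) * t⁻¹, z * u * z⁻¹⁆ = q at *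
    calc q * p * (p * q) = q * (p * p) * q := by group
      _ = 1 := by rw [hN2 p p1, mul_one, hN2 q p2]
  rw [commutatorElement_eq_one_iff_mul_comm] at key
  calc t * s = (t * y * t⁻¹) * (t * t * y) * t⁻¹ * n₂ := by rw [hs]; group
    _ = (t * y * t⁻¹ * y) * (t * n₂) := by rw [← hN _ ht y]; group
    _ = s * t := by rw [key, hN n₂ h2, hs]; group

/-- a hyperplane avoiding a given element -/
theorem exists_avoid [Finite Q] {N H : Subgroup Q} (hNH : N ≤ H) (h2 : ∀ y ∈ H, y * y ∈ N)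
    {x : Q} (hx : x ∈ H) (hxN : x ∉ N) :
    ∃ M : Subgroup Q, M ≤ H ∧ x ∉ M ∧ Nat.card H = Nat.card M * 2 := by
  haveI := Fact.mk Nat.prime_two
  obtain ⟨M, hNM, hM⟩ := Finite.exists_le_maximal (p := fun M : Subgroup Q => M ≤ H ∧ x ∉ M)
    ⟨hNH, hxN⟩
  have nor : ∀ y ∈ H, y ∈ normalizer (M : Set Q) := fun y hy =>
    H7.mem_normalizer_of_forall_conj_mem fun m hm => by
      have e : y * m * y⁻¹ = (y * m * (y * m)) * m⁻¹ * (y⁻¹ * y⁻¹) := by group
      rw [e]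
      exact mul_mem (mul_mem (hNM (h2 _ (mul_mem hy (hM.prop.1 hm)))) (inv_mem hm))
        (hNM (h2 _ (inv_mem hy)))
  have cd : ∀ y ∈ H, y ∉ M → Nat.card ↥(M ⊔ zpowers y) = Nat.card M * 2 := fun y hy hyM =>
    H7.card_sup_zpowers (nor y hy) hyM (sq y ▸ hNM (h2 y hy))
  refine ⟨M, hM.prop.1, hM.prop.2, ?_⟩
  rw [← cd x hx hM.prop.2]
  congr 2
  refine le_antisymm (fun y hy => ?_) (sup_le hM.prop.1 (zpowers_le.mpr hx))
  by_cases hyM : y ∈ M
  · exact mem_sup_left hyM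
  have hxy : x ∈ M ⊔ zpowers y := by
    by_contra hc
    exact hyM (hM.le_of_ge ⟨sup_le hM.prop.1 (zpowers_le.mpr hy), hc⟩ le_sup_left
      (mem_sup_right (mem_zpowers y)))
  rw [eq_of_le_of_card_ge (sup_le le_sup_left (zpowers_le.mpr hxy) : M ⊔ zpowers x ≤ _)
    (by rw [cd x hx hM.prop.2, cd y hy hyM])]
  exact mem_sup_right (mem_zpowers y)

end H8.Ru
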