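import Cfsg.Agent.H8.Ru1
import Cfsg.Agent.H4.Cores

/-! 2-groups of Rudvalis type. -/

set_option autoImplicit false
set_option linter.unusedVariables false
set_option linter.style.haveILetI false
set_option linter.unusedSectionVars false

namespace H8.Ru

open Subgroup
open scoped commutatorElement

variable {T : Type*} [Group T] [Finite T]

/-- upper central series -/
abbrev Z (T : Type*) [Group T] (i : ℕ) : Subgroup T := Subgroup.upperCentralSeries T i

structure Hyp (W F : Subgroup T) : Prop where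
  pg : IsPGroup 2 T
  big : 2 ^ 14 ≤ Nat.card T
  z4 : Nat.card (Z T 4) = 16
  hW : W = centralizer (Z T 3 : Set T)
  le : F ≤ W
  nor : F.Normal
  cardF : Nat.card F ≤ 8
  sq : ∀ w ∈ W, w * w ∈ F
  cm : ∀ x ∈ W, ∀ y ∈ W, ⁅x, y⁆ ∈ F
  hd : ∀ U ≤ W, Nat.card W ≤ 16 * Nat.card U → F ≤ U

theorem Zle (i : ℕ) : Z T i ≤ Z T (i + 1) := Subgroup.upperCentralSeries_mono T (Nat.le_succ i)

namespace Hyp
variable {W F : Subgroup T} (h : Hyp W F)
include h

theorem cardZ : Nat.card (Z T 1) = 2 ∧ Nat.card (Z T 2) = 4 ∧ Nat.card (Z T 3) = 8 := by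
  haveI := Fact.mk Nat.prime_two
  haveI := h.pg.isNilpotent
  have key : ∀ i ≤ 3, Nat.card (Z T i) * 2 ≤ Nat.card (Z T (i + 1)) := fun i hi =>
    H7.card_mul_le_of_lt (h.pg.to_subgroup _) (lt_of_le_of_ne (Zle i) fun e => by
      have h1 := Subgroup.upperCentralSeries.eq_top (by omega) e
      have h2 : Z T 4 = ⊤ := top_unique (h1 ▸ Subgroup.upperCentralSeries_mono T (by omega))
      have h3 := h.z4
      have h4 := h.big
      rw [h2, card_top] at h3
      omega)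
  have h0 : Nat.card (Z T 0) = 1 := card_bot
  have := key 0 (by omega); have := key 1 (by omega); have := key 2 (by omega)
  have := key 3 (by omega); have := h.z4
  norm_num at *
  omega

theorem cardZ' {i : ℕ} (hi : i ≤ 3) : Nat.card (Z T (i + 1)) = Nat.card (Z T i) * 2 := by
  obtain ⟨h1, h2, h3⟩ := h.cardZ
  have h0 : Nat.card (Z T 0) = 1 := card_bot
  have := h.z4
  interval_cases i <;> norm_num at * <;> omega

theorem two' {i : ℕ} (hi : i ≤ 3) {x y : T} (hx : x ∈ Z T (i + 1)) (hy : y ∈ Z T (i + 1))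
    (hx' : x ∉ Z T i) (hy' : y ∉ Z T i) : x * y ∈ Z T i :=
  two (Zle i) (h.cardZ' hi) hx hy hx' hy'

theorem step {i : ℕ} (hi : i ≤ 3) {K : Subgroup T} {x : T} (hx : x ∈ Z T (i + 1)) (hx' : x ∉ Z T i)
    (h1 : Z T i ≤ K) (h2 : x ∈ K) : Z T (i + 1) ≤ K := fun y hy => by
  by_cases hy' : y ∈ Z T i
  · exact h1 hy'
  · exact (mul_mem_cancel_left h2).mp (h1 (h.two' hi hx hy hx' hy'))

theorem exists_z {i : ℕ} (hi : i ≤ 3) : ∃ x ∈ Z T (i + 1), x ∉ Z T i := by
  by_contra hc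
  push Not at hc
  have := card_le_of_le (show Z T (i + 1) ≤ Z T i from hc)
  have h1 : 0 < Nat.card (Z T i) := Nat.card_pos
  rw [h.cardZ' hi] at this
  omega

theorem dich {i : ℕ} (hi : i ≤ 3) {N : Subgroup T} [N.Normal] (h1 : Z T i ≤ N) (h2 : ¬ N ≤ Z T i) :
    Z T (i + 1) ≤ N := by
  haveI := Fact.mk Nat.prime_two
  obtain ⟨x, hx, hx1, hx2, -⟩ := H7.exists_central_mod (P := ⊤) (h.pg.to_subgroup _) le_top
    (by rw [normalizer_eq_top]) h2
  exact h.step hi (fun y => hx2 y trivial) hx1 h1 hx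

theorem dich' {i : ℕ} (hi : i ≤ 3) {N : Subgroup T} [N.Normal] (h2 : ¬ N ≤ Z T i) :
    Z T (i + 1) ≤ N := by
  induction i with
  | zero => exact h.dich hi bot_le h2
  | succ i ih => exact h.dich hi (ih (by omega) fun e => h2 (e.trans (Zle i))) h2

theorem F_le : F ≤ Z T 3 := by
  by_contra hc
  haveI := h.nor
  have := card_le_of_le (h.dich' le_rfl hc)
  have := h.z4
  have := h.cardF
  norm_num at *
  omega

theorem Wn : W.Normal := by rw [h.hW]; infer_instance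

theorem memW {z2 z3 : T} (h2 : z2 ∈ Z T 2) (h2' : z2 ∉ Z T 1) (h3 : z3 ∈ Z T 3) (h3' : z3 ∉ Z T 2)
    {t : T} : t ∈ W ↔ z2 * t = t * z2 ∧ z3 * t = t * z3 := by
  rw [h.hW]
  refine ⟨fun ht => ⟨ht _ (Zle 2 h2), ht _ h3⟩, fun ⟨e2, e3⟩ y hy => ?_⟩
  have k1 : Z T 1 ≤ centralizer {t} := fun y hy => mem_centralizer_singleton_iff.mpr (by
    rw [Z, Subgroup.upperCentralSeries_one] at hy
    exact (mem_center_iff.mp hy t).symm)
  have k2 := h.step (i := 1) (by omega) h2 h2' k1 (mem_centralizer_singleton_iff.mpr e2)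
  have k3 := h.step (i := 2) (by omega) h3 h3' k2 (mem_centralizer_singleton_iff.mpr e3)
  exact mem_centralizer_singleton_iff.mp (k3 hy)

theorem index_aux {z2 z3 : T} (h2 : z2 ∈ Z T 2) (h2' : z2 ∉ Z T 1) (h3 : z3 ∈ Z T 3)
    (h3' : z3 ∉ Z T 2) : W.index ≤ 8 ∧
      (W.index = 8 → ∀ c ∈ Z T 1, ∀ d ∈ Z T 2, ∃ t, ⁅z2, t⁆ = c ∧ ⁅z3, t⁆ = d) := by
  let f : T ⧸ W → Z T 1 × Z T 2 := fun q => (⟨⁅z2, q.out⁆, h2 _⟩, ⟨⁅z3, q.out⁆, h3 _⟩)
  have key : ∀ z t t' : T, ⁅z, t⁆ = ⁅z, t'⁆ → z * (t⁻¹ * t') = t⁻¹ * t' * z := fun z t t' e => by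
    simp only [commutatorElement_def] at e
    calc z * (t⁻¹ * t') = t⁻¹ * (z * t * z⁻¹ * t⁻¹)⁻¹ * z * t' := by group
      _ = _ := by rw [e]; group
  have hf : Function.Injective f := fun q q' e => by
    rw [← q.out_eq', ← q'.out_eq', QuotientGroup.eq, h.memW h2 h2' h3 h3']
    exact ⟨key _ _ _ (congrArg (fun x => (x.1 : T)) e), key _ _ _ (congrArg (fun x => (x.2 : T)) e)⟩
  have hc : Nat.card (Z T 1 × Z T 2) = 8 := by rw [Nat.card_prod, h.cardZ.1, h.cardZ.2.1]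
  refine ⟨hc ▸ Nat.card_le_card_of_injective f hf, fun e c hc' d hd => ?_⟩
  obtain ⟨q, hq⟩ := ((Nat.bijective_iff_injective_and_card f).mpr ⟨hf, e.trans hc.symm⟩).2
    (⟨c, hc'⟩, ⟨d, hd⟩)
  exact ⟨q.out, congrArg (fun x => (x.1 : T)) hq, congrArg (fun x => (x.2 : T)) hq⟩

theorem index_le : W.index ≤ 8 := by
  obtain ⟨z2, h2, h2'⟩ := h.exists_z (i := 1) (by omega)
  obtain ⟨z3, h3, h3'⟩ := h.exists_z (i := 2) (by omega)
  exact (h.index_aux h2 h2' h3 h3').1

theorem quot_sq {i : ℕ} (hF : F ≤ Z T i) :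
    ∀ x ∈ W.map (QuotientGroup.mk' (Z T i)), x * x = 1 := by
  rintro _ ⟨w, hw, rfl⟩
  rw [← map_mul]
  exact (QuotientGroup.eq_one_iff _).mpr (hF (h.sq w hw))

theorem quot_cen {i : ℕ} (hi : i ≤ 3) (V : Subgroup (T ⧸ Z T i)) :
    Nat.card ↥(V ⊓ center (T ⧸ Z T i)) ≤ 2 := by
  have h1 : V ⊓ center (T ⧸ Z T i) ≤ (Z T (i + 1)).map (QuotientGroup.mk' (Z T i)) := by
    rintro x ⟨-, hx⟩
    obtain ⟨x, rfl⟩ := QuotientGroup.mk'_surjective _ x
    refine mem_map_of_mem _ fun y => (QuotientGroup.eq_one_iff (N := Z T i) _).mp ?_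
    change QuotientGroup.mk' (Z T i) _ = 1
    rw [map_commutatorElement, commutatorElement_eq_one_iff_mul_comm]
    exact (mem_center_iff.mp hx _).symm
  have h2 := H4.card_eq_card_map_mul (QuotientGroup.mk' (Z T i)) (Z T (i + 1))
  rw [QuotientGroup.ker_mk', inf_of_le_right (Zle i), h.cardZ' hi, mul_comm] at h2
  exact (card_le_of_le h1).trans (Nat.eq_of_mul_eq_mul_right Nat.card_pos h2).ge

theorem card_le {i : ℕ} (hi : i ≤ 3) (hF : F ≤ Z T i) :
    Nat.card W ≤ 2 ^ 8 * Nat.card ↥(W ⊓ Z T i) := by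
  haveI := Fact.mk Nat.prime_two
  haveI := h.Wn
  have h2 := H4.card_eq_card_map_mul (QuotientGroup.mk' (Z T i)) W
  rw [QuotientGroup.ker_mk'] at h2
  rw [h2]
  refine Nat.mul_le_mul_right _ ?_
  haveI := h.Wn.map _ (QuotientGroup.mk'_surjective (Z T i))
  set V := W.map (QuotientGroup.mk' (Z T i))
  have hQ := h.pg.to_quotient (Z T i)
  obtain ⟨k, hk⟩ := hQ.index V
  have h3 : 2 ^ k ≤ 8 := hk ▸ (Nat.le_of_dvd (Nat.pos_of_ne_zero index_ne_zero_of_finite)
    (W.index_map_dvd (QuotientGroup.mk'_surjective _))).trans h.index_le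
  have b := bound hQ (h.quot_sq hF) (H := V) k ⊤ le_top (by rw [← hk, card_mul_index, card_top])
  rw [coe_top, centralizer_univ, inf_of_le_left (show V ≤ centralizer (V : Set _) from
    fun x hx y hy => comm_of_sq (h.quot_sq hF) hy hx)] at b
  exact b.trans ((Nat.pow_le_pow_left (h.quot_cen hi V) _).trans
    (Nat.pow_le_pow_right (by norm_num) h3))

theorem cards : Nat.card T = 2 ^ 14 ∧ Nat.card W = 2 ^ 11 ∧ W.index = 8 ∧ Z T 3 ≤ W := by
  have h1 := h.card_le le_rfl h.F_le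
  have h2 := card_le_of_le (inf_le_right : W ⊓ Z T 3 ≤ _)
  have h3 := h.index_le
  have h4 := W.card_mul_index
  have h5 := h.big
  have h6 := h.cardZ.2.2
  have h7 : Nat.card ↥(W ⊓ Z T 3) = 8 := by nlinarith
  have h8 : Nat.card W = 2 ^ 11 := by nlinarith
  rw [h8] at h4
  refine ⟨by omega, h8, by omega, ?_⟩
  rw [← eq_of_le_of_card_ge (inf_le_right : W ⊓ Z T 3 ≤ _) (by omega)]
  exact inf_le_left

theorem F_eq : F = Z T 3 := by
  haveI := h.nor
  refine le_antisymm h.F_le (h.dich' (i := 2) (by omega) fun hc => ?_)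
  have h1 := h.card_le (by omega) hc
  have h2 := card_le_of_le (inf_le_right : W ⊓ Z T 2 ≤ _)
  have := h.cardZ.2.1
  have := h.cards.2.1
  omega

theorem zc {n w : T} (hn : n ∈ Z T 3) (hw : w ∈ W) : n * w = w * n := by
  rw [h.hW] at hw; exact hw n hn

theorem comm_eq : ⁅W, W⁆ = Z T 3 := by
  haveI := h.Wn
  refine le_antisymm (commutator_le.mpr fun x hx y hy => h.F_le (h.cm x hx y hy))
    (h.dich' (i := 2) (by omega) fun hc => ?_)
  have cm : ∀ x ∈ W, ∀ y ∈ W, ⁅x, y⁆ ∈ Z T 2 := fun x hx y hy =>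
    hc (commutator_mem_commutator hx hy)
  have e : ∀ x y : T, x * y * (x * y) = x * x * (y * y) * ((y * y)⁻¹ * ⁅x⁻¹, y⁆ * (y * y)) :=
    fun x y => by simp only [commutatorElement_def]; group
  have n2 : ∀ x ∈ W, ∀ y ∈ W, (y * y)⁻¹ * ⁅x⁻¹, y⁆ * (y * y) ∈ Z T 2 := fun x hx y hy =>
    Normal.conj_mem' inferInstance _ (cm _ (inv_mem hx) _ hy) _
  let O : Subgroup T :=
    { carrier := {x | x ∈ W ∧ x * x ∈ Z T 2}
      one_mem' := ⟨one_mem _, by simp⟩
      mul_mem' := fun {x y} hx hy => ⟨mul_mem hx.1 hy.1, by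
        rw [e]; exact mul_mem (mul_mem hx.2 hy.2) (n2 x hx.1 y hy.1)⟩
      inv_mem' := fun {x} hx => ⟨inv_mem hx.1, by rw [← mul_inv_rev]; exact inv_mem hx.2⟩ }
  have hOW : O ≤ W := fun x hx => hx.1
  have hO : Nat.card W ≤ Nat.card O * 2 := by
    by_cases hWO : W ≤ O
    · have := card_le_of_le hWO; omega
    · obtain ⟨a, ha, ha'⟩ := SetLike.not_le_iff_exists.mp hWO
      have i2 : (O.subgroupOf W).index = 2 := by
        refine index_eq_two_iff_exists_notMem_and.mpr ⟨⟨a, ha⟩, ha', fun b => ?_⟩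
        by_cases hb : (b : T) ∈ O
        · exact Or.inr hb
        · refine Or.inl ⟨mul_mem b.2 ha, ?_⟩
          show (b : T) * a * (b * a) ∈ _
          rw [e]
          exact mul_mem (h.two' (i := 2) (by omega) (h.F_le (h.sq _ b.2)) (h.F_le (h.sq _ ha))
            (fun hc => hb ⟨b.2, hc⟩) fun hc => ha' ⟨ha, hc⟩) (n2 _ b.2 _ ha)
      rw [← H7.card_mul_relIndex hOW, relIndex, i2]
  obtain ⟨z3, h3, h3'⟩ := h.exists_z (i := 2) (by omega)
  have Z2O : Z T 2 ≤ O := fun x hx => ⟨h.cards.2.2.2 (Zle 2 hx), mul_mem hx hx⟩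
  obtain ⟨M, hM, hx, hc⟩ := exists_avoid Z2O (fun y hy => hy.2)
    (⟨h.cards.2.2.2 h3, h.two' (by omega) h3 h3 h3' h3'⟩ : z3 ∈ O) h3'
  exact hx (h.hd M (hM.trans hOW) (by omega) (h.F_eq ▸ h3))

theorem z3_sq : ∀ z ∈ Z T 3, z * z = 1 := by
  let E : Subgroup T :=
    { carrier := {x | x ∈ Z T 3 ∧ x * x = 1}
      one_mem' := ⟨one_mem _, by simp⟩
      mul_mem' := fun {x y} hx hy => ⟨mul_mem hx.1 hy.1, by
        rw [mul_assoc, ← mul_assoc y, ← h.zc hx.1 (h.cards.2.2.2 hy.1), mul_assoc, hy.2, mul_one,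
          hx.2]⟩
      inv_mem' := fun {x} hx => ⟨inv_mem hx.1, by rw [← mul_inv_rev, hx.2, inv_one]⟩ }
  have : ⁅W, W⁆ ≤ E := commutator_le.mpr fun x hx y hy => ⟨h.F_le (h.cm x hx y hy), by
    rw [← _root_.sq, ← H7.commutator_pow_left (h.zc (h.F_le (h.cm x hx y hy)) hx).symm,
      commutatorElement_eq_one_iff_mul_comm, _root_.sq]
    exact h.zc (h.F_le (h.sq x hx)) hy⟩
  exact fun z hz => (this (h.comm_eq ▸ hz)).2

theorem dihedral : haveI := h.Wn; Nonempty (T ⧸ W ≃* DihedralGroup 4) := by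
  haveI := h.Wn
  haveI := Fact.mk Nat.prime_two
  obtain ⟨z1, h1, h1'⟩ := h.exists_z (i := 0) (by omega)
  obtain ⟨z2, h2, h2'⟩ := h.exists_z (i := 1) (by omega)
  obtain ⟨z3, h3, h3'⟩ := h.exists_z (i := 2) (by omega)
  have sj := (h.index_aux h2 h2' h3 h3').2 h.cards.2.2.1
  obtain ⟨a, a2, a3⟩ := sj z1 h1 1 (one_mem _)
  obtain ⟨b, b2, b3⟩ := sj 1 (one_mem _) z2 h2
  have q1 := h.z3_sq z1 (Zle 2 (Zle 1 h1))
  have q2 := h.z3_sq z2 (Zle 2 h2)
  have q3 := h.z3_sq z3 h3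
  have c1 : ∀ g, g * z1 = z1 * g := by
    rw [zero_add, Z, Subgroup.upperCentralSeries_one] at h1; exact mem_center_iff.mp h1
  have c23 : z3 * z2 = z2 * z3 := h.zc h3 (h.cards.2.2.2 (Zle 2 h2))
  have cj : ∀ z t c : T, z * z = 1 → ⁅z, t⁆ = c → MulAut.conj t z = z * c := fun z t c hz e => by
    rw [← e, commutatorElement_def, inv_eq_of_mul_eq_one_right hz, MulAut.conj_apply]
    calc t * z * t⁻¹ = (z * z) * t * z * t⁻¹ := by rw [hz, one_mul]
      _ = _ := by group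
  have A1 : MulAut.conj a z1 = z1 := by simp [c1 a]
  have B1 : MulAut.conj b z1 = z1 := by simp [c1 b]
  have A2 := cj _ _ _ q2 a2
  have A3 := cj _ _ _ q3 a3
  have B2 := cj _ _ _ q2 b2
  have B3 := cj _ _ _ q3 b3
  rw [mul_one] at A3 B2
  have mW : ∀ t, (QuotientGroup.mk' W t = 1) ↔ MulAut.conj t z2 = z2 ∧ MulAut.conj t z3 = z3 := by
    intro t
    rw [QuotientGroup.mk'_apply, QuotientGroup.eq_one_iff, h.memW h2 h2' h3 h3', MulAut.conj_apply,
      MulAut.conj_apply, mul_inv_eq_iff_eq_mul, mul_inv_eq_iff_eq_mul, eq_comm, eq_comm (a := z3 * t)]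
  have e21 : z2 * z1 * z1 = z2 := by rw [mul_assoc, q1, mul_one]
  have X2 : MulAut.conj (a * b * (a * b)) z2 = z2 := by
    simp only [map_mul, MulAut.mul_apply, A1, B1, A2, B2, e21]
  have X3 : MulAut.conj (a * b * (a * b)) z3 = z3 * z1 := by
    simp only [map_mul, MulAut.mul_apply, A1, B1, A2, B2, A3, B3]
    calc z3 * (z2 * z1) * (z2 * z1 * z1) = z3 * z2 * (z1 * z2) * (z1 * z1) := by group
      _ = z3 * (z2 * z2) * z1 := by rw [q1, ← c1 z2]; group
      _ = _ := by rw [q2, mul_one]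
  have X1 : MulAut.conj (a * b * (a * b)) z1 = z1 := by simp [c1]
  have sa : QuotientGroup.mk' W a * QuotientGroup.mk' W a = 1 := by
    rw [← map_mul, mW]
    simp only [map_mul, MulAut.mul_apply, A1, A2, A3, e21, and_self]
  have sb : QuotientGroup.mk' W b * QuotientGroup.mk' W b = 1 := by
    rw [← map_mul, mW]
    simp only [map_mul, MulAut.mul_apply, B2, B3, mul_assoc, q2, mul_one, and_self]
  have x2 : ¬ (QuotientGroup.mk' W (a * b)) ^ 2 ^ 1 = 1 := by
    rw [pow_one, _root_.sq, ← map_mul, mW, X3]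
    rintro ⟨-, e⟩
    exact h1' (by simpa using e)
  have x4 : (QuotientGroup.mk' W (a * b)) ^ 2 ^ (1 + 1) = 1 := by
    rw [pow_succ, pow_mul, pow_one, _root_.sq, _root_.sq, ← map_mul, ← map_mul, mW, map_mul]
    simp only [MulAut.mul_apply, X2, X3, map_mul _ z3, X1, mul_assoc z3, q1, mul_one, and_self]
  have hx := orderOf_eq_prime_pow x2 x4
  rw [map_mul] at x2 hx
  generalize QuotientGroup.mk' W a = a' at *
  generalize QuotientGroup.mk' W b = b' at *
  have e : b' * (a' * b') * b'⁻¹ = (a' * b')⁻¹ := by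
    rw [mul_inv_rev, inv_eq_of_mul_eq_one_right sa, inv_eq_of_mul_eq_one_right sb, mul_assoc,
      mul_assoc, sb, mul_one]
  refine H7.nonempty_equiv_dihedral hx ?_ (by rw [_root_.sq, sb]) e h.cards.2.2.1
  rintro ⟨k, hk⟩
  have c : Commute (a' * b') b' := by
    have := (Commute.refl (a' * b')).zpow_right k
    rwa [show (a' * b') ^ k = b' from hk] at this
  rw [← c.eq, mul_inv_cancel_right] at e
  exact x2 (by rw [pow_one, _root_.sq]; exact mul_eq_one_iff_eq_inv.mpr e)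

theorem exists_pi : ∃ π : T →* DihedralGroup 4, Function.Surjective π ∧ π.ker = W := by
  haveI := h.Wn
  obtain ⟨e⟩ := h.dihedral
  refine ⟨e.toMonoidHom.comp (QuotientGroup.mk' W),
    e.surjective.comp (QuotientGroup.mk'_surjective W), ?_⟩
  ext x
  simp [MonoidHom.mem_ker]

omit h in
/-- the centre of the dihedral group -/
def Kc : Subgroup (DihedralGroup 4) where
  carrier := {d | d = 1 ∨ d = DihedralGroup.r 2}
  one_mem' := Or.inl rfl
  mul_mem' := by rintro _ _ (rfl | rfl) (rfl | rfl) <;> decide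
  inv_mem' := by rintro _ (rfl | rfl) <;> decide

omit h in
instance : Kc.Normal := ⟨by rintro _ (rfl | rfl) <;> (show ∀ g, _ = 1 ∨ _ = _) <;> decide⟩

omit h in
theorem Kc_index : Kc.index = 4 := by
  have h1 := Kc.card_mul_index
  have h2 : Nat.card Kc = 2 := by
    have : (Kc : Set (DihedralGroup 4)) = {1, DihedralGroup.r 2} := rfl
    rw [← SetLike.coe_sort_coe, this, Nat.card_coe_set_eq, Set.ncard_pair (by decide)]
  rw [h2, Nat.card_eq_fintype_card, DihedralGroup.card] at h1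
  omega

theorem cen_aux {π : T →* DihedralGroup 4} (hπ : Function.Surjective π) (hk : π.ker = W)
    {s : T} (hs : s ∈ Z T 4) (hsW : s ∈ W) {d : DihedralGroup 4} (hd : d * d = 1) (hd1 : d ∉ Kc) :
    ∃ t, π t = d ∧ ⁅s, t⁆ ∈ Z T 2 := by
  haveI := h.Wn
  have mW : ∀ x, x ∈ W ↔ π x = 1 := fun x => by rw [← hk]; rfl
  let φ := QuotientGroup.mk' (Z T 3)
  have φ1 : ∀ x, φ x = 1 ↔ x ∈ Z T 3 := fun x => QuotientGroup.eq_one_iff (N := Z T 3) x
  have φs : Function.Surjective φ := QuotientGroup.mk'_surjective _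
  let ρ : T ⧸ Z T 3 →* DihedralGroup 4 := QuotientGroup.lift _ π (hk ▸ h.cards.2.2.2)
  have ρφ : ∀ x, ρ (φ x) = π x := fun x => rfl
  have ρs : Function.Surjective ρ := fun d => (hπ d).elim fun x hx => ⟨φ x, hx⟩
  have hQ := h.pg.to_quotient (Z T 3)
  have cQ : Nat.card (T ⧸ Z T 3) = 2 ^ 11 := by
    have := (Z T 3).card_mul_index
    rw [h.cardZ.2.2, h.cards.1, index] at this
    omega
  have mV : ∀ x, φ x ∈ ρ.ker ↔ x ∈ W := fun x => (mW x).symm
  have V2 : ∀ x ∈ ρ.ker, x * x = 1 := fun x hx => by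
    obtain ⟨w, rfl⟩ := φs x
    rw [← map_mul, φ1]
    exact h.F_le (h.sq w ((mV w).mp hx))
  have cV : Nat.card ρ.ker = 2 ^ 8 := by
    have := ρ.ker.card_mul_index
    rw [index_ker, ρ.range_eq_top_of_surjective ρs, card_top, cQ,
      Nat.card_eq_fintype_card (α := DihedralGroup 4), DihedralGroup.card] at this
    omega
  have cH : Nat.card (Kc.comap ρ) = 2 ^ (8 + 1) := by
    have := (Kc.comap ρ).card_mul_index
    rw [index_comap_of_surjective _ ρs, Kc_index, cQ] at this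
    omega
  have VV : ρ.ker ≤ centralizer (ρ.ker : Set _) := fun x hx y hy => comm_of_sq V2 hy hx
  have fr0 := fun t => free hQ V2 cV cQ (h.quot_cen le_rfl _) (H := ρ.ker) le_rfl (j := 0)
    (by omega) cV (t := t) (by rw [normalizer_eq_top]; trivial)
  have fr1 := fun t => free hQ V2 cV cQ (h.quot_cen le_rfl _) (H := Kc.comap ρ)
    (fun x hx => Or.inl hx) (j := 1) le_rfl cH (t := t) (by rw [normalizer_eq_top]; trivial)
  obtain ⟨a, ha⟩ := hπ d
  obtain ⟨z, hz⟩ := hπ (DihedralGroup.r 2)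
  have aa : φ a * φ a ∈ ρ.ker := by
    rw [MonoidHom.mem_ker, map_mul, ρφ, ha, hd]
  obtain ⟨u, hu, e⟩ := fr0 (φ a) (fun hc => hd1 (Or.inl (ha ▸ hc))) aa _ ⟨aa, VV aa⟩
    (mul_assoc _ _ _).symm
  obtain ⟨w, rfl⟩ := φs u
  have hw : π w = 1 := hu.1
  have ht : π (w * a) = d := by rw [map_mul, hw, ha, one_mul]
  have tt : w * a * (w * a) ∈ Z T 3 := by
    rw [← φ1, ← V2 _ aa]
    conv_rhs => enter [1]; rw [e]
    simp only [map_mul]; group
  refine ⟨w * a, ht, ?_⟩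
  generalize w * a = t at ht tt
  have sc : ∀ g, g * φ s = φ s * g := fun g => by
    obtain ⟨g, rfl⟩ := φs g
    rw [eq_comm, ← commutatorElement_eq_one_iff_mul_comm, ← map_commutatorElement, φ1]
    exact hs g
  obtain ⟨y, hy, e1⟩ := fr1 (φ t) (fun hc => hd1 (ht ▸ hc)) (by
    rw [← map_mul, (φ1 _).mpr tt]; exact one_mem _) (φ s) ⟨(mV s).mpr hsW, fun g _ => sc g⟩ (sc _)
  obtain ⟨u, hu, e2⟩ := fr0 (φ z) (fun hc => by
      have : π z = 1 := hc
      rw [hz] at this; revert this; decide) (by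
      rw [MonoidHom.mem_ker, map_mul, ρφ, hz]; decide) y ⟨hy.1, VV hy.1⟩ (hy.2 _ (Or.inr hz))
  obtain ⟨y, rfl⟩ := φs y
  obtain ⟨u, rfl⟩ := φs u
  let ψ := QuotientGroup.mk' (Z T 2)
  have ψ1 : ∀ x, ψ x = 1 ↔ x ∈ Z T 2 := fun x => QuotientGroup.eq_one_iff (N := Z T 2) x
  haveI := h.Wn.map ψ (QuotientGroup.mk'_surjective _)
  rw [← ψ1, map_commutatorElement, commutatorElement_eq_one_iff_mul_comm, eq_comm]
  refine comm_norm (N := (Z T 3).map ψ) (W := W.map ψ) ?_ ?_ ?_ (u := ψ u) (z := ψ z) (y := ψ y)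
    (n₁ := ψ ((u * (z * u * z⁻¹))⁻¹ * y)) (n₂ := ψ ((y * (t * y * t⁻¹))⁻¹ * s))
    (mem_map_of_mem _ ((mV u).mp hu.1)) (map_mul ψ t t ▸ mem_map_of_mem _ tt)
    (map_mul ψ z z ▸ mem_map_of_mem _ ((mW _).mpr (by rw [map_mul, hz]; decide)))
    (map_commutatorElement ψ z t ▸ mem_map_of_mem _ ((mW _).mpr (by
      rw [map_commutatorElement, hz]; generalize π t = x; revert x; decide)))
    (mem_map_of_mem _ ?_) (mem_map_of_mem _ ?_) (by simp only [map_mul, map_inv]; group)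
    (by simp only [map_mul, map_inv]; group)
  · rintro _ ⟨n, hn, rfl⟩ g
    obtain ⟨g, rfl⟩ := QuotientGroup.mk'_surjective _ g
    rw [eq_comm, ← commutatorElement_eq_one_iff_mul_comm, ← map_commutatorElement, ψ1]
    exact hn g
  · rintro _ ⟨n, hn, rfl⟩
    rw [← map_mul, h.z3_sq n hn, map_one]
  · rintro _ ⟨x, hx, rfl⟩ _ ⟨y, hy, rfl⟩
    rw [← map_commutatorElement]
    exact mem_map_of_mem _ (h.F_le (h.cm x hx y hy))
  · rw [← φ1, map_mul, e2]; simp only [map_mul, map_inv]; group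
  · rw [← φ1, map_mul, e1]; simp only [map_mul, map_inv]; group

theorem cen_eq : W ⊓ centralizer (W : Set T) = Z T 3 := by
  haveI := h.Wn
  refine le_antisymm ?_ fun n hn => ⟨h.cards.2.2.2 hn, fun w hw => (h.zc hn hw).symm⟩
  by_contra hc
  have h4 := h.dich' le_rfl hc
  obtain ⟨s, hs, hs'⟩ := h.exists_z le_rfl
  obtain ⟨π, hπ, hk⟩ := h.exists_pi
  obtain ⟨a, ha, ha'⟩ := h.cen_aux hπ hk hs (h4 hs).1 (d := DihedralGroup.sr 0) (by decide)
    (by rintro (e | e) <;> revert e <;> decide)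
  obtain ⟨b, hb, hb'⟩ := h.cen_aux hπ hk hs (h4 hs).1 (d := DihedralGroup.sr 1) (by decide)
    (by rintro (e | e) <;> revert e <;> decide)
  let ψ := QuotientGroup.mk' (Z T 2)
  let L := (centralizer {ψ s}).comap ψ
  have mL : ∀ g, g ∈ L ↔ ⁅s, g⁆ ∈ Z T 2 := fun g => by
    rw [mem_comap, mem_centralizer_singleton_iff, eq_comm, ← commutatorElement_eq_one_iff_mul_comm,
      ← map_commutatorElement]
    exact QuotientGroup.eq_one_iff (N := Z T 2) _
  have WL : π.ker ≤ L := fun w hw => (mL w).mpr (by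
    rw [commutatorElement_eq_one_iff_mul_comm.mpr ((h4 hs).2 w (hk ▸ hw)).symm]; exact one_mem _)
  have ma : DihedralGroup.sr 0 ∈ L.map π := ⟨a, (mL a).mpr ha', ha⟩
  have mb : DihedralGroup.sr 1 ∈ L.map π := ⟨b, (mL b).mpr hb', hb⟩
  have all : ∀ d : DihedralGroup 4, ∃ i : Fin 4,
      d = (DihedralGroup.sr 0 * DihedralGroup.sr 1) ^ i.1 ∨
      d = DihedralGroup.sr 0 * (DihedralGroup.sr 0 * DihedralGroup.sr 1) ^ i.1 := by decide
  refine hs' fun g => (mL g).mp ?_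
  rw [← comap_map_eq_self WL, mem_comap]
  obtain ⟨i, e | e⟩ := all (π g) <;> rw [e]
  · exact pow_mem (mul_mem ma mb) _
  · exact mul_mem ma (pow_mem (mul_mem ma mb) _)

omit h in
theorem stabmod (hT : IsPGroup 2 T) {α : MulAut T} {r : ℕ} (hr : Odd r) (hα : α ^ r = 1)
    {N : Subgroup T} [N.Normal] (hN : ∀ n ∈ N, α n ∈ N) {x y n : T} (hn : n ∈ N)
    (e : α x = x * y * n) (hy : y⁻¹ * α y ∈ N) : y ∈ N := by
  let φ := QuotientGroup.mk' N
  have φ1 : ∀ x, φ x = 1 ↔ x ∈ N := fun x => QuotientGroup.eq_one_iff x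
  have hN' : ∀ k : ℕ, ∀ n ∈ N, φ ((α ^ k) n) = 1 := fun k => by
    induction k with
    | zero => exact fun n hn => (φ1 n).mpr hn
    | succ k ih => exact fun n hn => by rw [pow_succ, MulAut.mul_apply]; exact ih _ (hN n hn)
  have e1 : ∀ k : ℕ, φ ((α ^ k) y) = φ y := fun k => by
    induction k with
    | zero => rfl
    | succ k ih =>
      rw [pow_succ, MulAut.mul_apply, ← mul_inv_cancel_left y (α y), map_mul, map_mul, ih,
        hN' k _ hy, mul_one]
  have e2 : ∀ k : ℕ, φ ((α ^ k) x) = φ x * φ y ^ k := fun k => by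
    induction k with
    | zero => simp
    | succ k ih =>
      rw [pow_succ, MulAut.mul_apply, e, map_mul, map_mul, map_mul, map_mul, ih, e1, hN' k n hn,
        mul_one, pow_succ, mul_assoc]
  have e3 : φ y ^ r = 1 := by
    have := e2 r
    rw [hα] at this
    simpa using this
  obtain ⟨k, hk⟩ := hT y
  have e4 : φ y ^ 2 ^ k = 1 := by rw [← map_pow, hk, map_one]
  have := pow_gcd_eq_one.mpr ⟨e3, e4⟩
  rwa [(Nat.coprime_two_right.mpr hr).pow_right k, pow_one, φ1] at this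

theorem aut_eq_one {α : MulAut T} {r : ℕ} (hr : Odd r) (hα : α ^ r = 1) : α = 1 := by
  haveI := h.Wn
  have inv : ∀ i, ∀ x, α x ∈ Z T i ↔ x ∈ Z T i := fun i x => by
    change x ∈ (Z T i).comap α.toMonoidHom ↔ _
    rw [characteristic_iff_comap_eq.mp inferInstance α]
  have f1 : ∀ i ≤ 3, ∀ x ∈ Z T (i + 1), x⁻¹ * α x ∈ Z T i := fun i hi x hx => by
    by_cases hx' : x ∈ Z T i
    · exact mul_mem (inv_mem hx') ((inv i x).mpr hx')
    · exact h.two' hi (inv_mem hx) ((inv _ x).mpr hx) (by rwa [inv_mem_iff]) (by rwa [inv])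
  have dn : ∀ i ≤ 3, ∀ x, x⁻¹ * α x ∈ Z T (i + 1) → x⁻¹ * α x ∈ Z T i := fun i hi x hx =>
    stabmod h.pg hr hα (fun n hn => (inv i n).mpr hn) (one_mem _) (x := x) (by group) (f1 i hi _ hx)
  have dn3 : ∀ x, x⁻¹ * α x ∈ Z T 3 → α x = x := fun x hx => by
    have : x⁻¹ * α x = 1 := dn 0 (by omega) x (dn 1 (by omega) x (dn 2 (by omega) x hx))
    exact (inv_mul_eq_one.mp this).symm
  have fz : ∀ n ∈ Z T 3, α n = n := fun n hn => dn3 n (mul_mem (inv_mem hn) ((inv _ n).mpr hn))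
  have fW : ∀ t, t⁻¹ * α t ∈ W := fun t => by
    rw [h.hW]
    intro n hn
    have e := fz _ (Normal.conj_mem inferInstance n hn t)
    rw [map_mul, map_mul, map_inv, fz n hn] at e
    calc n * (t⁻¹ * α t) = t⁻¹ * (t * n * t⁻¹) * α t := by group
      _ = _ := by rw [← e]; group
  have aW : ∀ w ∈ W, α w ∈ W := fun w hw => (mul_mem_cancel_left (inv_mem hw)).mp (fW w)
  let φ := QuotientGroup.mk' (Z T 3)
  have φ1 : ∀ x, φ x = 1 ↔ x ∈ Z T 3 := fun x => QuotientGroup.eq_one_iff (N := Z T 3) x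
  have cm : ∀ x ∈ W, ∀ y ∈ W, φ x * φ y = φ y * φ x := fun x hx y hy => by
    rw [← commutatorElement_eq_one_iff_mul_comm, ← map_commutatorElement, φ1]
    exact h.F_le (h.cm x hx y hy)
  let D : Subgroup T :=
    { carrier := {x | ∃ w ∈ W, φ x = (φ w)⁻¹ * φ (α w)}
      one_mem' := ⟨1, one_mem _, by simp⟩
      mul_mem' := by
        rintro x y ⟨w, hw, e⟩ ⟨v, hv, e'⟩
        refine ⟨w * v, mul_mem hw hv, ?_⟩
        have := cm _ (fW w) _ (inv_mem hv)
        simp only [map_mul, map_inv] at this ⊢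
        rw [e, e', ← mul_assoc, this]; group
      inv_mem' := by
        rintro x ⟨w, hw, e⟩
        refine ⟨w⁻¹, inv_mem hw, ?_⟩
        have := cm _ hw _ (inv_mem (aW w hw))
        simp only [map_inv] at this ⊢
        rw [e, inv_inv, this]; group }
  haveI : D.Normal := ⟨by
    rintro x ⟨w, hw, e⟩ t
    refine ⟨t * w * t⁻¹, Normal.conj_mem inferInstance w hw t, ?_⟩
    have := cm _ (fW t) _ (aW w hw)
    simp only [map_mul, map_inv] at this ⊢
    rw [e]
    calc φ t * ((φ w)⁻¹ * φ (α w)) * (φ t)⁻¹ =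
          φ t * (φ w)⁻¹ * (φ (α w) * ((φ t)⁻¹ * φ (α t))) * (φ (α t))⁻¹ := by group
      _ = _ := by rw [← this]; group⟩
  have hD : D ≤ Z T 3 := by
    by_contra hc
    obtain ⟨s, hs, hs'⟩ := h.exists_z le_rfl
    obtain ⟨w, hw, e⟩ := h.dich' le_rfl hc hs
    refine hs' (stabmod h.pg hr hα (fun n hn => (inv 3 n).mpr hn) (x := w)
      (n := s⁻¹ * (w⁻¹ * α w)) ?_ (by group) (f1 3 le_rfl s hs))
    rw [← φ1, map_mul, map_inv, e, map_mul, map_inv, inv_mul_cancel]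
  ext t
  refine dn3 t (stabmod h.pg hr hα (fun n hn => (inv 3 n).mpr hn) (one_mem _) (x := t) (by group)
    (hD ⟨_, fW t, ?_⟩))
  rw [map_mul, map_inv]

theorem range_eq (f : W →* T) (hf : Function.Injective f) : f.range = W := by
  have hd : ∀ U : Subgroup W, Nat.card W ≤ 16 * Nat.card U → ∀ n : W, n.1 ∈ Z T 3 → n ∈ U :=
    fun U hU n hn => by
    obtain ⟨m, hm, e⟩ := h.hd (U.map W.subtype) (map_subtype_le _)
      (by rwa [card_map_of_injective W.subtype_injective]) (h.F_eq ▸ hn)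
    exact (Subtype.ext e : m = n) ▸ hm
  have hR : Nat.card W ≤ 8 * Nat.card (W.comap f) := by
    rw [← (W.comap f).index_mul_card]
    refine Nat.mul_le_mul_right _ ?_
    rw [index_comap, ← h.cards.2.2.1, ← relIndex_top_right]
    exact relIndex_le_of_le_right le_top index_ne_zero_of_finite
  have h3 : ∀ n : W, n.1 ∈ Z T 3 → f n ∈ Z T 3 := fun n hn => by
    by_contra hc
    obtain ⟨M, h1, h2, h3⟩ := exists_avoid (N := (Z T 3).comap f) (H := W.comap f)
      (comap_mono h.cards.2.2.2) (fun y hy => by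
        rw [mem_comap, map_mul]; exact h.F_le (h.sq _ hy)) (hd _ (by omega) n hn) hc
    exact h2 (hd M (by omega) n hn)
  have h4 : ((Z T 3).subgroupOf W).map f = Z T 3 := eq_of_le_of_card_ge
    (by rintro _ ⟨n, hn, rfl⟩; exact h3 n hn) (by
      rw [card_map_of_injective hf, Nat.card_congr (subgroupOfEquivOfLe h.cards.2.2.2).toEquiv])
  refine eq_of_le_of_card_ge ?_ (Nat.card_congr (MonoidHom.ofInjective hf).toEquiv).le
  rintro _ ⟨w, rfl⟩
  conv_lhs => rw [h.hW]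
  intro m hm
  rw [← h4] at hm
  obtain ⟨n, hn, rfl⟩ := hm
  rw [← map_mul, ← map_mul]
  exact congrArg f (Subtype.ext (h.zc hn w.2))

end Hyp

theorem hyp_of (hT : IsPGroup 2 T) (ha : 2 ^ 14 ≤ Nat.card T) (hb : Nat.card (Z T 4) = 16)
    (W : Subgroup T) (hW : W = centralizer (Z T 3 : Set T)) (hc : Nat.card (frattini W) ≤ 8)
    (hd : ∀ U : Subgroup W, U.index ≤ 16 → frattini W ≤ U) :
    Hyp W ((frattini W).map W.subtype) := by
  haveI := Fact.mk Nat.prime_two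
  haveI : W.Normal := by rw [hW]; infer_instance
  have ph := H6.phiS_le_frattini_map (hT.to_subgroup W)
  refine ⟨hT, ha, hb, hW, map_subtype_le _, inferInstance, by rwa [card_map_of_injective
    W.subtype_injective], fun w hw => ph (mem_sup_right (subset_closure ⟨w, hw, (sq w).symm⟩)),
    fun x hx y hy => ph (mem_sup_left (commutator_mem_commutator hx hy)), fun U hU hc => ?_⟩
  rw [map_le_iff_le_comap]
  refine hd _ ?_
  have := H7.card_mul_relIndex hU
  have h1 : 0 < Nat.card U := Nat.card_pos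
  change U.relIndex W ≤ 16
  nlinarith

end H8.Ru
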