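import Mathlib
import Cfsg.Agent.H7.PBasic

/-! Transfer into a group of order two, computed in steps of index two. -/

set_option autoImplicit false
set_option linter.unusedVariables false
set_option linter.style.haveILetI false
set_option linter.unusedSectionVars false

namespace H8.Tr2

open Subgroup

variable {G : Type*} [Group G]

/-- a family of partial transfers above the point stabilizer `S` -/
structure Psi (S : Subgroup G) (ψ : Subgroup G → G → ZMod 2) : Prop where
  mul : ∀ H : Subgroup G, ∀ x ∈ H, ∀ y ∈ H, ψ H (x * y) = ψ H x + ψ H y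
  step : ∀ (H : Subgroup G) (w : G), S ≤ H → w ∉ H → w ∈ normalizer (H : Set G) → w * w ∈ H →
    (∀ y ∈ H, ψ (H ⊔ zpowers w) y = ψ H y + ψ H (w⁻¹ * y * w)) ∧
      ψ (H ⊔ zpowers w) w = ψ H (w * w)

section
variable {Ω : Type*} [MulAction G Ω] [Fintype Ω]

open Classical in
/-- orbit of a subgroup -/
noncomputable def orb (H : Subgroup G) (o : Ω) : Finset Ω :=
  Finset.univ.filter fun a => ∃ h ∈ H, h • o = a

theorem mem_orb {H : Subgroup G} {o a : Ω} : a ∈ orb H o ↔ ∃ h ∈ H, h • o = a := by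
  simp [orb]

theorem smul_mem_orb {H : Subgroup G} {o a : Ω} {y : G} (hy : y ∈ H) :
    y • a ∈ orb H o ↔ a ∈ orb H o := by
  simp only [mem_orb]
  constructor
  · rintro ⟨h, hh, e⟩
    exact ⟨y⁻¹ * h, mul_mem (inv_mem hy) hh, by rw [mul_smul, e, inv_smul_smul]⟩
  · rintro ⟨h, hh, e⟩
    exact ⟨y * h, mul_mem hy hh, by rw [mul_smul, e]⟩

theorem sum_smul {H : Subgroup G} (o : Ω) {y : G} (hy : y ∈ H) (f : Ω → ZMod 2) :
    ∑ a ∈ orb H o, f (y • a) = ∑ a ∈ orb H o, f a :=
  Finset.sum_equiv (MulAction.toPerm y) (fun a => (smul_mem_orb hy).symm) fun _ _ => rfl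

theorem mem_sup2 [Finite G] {H : Subgroup G} {w : G} (hn : w ∈ normalizer (H : Set G))
    (h2 : w * w ∈ H) {g : G} (hg : g ∈ H ⊔ zpowers w) : g ∈ H ∨ w⁻¹ * g ∈ H := by
  obtain ⟨n, hn', k, rfl⟩ := (H7.mem_sup_zpowers_nat hn).mp hg
  rcases Nat.even_or_odd' k with ⟨j, rfl | rfl⟩
  · left
    rw [pow_mul, sq]
    exact mul_mem hn' (pow_mem h2 _)
  · right
    rw [pow_succ', pow_mul, sq, ← mul_assoc, ← mul_assoc]
    exact mul_mem (H7.conj_mem_of_mem_normalizer' hn hn') (pow_mem h2 _)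

theorem sum_step [Finite G] {H : Subgroup G} (o : Ω) {w : G} (hS : MulAction.stabilizer G o ≤ H)
    (hw : w ∉ H) (hn : w ∈ normalizer (H : Set G)) (h2 : w * w ∈ H) (f : Ω → ZMod 2) :
    ∑ a ∈ orb (H ⊔ zpowers w) o, f a = ∑ a ∈ orb H o, f a + ∑ a ∈ orb H o, f (w • a) := by
  classical
  have e : orb (H ⊔ zpowers w) o = orb H o ∪ (orb H o).image (w • ·) := by
    ext a
    simp only [Finset.mem_union, Finset.mem_image, mem_orb]
    constructor
    · rintro ⟨g, hg, rfl⟩
      rcases mem_sup2 hn h2 hg with h | h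
      · exact Or.inl ⟨g, h, rfl⟩
      · exact Or.inr ⟨_, ⟨_, h, rfl⟩, by rw [← mul_smul, mul_inv_cancel_left]⟩
    · rintro (⟨g, hg, rfl⟩ | ⟨_, ⟨g, hg, rfl⟩, rfl⟩)
      · exact ⟨g, mem_sup_left hg, rfl⟩
      · exact ⟨w * g, mul_mem (mem_sup_right (mem_zpowers w)) (mem_sup_left hg), mul_smul _ _ _⟩
  rw [e, Finset.sum_union, Finset.sum_image fun a _ b _ h => MulAction.injective w h]
  rw [Finset.disjoint_left]
  rintro a ha hb
  obtain ⟨b, hb', rfl⟩ := Finset.mem_image.mp hb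
  obtain ⟨g, hg, rfl⟩ := mem_orb.mp hb'
  obtain ⟨h, hh, e⟩ := mem_orb.mp ha
  have : h⁻¹ * w * g ∈ H := hS (by
    rw [MulAction.mem_stabilizer_iff, mul_smul, mul_smul, ← e, inv_smul_smul])
  exact hw ((mul_mem_cancel_left (inv_mem hh)).mp ((mul_mem_cancel_right hg).mp this))

variable {c : G → Ω → ZMod 2} (hc : ∀ g h o, c (g * h) o = c g (h • o) + c h o)
include hc

theorem psi [Finite G] (o : Ω) :
    Psi (MulAction.stabilizer G o) fun H y => ∑ a ∈ orb H o, c y a := by
  refine ⟨fun H x hx y hy => ?_, fun H w hS hw hn h2 => ⟨fun y hy => ?_, ?_⟩⟩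
  · simp only [hc, Finset.sum_add_distrib]
    rw [sum_smul o hy (c x)]
  · rw [sum_step o hS hw hn h2]
    congr 1
    have hy' := H7.conj_mem_of_mem_normalizer' hn hy
    have e : ∀ a, c y (w • a) + c w a = c w ((w⁻¹ * y * w) • a) + c (w⁻¹ * y * w) a := fun a => by
      rw [← hc, ← hc]; congr 1; group
    have := Finset.sum_congr (rfl : orb H o = _) fun a _ => e a
    rw [Finset.sum_add_distrib, Finset.sum_add_distrib, sum_smul o hy' (c w), add_comm] at this
    exact add_left_cancel this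
  · rw [sum_step o hS hw hn h2, ← Finset.sum_add_distrib]
    exact Finset.sum_congr rfl fun a _ => by rw [hc, add_comm]

omit hc in
theorem mackey {o : Ω} (ho : ∀ g : G, g • o = o) (f : Ω → ZMod 2)
    (h : ∀ a, a ≠ o → ∑ b ∈ orb (⊤ : Subgroup G) a, f b = 0) : ∑ a, f a = f o := by
  classical
  have key : ∀ A : Finset Ω, (∀ g : G, ∀ a ∈ A, g • a ∈ A) → o ∉ A → ∑ a ∈ A, f a = 0 := by
    intro A
    induction A using Finset.strongInduction with
    | H A ih =>
      intro hA hoA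
      rcases A.eq_empty_or_nonempty with rfl | ⟨a, ha⟩
      · rfl
      have hs : orb (⊤ : Subgroup G) a ⊆ A := fun b hb => by
        obtain ⟨g, -, rfl⟩ := mem_orb.mp hb
        exact hA g a ha
      rw [← Finset.sum_sdiff hs, h a fun e => hoA (e ▸ ha), add_zero]
      refine ih _ (Finset.sdiff_ssubset hs ⟨a, mem_orb.mpr ⟨1, trivial, one_smul _ _⟩⟩)
        (fun g b hb => ?_) fun hc => hoA (Finset.mem_sdiff.mp hc).1
      rw [Finset.mem_sdiff] at hb ⊢
      exact ⟨hA g b hb.1, fun hc => hb.2 ((smul_mem_orb (mem_top g)).mp hc)⟩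
  rw [← Finset.add_sum_erase _ f (Finset.mem_univ o), key _ _ (Finset.notMem_erase _ _), add_zero]
  intro g a ha
  rw [Finset.mem_erase] at ha ⊢
  exact ⟨fun e => ha.1 (MulAction.injective g (e.trans (ho g).symm)), Finset.mem_univ _⟩

end

theorem exists_sing [Finite G] (h2 : ∀ H : Subgroup G, H.index ≠ 2) {M P : Subgroup G} (hP : P ≤ M)
    (χ : M →* Multiplicative (ZMod 2)) {y : G} (hy : y ∈ P) (hχ : χ ⟨y, hP hy⟩ ≠ 1) :
    ∃ g ∉ M, ∃ (S : Subgroup P) (ψ : Subgroup P → P → ZMod 2), Psi S ψ ∧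
      (∀ s ∈ S, g⁻¹ * s * g ∈ M) ∧ ψ ⊤ ⟨y, hy⟩ ≠ 0 := by
  classical
  haveI := Fintype.ofFinite (G ⧸ M)
  have hm : ∀ (g : G) (q : G ⧸ M), (g • q).out⁻¹ * (g * q.out) ∈ M := fun g q => by
    rw [← QuotientGroup.eq, QuotientGroup.out_eq', ← smul_eq_mul, MulAction.Quotient.mk_smul_out]
  let c : G → G ⧸ M → ZMod 2 := fun g q => Multiplicative.toAdd (χ ⟨_, hm g q⟩)
  have hc : ∀ g h o, c (g * h) o = c g (h • o) + c h o := fun g h o => by
    simp only [c]
    rw [← toAdd_mul, ← map_mul]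
    congr 2
    ext
    simp only [coe_mul, mul_smul]
    group
  let τ : G →* Multiplicative (ZMod 2) := MonoidHom.mk' (fun g => Multiplicative.ofAdd (∑ q, c g q))
    fun g h => by
      rw [← ofAdd_add]
      simp only [hc, Finset.sum_add_distrib]
      rw [← Equiv.sum_comp (MulAction.toPerm h) (c g)]
      rfl
  have hτ : τ y = 1 := by
    by_contra hne
    apply h2 τ.ker
    rw [index_ker]
    have : τ.range = ⊤ := by
      rw [eq_top_iff]
      intro x _
      have : ∀ a x : Multiplicative (ZMod 2), a ≠ 1 → x = 1 ∨ x = a := by decide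
      rcases this _ x hne with e | e <;> rw [e]
      · exact one_mem _
      · exact ⟨y, rfl⟩
    rw [this, card_top]; simp
  by_contra hcon
  push Not at hcon
  let o : G ⧸ M := ((1 : G) : G ⧸ M)
  have ho : ∀ g : P, g • o = o := fun g => by
    change ((g * 1 : G) : G ⧸ M) = ((1 : G) : G ⧸ M)
    rw [QuotientGroup.eq]; simpa using hP g.2
  have e := mackey (G := P) ho (c y) fun a ha => hcon a.out (fun hc => ha (by
      rw [← a.out_eq', QuotientGroup.eq]; simpa using hc)) _ _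
    (psi (G := P) (c := fun g q => c g q) (fun g h o => hc g h o) a) fun s hs => by
      have := hm s a
      rwa [show (s : G) • a = a from hs, ← mul_assoc] at this
  have e1 : ∑ q, c y q = 0 := congrArg Multiplicative.toAdd hτ
  rw [e1] at e
  apply hχ
  have hoM : o.out ∈ M := by
    have := QuotientGroup.eq.mp (QuotientGroup.out_eq' o)
    simpa using this
  have e2 : (⟨_, hm y o⟩ : M) = ⟨_, hoM⟩⁻¹ * ⟨y, hP hy⟩ * ⟨_, hoM⟩ := by
    ext
    simp only [coe_mul, coe_inv]
    rw [show y • o = o from ho ⟨y, hy⟩, mul_assoc]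
  have e3 : χ ⟨_, hm y o⟩ = 1 := congrArg Multiplicative.ofAdd e.symm
  rwa [e2, map_mul, map_mul, map_inv, mul_comm, mul_inv_cancel_left] at e3

end H8.Tr2
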