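import Cfsg.Agent.H8.Ru2
import Cfsg.Agent.H8.Tr2

/-! 2-groups of Rudvalis type: vanishing of the singular transfers. -/

set_option autoImplicit false
set_option linter.unusedVariables false
set_option linter.style.haveILetI false
set_option linter.unusedSectionVars false

namespace H8.Ru

open Subgroup H8.Tr2
open scoped commutatorElement

variable {T : Type*} [Group T] [Finite T]

section
variable {S : Subgroup T} {ψ : Subgroup T → T → ZMod 2} (hψ : Psi S ψ)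
include hψ

theorem psi_one (H : Subgroup T) : ψ H 1 = 0 := by
  have := hψ.mul H 1 (one_mem _) 1 (one_mem _)
  rw [mul_one] at this
  simpa using this

theorem psi_val {H : Subgroup T} {w : T} (h1 : S ≤ H) (h2 : w ∉ H)
    (h3 : w ∈ normalizer (H : Set T)) (h4 : w * w ∈ H) {y : T} (hy : y ∈ H) :
    ψ (H ⊔ zpowers w) y = ψ H ⁅y⁻¹, w⁻¹⁆ := by
  have hy' := H7.conj_mem_of_mem_normalizer' h3 hy
  have e : w⁻¹ * y * w = y * ⁅y⁻¹, w⁻¹⁆ := by simp only [commutatorElement_def]; group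
  have hc : ⁅y⁻¹, w⁻¹⁆ ∈ H := (mul_mem_cancel_left hy).mp (e ▸ hy')
  rw [(hψ.step H w h1 h2 h3 h4).1 y hy, e, hψ.mul H y hy _ hc, ← add_assoc, CharTwo.add_self_eq_zero,
    zero_add]

theorem psi_van {H K : Subgroup T} {w : T} (h3 : w ∈ normalizer (H : Set T)) (h4 : w * w ∈ H)
    (hw : w ∈ K) (h5 : ∀ y ∈ H, y ∈ K → ψ (H ⊔ zpowers w) y = 0) (h6 : ψ (H ⊔ zpowers w) w = 0) :
    ∀ y ∈ H ⊔ zpowers w, y ∈ K → ψ (H ⊔ zpowers w) y = 0 := fun y hy hyK => by
  rcases mem_sup2 h3 h4 hy with h | h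
  · exact h5 y h hyK
  · rw [← mul_inv_cancel_left w y, hψ.mul _ w (mem_sup_right (mem_zpowers w)) _ (mem_sup_left h), h6,
      h5 _ h (mul_mem (inv_mem hw) hyK), add_zero]

theorem psi_up (hT : IsPGroup 2 T) (H : Subgroup T) :
    S ≤ H → (∀ y ∈ H, ψ H y = 0) → ∀ y, ψ ⊤ y = 0 := by
  haveI := Fact.mk Nat.prime_two
  induction H using WellFoundedGT.induction with
  | ind H ih =>
    intro h1 h2
    by_cases e : H = ⊤
    · subst e; exact fun y => h2 y trivial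
    obtain ⟨w, -, hw, hn, h4⟩ := H7.exists_mem_normalizer_of_lt (hT.to_subgroup ⊤) (lt_top_iff_ne_top.mpr e)
    rw [sq] at h4
    refine ih (H ⊔ zpowers w) (left_lt_sup.mpr (by rwa [zpowers_le])) (h1.trans le_sup_left)
      fun y hy => psi_van hψ (K := ⊤) hn h4 trivial (fun y hy _ => ?_) ?_ y hy trivial
    · rw [(hψ.step H w h1 hw hn h4).1 y hy, h2 y hy, h2 _ (H7.conj_mem_of_mem_normalizer' hn hy),
        add_zero]
    · rw [(hψ.step H w h1 hw hn h4).2, h2 _ h4]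

end

theorem card_inf_le {H W : Subgroup T} [W.Normal] {w : T} (h2 : w ∉ H)
    (h3 : w ∈ normalizer (H : Set T)) (h4 : w * w ∈ H) (hw : w ∈ W) :
    Nat.card ↥((H ⊔ zpowers w) ⊓ W) ≤ Nat.card ↥(H ⊓ W) * 2 := by
  haveI := Fact.mk Nat.prime_two
  rw [← H7.card_sup_zpowers (p := 2) (x := w) (zpowers_le.mp (H7.le_normalizer_inf (zpowers_le.mpr h3)
    (by rw [normalizer_eq_top]; exact le_top))) (fun hc => h2 hc.1) (sq w ▸ ⟨h4, mul_mem hw hw⟩)]
  refine card_le_of_le fun y hy => ?_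
  rcases mem_sup2 h3 h4 hy.1 with h | h
  · exact mem_sup_left ⟨h, hy.2⟩
  · rw [← mul_inv_cancel_left w y]
    exact mul_mem (mem_sup_right (mem_zpowers w)) (mem_sup_left (mem_inf.mpr ⟨h, mul_mem (inv_mem hw) (mem_inf.mp hy).2⟩))

theorem exists_ext (hT : IsPGroup 2 T) {H K : Subgroup T} [K.Normal] (h : ¬ K ≤ H) :
    ∃ w ∈ K, w ∉ H ∧ w ∈ normalizer (H : Set T) ∧ w * w ∈ H := by
  haveI := Fact.mk Nat.prime_two
  obtain ⟨w, h1, h2, h3, h4⟩ := H7.exists_central_mod (P := H ⊔ K) (K := K) (N := H)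
    (hT.to_subgroup _) le_sup_right (by rw [normalizer_eq_top]; exact le_top) h
  exact ⟨w, h1, h2, H7.mem_normalizer_of_forall_commutator_mem fun n hn => h3 n (mem_sup_left hn),
    sq w ▸ h4⟩

namespace Hyp
variable {W F : Subgroup T} (h : Hyp W F)
include h

theorem van {S : Subgroup T} {ψ : Subgroup T → T → ZMod 2} (hψ : Psi S ψ)
    (hS : Nat.card ↥(S ⊓ W) * 2 < Nat.card W) : ∀ y, ψ ⊤ y = 0 := by
  haveI := h.Wn
  have nle : ∀ H : Subgroup T, Nat.card ↥(H ⊓ W) < Nat.card W → ¬ W ≤ H := fun H hH hc => by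
    rw [inf_of_le_right hc] at hH; omega
  have A : ∀ H : Subgroup T, S ≤ H → Nat.card ↥(H ⊓ W) < Nat.card W → (∀ y ∈ H, y ∈ W → ψ H y = 0) →
      ∀ y, ψ ⊤ y = 0 := fun H h1 hH hv => by
    obtain ⟨w, hw, h2, h3, h4⟩ := exists_ext h.pg (nle H hH)
    refine psi_up hψ h.pg (H ⊔ zpowers w) (h1.trans le_sup_left) fun y hy =>
      psi_van hψ (K := ⊤) h3 h4 trivial (fun y hy _ => ?_) ?_ y hy trivial
    · rw [psi_val hψ h1 h2 h3 h4 hy]
      refine hv _ ?_ ?_
      · rw [commutatorElement_def, inv_inv, inv_inv, mul_assoc, mul_assoc, ← mul_assoc w⁻¹]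
        exact mul_mem (inv_mem hy) (H7.conj_mem_of_mem_normalizer' h3 hy)
      · rw [commutatorElement_def]
        exact mul_mem (Normal.conj_mem inferInstance _ (inv_mem hw) _) (inv_mem (inv_mem hw))
    · rw [(hψ.step H w h1 h2 h3 h4).2, hv _ h4 (mul_mem hw hw)]
  have B : ∀ H : Subgroup T, S ≤ H → Nat.card ↥(H ⊓ W) * 2 < Nat.card W →
      (∀ y ∈ H, y ∈ Z T 3 → ψ H y = 0) → ∀ y, ψ ⊤ y = 0 := fun H h1 hH hv => by
    obtain ⟨w, hw, h2, h3, h4⟩ := exists_ext h.pg (nle H (by omega))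
    refine A (H ⊔ zpowers w) (h1.trans le_sup_left) ((card_inf_le h2 h3 h4 hw).trans_lt hH)
      (psi_van hψ h3 h4 hw (fun y hy hyW => ?_) ?_)
    · rw [psi_val hψ h1 h2 h3 h4 hy]
      refine hv _ ?_ (h.F_le (h.cm _ (inv_mem hyW) _ (inv_mem hw)))
      rw [commutatorElement_def, inv_inv, inv_inv, mul_assoc, mul_assoc, ← mul_assoc w⁻¹]
      exact mul_mem (inv_mem hy) (H7.conj_mem_of_mem_normalizer' h3 hy)
    · rw [(hψ.step H w h1 h2 h3 h4).2, hv _ h4 (h.F_le (h.sq w hw))]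
  by_cases hD : Z T 3 ≤ S
  · by_cases hv : ∀ y ∈ S, y ∈ Z T 3 → ψ S y = 0
    · exact B S le_rfl hS hv
    push Not at hv
    obtain ⟨d, hdS, hd, hd0⟩ := hv
    let R : Subgroup T :=
      { carrier := {y | y ∈ S ⊓ W ∧ ψ S y = 0}
        one_mem' := ⟨one_mem _, psi_one hψ S⟩
        mul_mem' := fun {x y} hx hy => ⟨mul_mem hx.1 hy.1, by
          rw [hψ.mul S x hx.1.1 y hy.1.1, hx.2, hy.2, add_zero]⟩
        inv_mem' := fun {x} hx => ⟨inv_mem hx.1, by
          have := hψ.mul S x hx.1.1 _ (inv_mem hx.1.1)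
          rwa [mul_inv_cancel, psi_one hψ, hx.2, zero_add, eq_comm] at this⟩ }
    have hR : R ≤ S ⊓ W := fun y hy => hy.1
    have hdW := h.cards.2.2.2 hd
    have i2 : (R.subgroupOf (S ⊓ W)).index = 2 := by
      refine index_eq_two_iff_exists_notMem_and.mpr ⟨⟨d, hdS, hdW⟩, fun hc => hd0 hc.2, fun b => ?_⟩
      by_cases hb : ψ S b = 0
      · exact Or.inr ⟨b.2, hb⟩
      · refine Or.inl ⟨mul_mem b.2 ⟨hdS, hdW⟩, ?_⟩
        show ψ S (b * d) = 0
        rw [hψ.mul S b b.2.1 d hdS]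
        revert hb hd0
        generalize ψ S b = u
        generalize ψ S d = v
        revert u v; decide
    have c1 := H7.card_mul_relIndex hR
    rw [relIndex, i2] at c1
    have c2 : ¬ Nat.card W ≤ 16 * Nat.card R := fun hc =>
      hd0 (h.hd R (hR.trans inf_le_right) hc (h.F_eq ▸ hd)).2
    obtain ⟨w, hw, h2, h3, h4⟩ := exists_ext h.pg (nle S (by omega))
    have c3 := card_inf_le h2 h3 h4 hw
    refine B (S ⊔ zpowers w) le_sup_left (by omega) fun y _ hy => ?_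
    rw [psi_val hψ le_rfl h2 h3 h4 (hD hy), commutatorElement_eq_one_iff_mul_comm.mpr
      (h.zc (inv_mem hy) (inv_mem hw)), psi_one hψ]
  · obtain ⟨w, hw, h2, h3, h4⟩ := exists_ext h.pg hD
    have hwW := h.cards.2.2.2 hw
    refine A (S ⊔ zpowers w) le_sup_left ((card_inf_le h2 h3 h4 hwW).trans_lt hS)
      (psi_van hψ h3 h4 hwW (fun y hy hyW => ?_) ?_)
    · rw [psi_val hψ le_rfl h2 h3 h4 hy, commutatorElement_eq_one_iff_mul_comm.mpr
        (h.zc (inv_mem hw) (inv_mem hyW)).symm, psi_one hψ]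
    · rw [(hψ.step S w le_rfl h2 h3 h4).2, h.z3_sq w hw, psi_one hψ]

theorem small {S : Subgroup T} (f : S →* T) (hf : Function.Injective f)
    (hS : Nat.card W ≤ Nat.card ↥(S ⊓ W) * 2) :
    Z T 3 ≤ S ∧ ((Z T 3).subgroupOf S).map f = Z T 3 := by
  obtain ⟨π, hπ, hk⟩ := h.exists_pi
  have hd : ∀ U : Subgroup S, U ≤ W.subgroupOf S → Nat.card W ≤ 16 * Nat.card U →
      ∀ n : S, n.1 ∈ Z T 3 → n ∈ U := fun U hUW hU n hn => by
    obtain ⟨m, hm, e⟩ := h.hd (U.map S.subtype) (map_le_iff_le_comap.mpr hUW)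
      (by rwa [card_map_of_injective S.subtype_injective]) (h.F_eq ▸ hn)
    exact (Subtype.ext e : m = n) ▸ hm
  have hDS : Z T 3 ≤ S := fun n hn => (h.hd (S ⊓ W) inf_le_right (by omega) (h.F_eq ▸ hn)).1
  refine ⟨hDS, ?_⟩
  have c1 := H4.card_eq_card_map_mul (π.comp f) (W.subgroupOf S)
  rw [← inf_subgroupOf_left, Nat.card_congr (subgroupOfEquivOfLe inf_le_left).toEquiv,
    inf_subgroupOf_left, ← MonoidHom.comap_ker, hk] at c1
  have c8 : Nat.card (DihedralGroup 4) = 8 := by rw [Nat.card_eq_fintype_card, DihedralGroup.card]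
  have c2 := card_subgroup_dvd_card ((W.subgroupOf S).map (π.comp f))
  rw [c8] at c2
  have c3 := Nat.le_of_dvd (by norm_num) c2
  have hY := hd (W.subgroupOf S ⊓ W.comap f) inf_le_left (by nlinarith)
  have c4 : Nat.card ((W.subgroupOf S).map (π.comp f)) ≠ 8 := fun e => by
    have := eq_top_of_card_eq _ (e.trans c8.symm)
    obtain ⟨w, hw, e⟩ : DihedralGroup.r 1 ∈ (W.subgroupOf S).map (π.comp f) := this ▸ mem_top _
    have h1 : f (w * w) ∈ π.ker := hk ▸ (hY (w * w) (h.F_le (h.sq _ hw))).2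
    have h2 : (π.comp f) (w * w) = 1 := h1
    rw [map_mul, e] at h2
    revert h2; decide
  have c5 : Nat.card ((W.subgroupOf S).map (π.comp f)) ≤ 4 := by
    generalize Nat.card ((W.subgroupOf S).map (π.comp f)) = m at *
    interval_cases m <;> simp_all
  have h3 : ∀ n : S, n.1 ∈ Z T 3 → f n ∈ Z T 3 := fun n hn => by
    by_contra hc
    obtain ⟨M, h1, h2, h3⟩ := exists_avoid (N := W.subgroupOf S ⊓ (Z T 3).comap f)
      (H := W.subgroupOf S ⊓ W.comap f)
      (inf_le_inf_left _ (comap_mono h.cards.2.2.2)) (fun y hy => mem_inf.mpr ⟨mul_mem hy.1 hy.1, by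
        rw [mem_comap, map_mul]; exact h.F_le (h.sq _ hy.2)⟩) (hY n hn)
        fun hc' => hc hc'.2
    exact h2 (hd M (h1.trans inf_le_left) (by nlinarith) n hn)
  exact eq_of_le_of_card_ge (by rintro _ ⟨n, hn, rfl⟩; exact h3 n hn) (by
      rw [card_map_of_injective hf, Nat.card_congr (subgroupOfEquivOfLe hDS).toEquiv])

end Hyp

end H8.Ru
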