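import Cfsg.Agent.H8.Ru3
import Cfsg.Agent.H8.Inv3
import Cfsg.Agent.H8.GL42
import Cfsg.Agent.H5.SS8
import Cfsg.Agent.H4.GA

/-! Auxiliary lemmas on `L₃(2)`-sections. -/

set_option autoImplicit false
set_option linter.unusedVariables false
set_option linter.style.haveILetI false
set_option linter.unusedSectionVars false

namespace H8.Ru

open Subgroup H5 Cfsg
open scoped commutatorElement

theorem exists_prime_index {A : Type*} [Group A] [Finite A] [Nontrivial A] [Group.IsSolvable A] :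
    ∃ X : Subgroup A, X.Normal ∧ X.index.Prime := by
  obtain ⟨X, hX, hc⟩ := (eq_top_or_exists_le_coatom (commutator A)).resolve_left
    (Group.IsSolvable.commutator_lt_top_of_nontrivial A).ne
  haveI hn : X.Normal := ⟨fun n hn g => by
    have : g * n * g⁻¹ = ⁅g, n⁆ * n := by simp [commutatorElement_def]
    rw [this]
    exact mul_mem (hc (commutator_mem_commutator trivial trivial)) hn⟩
  refine ⟨X, hn, ?_⟩
  obtain ⟨p, hp, hd⟩ := Nat.exists_prime_and_dvd (n := X.index) (by rw [Ne, index_eq_one]; exact hX.1)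
  haveI := Fact.mk hp
  obtain ⟨q, hq⟩ := exists_prime_orderOf_dvd_card' (G := A ⧸ X) p hd
  have h1 : (zpowers q).comap (QuotientGroup.mk' X) = ⊤ := hX.2 _ (lt_of_le_of_ne
    (fun x hx => by
      rw [mem_comap, QuotientGroup.mk'_apply, (QuotientGroup.eq_one_iff x).mpr hx]; exact one_mem _)
    fun e => by
      obtain ⟨y, rfl⟩ := QuotientGroup.mk'_surjective X q
      have : y ∈ X := e ▸ mem_zpowers _
      rw [QuotientGroup.mk'_apply, (QuotientGroup.eq_one_iff y).mpr this, orderOf_one] at hq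
      exact hp.one_lt.ne hq)
  have h2 : zpowers q = ⊤ := comap_injective (QuotientGroup.mk'_surjective X) (h1.trans (comap_top _).symm)
  rwa [index, ← card_top (G := A ⧸ X), ← h2, Nat.card_zpowers, hq]

theorem surj168 {M L : Type*} [Group M] [Finite M] [Group L] [Finite L] (hL : Nat.card L = 168)
    (h2 : ∀ K : Subgroup M, K.index ≠ 2) (ρ : M →* L) {T : Subgroup M} (hT : IsSylowOf 2 T ⊤)
    (h8 : Nat.card (T.map ρ) = 8) (hN : ∀ g ∈ normalizer (T : Set M), ρ g ∈ T.map ρ) :
    Function.Surjective ρ := by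
  haveI := Fact.mk Nat.prime_two
  rw [← MonoidHom.range_eq_top]
  by_contra hne
  have d1 : Nat.card ρ.range ∣ 168 := hL ▸ card_subgroup_dvd_card _
  have d2 : 8 ∣ Nat.card ρ.range := h8 ▸ card_dvd_of_le (map_le_range ρ T)
  have d3 : Nat.card ρ.range ≠ 168 := fun e => hne (eq_top_of_card_eq _ (e.trans hL.symm))
  have d4 : Nat.card ρ.range = 8 ∨ Nat.card ρ.range = 24 ∨ Nat.card ρ.range = 56 := by
    obtain ⟨m, hm⟩ := d2
    rw [hm] at d1 d3 ⊢
    have h1 : m ∣ 21 := Nat.dvd_of_mul_dvd_mul_left (by norm_num : 0 < 8) d1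
    have h3 := Nat.le_of_dvd (by norm_num) h1
    interval_cases m <;> simp_all
  haveI : Group.IsSolvable ρ.range := by
    rcases d4 with e | e | e
    · exact isSolvable_of_card_eq_prime_pow_mul Nat.prime_two Nat.prime_three 3 0 e
    · exact isSolvable_of_card_eq_prime_pow_mul Nat.prime_two Nat.prime_three 3 1 e
    · exact isSolvable_of_card_eq_prime_pow_mul Nat.prime_two (by norm_num : Nat.Prime 7) 3 1 e
  haveI : Nontrivial ρ.range := Finite.one_lt_card_iff_nontrivial.mp (by omega)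
  obtain ⟨X, hX, hp⟩ := exists_prime_index (A := ρ.range)
  have i1 := index_comap_of_surjective X ρ.rangeRestrict_surjective
  have hp2 : X.index ≠ 2 := i1 ▸ h2 _
  have hTX : T ≤ X.comap ρ.rangeRestrict := fun t ht => by
    obtain ⟨k, hk⟩ := H4.exists_pow_pow_of_mem hT.isPGroup ht
    exact H4.mem_of_pow_mem_of_coprime (pow_index_mem _ t) (H4.coprime_orderOf_of_pow_pow hk
      (i1 ▸ (Nat.coprime_primes hp Nat.prime_two).mpr hp2))
  have m1 : T.map ρ ≤ X.map ρ.range.subtype := by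
    rintro _ ⟨t, ht, rfl⟩; exact ⟨_, hTX ht, rfl⟩
  have c1 := card_dvd_of_le m1
  rw [h8, card_map_of_injective ρ.range.subtype_injective] at c1
  have c2 := X.card_mul_index
  have c3 : Nat.card X = 8 := by
    obtain ⟨m, hm⟩ := c1
    have := hp.two_le
    rw [hm] at c2 ⊢
    have : m * X.index = 1 ∨ m * X.index = 3 ∨ m * X.index = 7 := by
      rw [mul_assoc] at c2; omega
    rcases this with e | e | e
    · have := Nat.eq_one_of_mul_eq_one_left e; omega
    · rcases (Nat.dvd_prime Nat.prime_three).mp (Dvd.intro_left _ e) with e' | e'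
      · omega
      · rw [e'] at e; omega
    · rcases (Nat.dvd_prime (by norm_num : Nat.Prime 7)).mp (Dvd.intro_left _ e) with e' | e'
      · omega
      · rw [e'] at e; omega
  have m2 := eq_of_le_of_card_ge m1 (by rw [card_map_of_injective ρ.range.subtype_injective, c3, h8])
  have m3 : ρ.range ≤ T.map ρ := by
    rintro _ ⟨g, rfl⟩
    obtain ⟨n, hn, hg⟩ := (hT.of_le hTX le_top).frattini (g := g) (by rw [normalizer_eq_top]; trivial)
    rw [← mul_inv_cancel_left n g, map_mul]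
    exact mul_mem (m2 ▸ ⟨_, hn, rfl⟩) (hN _ hg)
  have c4 := card_le_of_le m3
  have := hp.two_le
  rw [c3] at c2
  omega

theorem not_seven {B : Type*} [Group B] [Finite B] {r n : ℕ} (hr : r = 3 ∨ r = 5 ∨ r = 17)
    (hn : n ≤ 5) (hB : Nat.card B = r ^ n) : ¬ 7 ∣ Nat.card (MulAut B) := fun hd => by
  haveI := Fact.mk (by norm_num : Nat.Prime 7)
  obtain ⟨α, hα⟩ := exists_prime_orderOf_dvd_card' 7 hd
  have h1 := Inv3.modEq_of_pred α (by norm_num : Nat.Prime 7) (hα ▸ pow_orderOf_eq_one α)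
    (fun x => True) fun x hx => trivial
  rw [Nat.card_congr (Equiv.subtypeUnivEquiv fun _ => trivial),
      Nat.card_congr (Equiv.subtypeUnivEquiv fun _ => trivial), hB] at h1
  have hr' : r.Prime := by rcases hr with rfl | rfl | rfl <;> norm_num
  obtain ⟨j, hj, hc⟩ := (Nat.dvd_prime_pow hr').mp (hB ▸ card_subgroup_dvd_card (Inv3.fx α))
  rw [hc] at h1
  have : j = n := by
    rcases hr with rfl | rfl | rfl <;> interval_cases n <;> interval_cases j <;>
      first | rfl | exact absurd h1 (by decide)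
  have h2 : Inv3.fx α = ⊤ := eq_top_of_card_eq _ (by rw [hc, hB, this])
  have h3 : α = 1 := by
    ext x
    exact (h2 ▸ mem_top x : x ∈ Inv3.fx α)
  rw [h3, orderOf_one] at hα
  omega

theorem faith {Y V L : Type*} [Group Y] [Finite Y] [CommGroup V] [Finite V] [Group L] [Finite L]
    [IsSimpleGroup L] (hL : Nat.card L = 168) (hV2 : ∀ v : V, v ^ 2 = 1) (hV : Nat.card V = 2 ^ 8)
    (a : Y →* MulAut V) (ρ : Y →* L) (hρ : Function.Surjective ρ) {T : Subgroup Y}
    (hT : IsSylowOf 2 T ⊤) (hK : ρ.ker ⊓ a.ker = ⊥) (hTK : T ⊓ ρ.ker = ⊥) {s : V} (hs : s ≠ 1)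
    (hs1 : ∀ t ∈ T, a t s = s) (hs2 : ∀ v, (∀ t ∈ T, a t v = v) → v = 1 ∨ v = s) : ρ.ker = ⊥ := by
  classical
  haveI := Fact.mk Nat.prime_two
  by_contra hne
  have hodd : ¬ 2 ∣ Nat.card ρ.ker := fun hd =>
    (hT.inf_of_le_normalizer le_top (by rw [normalizer_eq_top]; exact le_top)).ne_bot hd hTK
  obtain ⟨r, hr, hd⟩ := Nat.exists_prime_and_dvd (n := Nat.card ρ.ker) (by rwa [Ne, card_eq_one])
  haveI := Fact.mk hr
  have hr2 : r ≠ 2 := by rintro rfl; exact hodd hd
  obtain ⟨B, hB, hTB⟩ := exists_invariant_isSylowOf r (A := T) (K := ρ.ker)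
    (by rw [normalizer_eq_top]; exact le_top)
    (coprime_card_of_isPGroup hT.isPGroup hodd) (Or.inl (isSolvable_of_isPGroup hT.isPGroup))
  have hB1 := hB.ne_bot hd
  haveI := Fintype.ofFinite B
  -- invariant subgroups of `V` contain `s`
  have soc : ∀ U : Subgroup V, (∀ t ∈ T, ∀ v ∈ U, a t v ∈ U) → U ≠ ⊥ → s ∈ U := fun U hU h1 => by
    letI : MulAction T U :=
      { smul := fun t v => ⟨a t v, hU t t.2 v v.2⟩
        one_smul := fun v => Subtype.ext (by show a (1 : T) v = v; simp)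
        mul_smul := fun t t' v => Subtype.ext (by show a (t * t' : T) v = a t (a t' v); simp) }
    obtain ⟨k, -, hk⟩ := (Nat.dvd_prime_pow Nat.prime_two).mp (hV ▸ card_subgroup_dvd_card U)
    obtain ⟨v, hv, h2⟩ := hT.isPGroup.exists_fixed_point_of_prime_dvd_card_of_fixed_point U
      (by rw [hk]; exact dvd_pow_self 2 fun e => h1 (by rwa [e, pow_zero, card_eq_one] at hk))
      (a := 1) fun t => Subtype.ext (map_one (a t))
    rcases hs2 v fun t ht => congrArg Subtype.val (hv ⟨t, ht⟩) with e | e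
    · exact absurd (Subtype.ext e).symm h2
    · exact e ▸ v.2
  have nfix : ¬ ∀ b ∈ B, a b s = s := fun hf => by
    let ν : V →* V := MonoidHom.mk' (fun v => ∏ b : B, a b v) fun v w => by
      simp only [map_mul, Finset.prod_mul_distrib]
    have hν : ∀ v, ν v = ∏ b : B, a b v := fun v => rfl
    have h1 : ν.ker = ⊥ := by
      by_contra hc
      have := soc ν.ker (fun t ht v hv => by
        rw [MonoidHom.mem_ker, hν] at hv ⊢
        rw [← Equiv.prod_comp (B.normalizerMonoidHom ⟨t, hTB ht⟩).toEquiv]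
        have : ∀ b : B, a ((B.normalizerMonoidHom ⟨t, hTB ht⟩).toEquiv b) (a t v) = a t (a b v) :=
          fun b => by
            show a (t * b * t⁻¹) (a t v) = _
            rw [← MulAut.mul_apply, ← map_mul, inv_mul_cancel_right, map_mul, MulAut.mul_apply]
        simp only [this]
        rw [← map_prod, hv, map_one]) hc
      rw [MonoidHom.mem_ker, hν, Finset.prod_congr rfl fun (b : B) _ => hf b b.2, Finset.prod_const,
        Finset.card_univ, ← Nat.card_eq_fintype_card] at this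
      obtain ⟨j, hj⟩ := Nat.odd_iff.mpr (Nat.two_dvd_ne_zero.mp fun hc =>
        hodd (hc.trans (card_dvd_of_le hB.le)))
      rw [hj, pow_succ, pow_mul, hV2, one_pow, one_mul] at this
      exact hs this
    apply hB1
    rw [eq_bot_iff, ← hK]
    refine fun b hb => ⟨hB.le hb, ?_⟩
    ext v
    refine (MonoidHom.ker_eq_bot_iff ν).mp h1 ?_
    rw [hν, hν, MulAut.one_apply, ← Equiv.prod_comp (Equiv.mulRight (⟨b, hb⟩ : B)) fun c : B => a c v]
    exact Finset.prod_congr rfl fun c _ => by simp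
  have hr255 : r ∣ 255 := by
    letI : MulAction B V := MulAction.compHom V (a.comp B.subtype)
    have h1 := hB.isPGroup.card_modEq_card_fixedPoints V
    have h2 : MulAction.fixedPoints B V = {1} := by
      let U : Subgroup V :=
        { carrier := {v | ∀ b ∈ B, a b v = v}
          one_mem' := fun b _ => map_one _
          mul_mem' := fun {v w} hv hw b hb => by rw [map_mul, hv b hb, hw b hb]
          inv_mem' := fun {v} hv b hb => by rw [map_inv, hv b hb] }
      have hU : U = ⊥ := by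
        by_contra hc
        refine nfix (soc U (fun t ht v hv b hb => ?_) hc)
        have := hv _ (H7.conj_mem_of_mem_normalizer' (hTB ht) hb)
        conv_rhs => rw [← this]
        rw [← MulAut.mul_apply, ← MulAut.mul_apply, ← map_mul, ← map_mul]
        congr 2; group
      ext v
      refine ⟨fun hv => ?_, by rintro rfl b; exact map_one (a b)⟩
      exact (hU ▸ (fun b hb => hv ⟨b, hb⟩ : v ∈ U) : v ∈ (⊥ : Subgroup V))
    rw [h2, hV] at h1
    simp only [Nat.card_unique] at h1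
    exact (Nat.modEq_iff_dvd' (by norm_num)).mp h1.symm
  have hr3 : r = 3 ∨ r = 5 ∨ r = 17 := by
    rcases (Nat.Prime.dvd_mul hr).mp (show r ∣ 3 * (5 * 17) from hr255) with e | e
    · exact Or.inl ((Nat.prime_dvd_prime_iff_eq hr Nat.prime_three).mp e)
    · rcases (Nat.Prime.dvd_mul hr).mp e with e | e
      · exact Or.inr (Or.inl ((Nat.prime_dvd_prime_iff_eq hr Nat.prime_five).mp e))
      · exact Or.inr (Or.inr ((Nat.prime_dvd_prime_iff_eq hr (by norm_num)).mp e))
  obtain ⟨n, hn⟩ := IsPGroup.iff_card.mp hB.isPGroup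
  have hn5 : n ≤ 5 := by
    have h1 : Nat.card B ∣ Nat.card (MulAut V) := card_dvd_of_injective (a.comp B.subtype)
      ((injective_iff_map_eq_one _).mpr fun b hb => Subtype.ext (by
        have : (b : Y) ∈ ρ.ker ⊓ a.ker := ⟨hB.le b.2, hb⟩
        rwa [hK] at this))
    have h2 := h1.trans (H5.SS.card_mulAut_dvd' hV2 hV)
    by_contra hc
    have h3 := (pow_dvd_pow r (show 6 ≤ n by omega)).trans (hn ▸ h2)
    rcases hr3 with rfl | rfl | rfl <;> revert h3 <;> decide
  let φ := B.normalizerMonoidHom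
  let ρ' := ρ.comp (normalizer (B : Set Y)).subtype
  have hρ' : Function.Surjective ρ' := fun x => by
    obtain ⟨g, rfl⟩ := hρ x
    obtain ⟨k, hk, hg⟩ := hB.frattini (g := g) (by rw [normalizer_eq_top]; trivial)
    refine ⟨⟨_, hg⟩, ?_⟩
    show ρ (k⁻¹ * g) = ρ g
    rw [map_mul, map_inv, show ρ k = 1 from hk, inv_one, one_mul]
  rcases (φ.normal_ker.map ρ' hρ').eq_bot_or_eq_top with e | e
  · rw [Subgroup.map_eq_bot_iff] at e
    have h1 := index_dvd_of_le e
    rw [index_ker, index_ker, ρ'.range_eq_top_of_surjective hρ', card_top, hL] at h1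
    exact not_seven hr3 hn5 hn (((by norm_num : 7 ∣ 168).trans h1).trans (card_subgroup_dvd_card _))
  · have hc : ∀ t ∈ T, ∀ b ∈ B, t * b = b * t := fun t ht b hb => by
      obtain ⟨c, hc, e1⟩ : ρ' ⟨t, hTB ht⟩ ∈ φ.ker.map ρ' := e ▸ mem_top _
      have h1 : ((c⁻¹ * ⟨t, hTB ht⟩ : normalizer (B : Set Y)) : Y) ∈ ρ.ker := by
        show ρ' (c⁻¹ * ⟨t, hTB ht⟩) = 1
        rw [map_mul, map_inv, e1, inv_mul_cancel]
      have h2 : (c⁻¹ * ⟨t, hTB ht⟩) ^ Nat.card ρ.ker = 1 :=
        Subtype.ext (congrArg (fun x : ρ.ker => (x : Y)) (pow_card_eq_one' (x := (⟨_, h1⟩ : ρ.ker))))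
      have h3 : φ ⟨t, hTB ht⟩ ^ Nat.card ρ.ker = 1 := by
        have := congrArg φ h2
        rwa [map_pow, map_mul, map_inv, show φ c = 1 from hc, inv_one, one_mul, map_one] at this
      obtain ⟨k, hk⟩ := H4.exists_pow_pow_of_mem hT.isPGroup ht
      have h4 : φ ⟨t, hTB ht⟩ ^ 2 ^ k = 1 := by
        rw [← map_pow, show (⟨t, hTB ht⟩ : normalizer (B : Set Y)) ^ 2 ^ k = 1 from Subtype.ext hk,
          map_one]
      have h5 := pow_gcd_eq_one.mpr ⟨h3, h4⟩
      rw [((Nat.coprime_two_right.mpr (Nat.odd_iff.mpr (Nat.two_dvd_ne_zero.mp hodd))).pow_right k),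
        pow_one] at h5
      exact mul_inv_eq_iff_eq_mul.mp (congrArg (fun β : MulAut B => (β ⟨b, hb⟩ : Y)) h5)
    refine nfix fun b hb => (hs2 _ fun t ht => ?_).resolve_left fun e => hs ((a b).injective
      (e.trans (map_one _).symm))
    rw [← MulAut.mul_apply, ← map_mul, hc t ht b hb, map_mul, MulAut.mul_apply, hs1 t ht]

theorem faith' {Y V L : Type*} [Group Y] [Finite Y] [CommGroup V] [Finite V] [Group L] [Finite L]
    [IsSimpleGroup L] (hL : Nat.card L = 168) (hV2 : ∀ v : V, v ^ 2 = 1) (hV : Nat.card V = 2 ^ 8)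
    (a : Y →* MulAut V) (ρ : Y →* L) (hρ : Function.Surjective ρ) {T : Subgroup Y}
    (hT : IsSylowOf 2 T ⊤) (hTK : T ⊓ ρ.ker ≤ a.ker) {s : V} (hs : s ≠ 1)
    (hs1 : ∀ t ∈ T, a t s = s) (hs2 : ∀ v, (∀ t ∈ T, a t v = v) → v = 1 ∨ v = s) :
    ρ.ker ≤ a.ker := by
  haveI := Fact.mk Nat.prime_two
  let K := ρ.ker ⊓ a.ker
  let π := QuotientGroup.mk' K
  have πs : Function.Surjective π := QuotientGroup.mk'_surjective K
  have π1 : ∀ x, π x = 1 ↔ x ∈ K := fun x => QuotientGroup.eq_one_iff x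
  have h := faith hL hV2 hV (QuotientGroup.lift K a inf_le_right) (QuotientGroup.lift K ρ inf_le_left)
    (fun x => (hρ x).elim fun g hg => ⟨π g, hg⟩) (H7.isSylowOf_map_top πs hT)
    (eq_bot_iff.mpr fun x hx => by
      obtain ⟨g, rfl⟩ := πs x
      exact (π1 g).mpr hx)
    (eq_bot_iff.mpr (by
      rintro _ ⟨⟨t, ht, rfl⟩, h2⟩
      exact (π1 t).mpr ⟨h2, hTK ⟨ht, h2⟩⟩)) hs
    (by rintro _ ⟨t, ht, rfl⟩; exact hs1 t ht) fun v hv => hs2 v fun t ht => hv _ ⟨t, ht, rfl⟩
  intro k hk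
  have : π k ∈ (⊥ : Subgroup _) := h ▸ hk
  exact ((π1 k).mp this).2

theorem npc_central {X : Type*} [Group X] [Finite X] {D W : Subgroup X} (hD : D ≤ center X)
    (hDW : D ≤ W) (hW : IsSylowOf 2 W ⊤)
    (h : ∀ g ∈ normalizer (W : Set X), ∀ w ∈ W, ⁅w, g⁆ ∈ D) : pPrimeCore 2 X ⊔ W = ⊤ := by
  haveI := Fact.mk Nat.prime_two
  haveI : D.Normal := ⟨fun n hn g => by rw [mem_center_iff.mp (hD hn) g]; simpa using hn⟩
  let π := QuotientGroup.mk' D
  have πs : Function.Surjective π := QuotientGroup.mk'_surjective D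
  have π1 : ∀ x, π x = 1 ↔ x ∈ D := fun x => QuotientGroup.eq_one_iff x
  have hW' := H7.isSylowOf_map_top πs hW
  have h1 : H7.NPC 2 (⊤ : Subgroup (X ⧸ D)) := (FT.npc_iff_sd hW').mpr
    (FT.Burnside_normal_complement hW' (by
      rintro g ⟨-, hg⟩ _ ⟨w, hw, rfl⟩
      obtain ⟨g, rfl⟩ := πs g
      rw [← commutatorElement_eq_one_iff_mul_comm, ← map_commutatorElement, π1]
      refine h g (H7.mem_normalizer_of_forall_conj_mem fun n hn => ?_) w hw
      rw [← comap_map_eq_self (f := π) (H := W) (by rwa [QuotientGroup.ker_mk']), mem_comap, map_mul,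
        map_mul, map_inv]
      exact H7.conj_mem_of_mem_normalizer hg (mem_map_of_mem π hn)))
  obtain ⟨O, -, o1, o2, o3⟩ := h1
  haveI := H7.normal_of_top_le_normalizer o1
  have h2 : H7.NPC 2 (O.comap π) := H4.npc_of_forall_central fun x hx ⟨k, hk⟩ y _ =>
    mem_center_iff.mp (hD ((π1 x).mp (H4.eq_one_of_pow_pow_of_coprime (k := k)
      (by rw [← map_pow, hk, map_one]) (H4.coprime_orderOf_of_mem o2 hx)))) y
  have h3 : H7.NPC 2 (⊤ : Subgroup X) := h2.of_normal le_top (by rw [normalizer_eq_top])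
    fun x _ => (o3 (π x) trivial).imp fun k hk => by rwa [mem_comap, map_pow]
  rw [eq_top_iff, ← H4.pPrimeCoreIn_top]
  exact H7.le_sup_sylow (H4.le_normalizer_pPrimeCoreIn 2 ⊤) (H7.npc_iff_pPrimeCoreIn.mp h3) hW

end H8.Ru
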