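import Cfsg.Agent.H8.Ru4

/-! Groups with a Sylow 2-subgroup of Rudvalis type: the normalizer of `W`. -/

set_option autoImplicit false
set_option linter.unusedVariables false
set_option linter.style.haveILetI false
set_option linter.unusedSectionVars false

namespace H8.Ru

open Subgroup H5 Cfsg
open scoped commutatorElement IsMulCommutative

variable {G : Type*} [Group G] [Finite G] {T : Subgroup G} {W F : Subgroup T}

theorem T_le_nor (K : Subgroup T) [K.Normal] : T ≤ normalizer (K.map T.subtype : Set G) := by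
  refine le_trans ?_ (le_normalizer_map T.subtype)
  rw [normalizer_eq_top, ← MonoidHom.range_eq_map, range_subtype]

theorem mem_map' {K : Subgroup T} {x : T} : (x : G) ∈ K.map T.subtype ↔ x ∈ K :=
  mem_map_iff_mem T.subtype_injective

theorem z2a : (1 : Multiplicative (ZMod 2)) = Multiplicative.ofAdd 1 * Multiplicative.ofAdd 1 := by
  decide

theorem z2b : (Multiplicative.ofAdd 1 : Multiplicative (ZMod 2)) ≠ 1 := by decide

theorem no_index_two (h : Hyp W F) (hT : IsSylowOf 2 T ⊤) (h2 : ∀ H : Subgroup G, H.index ≠ 2)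
    (K : Subgroup (normalizer ((Z T 3).map T.subtype : Set G))) : K.index ≠ 2 := by
  classical
  haveI := Fact.mk Nat.prime_two
  intro hK
  have hTM := T_le_nor (Z T 3)
  let M := normalizer ((Z T 3).map T.subtype : Set G)
  have hTM' := hT.of_le hTM le_top
  let χ : M →* Multiplicative (ZMod 2) := MonoidHom.mk'
    (fun x => if x ∈ K then 1 else Multiplicative.ofAdd 1) fun x y => by
      have := mul_mem_iff_of_index_two hK (a := x) (b := y)
      by_cases hx : x ∈ K <;> by_cases hy : y ∈ K <;> simp only [hx, hy, this, iff_self, if_true,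
        if_false, iff_false, iff_true, not_true, mul_one, one_mul, true_iff]
      exact z2a
  obtain ⟨y, hy, hyK⟩ : ∃ y, ∃ hy : y ∈ T, (⟨y, hTM hy⟩ : M) ∉ K := by
    by_contra hc
    push Not at hc
    exact hTM'.not_dvd (hK ▸ index_dvd_of_le (fun x hx => hc x hx : T.subgroupOf M ≤ K))
  obtain ⟨g, hg, S, ψ, hψ, hS, hy'⟩ := Tr2.exists_sing h2 hTM χ hy (by
    simp only [χ, MonoidHom.mk'_apply, hyK, if_false]; exact z2b)
  have hc : Nat.card W ≤ Nat.card ↥(S ⊓ W) * 2 := by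
    by_contra hc
    exact hy' (h.van hψ (by omega) _)
  obtain ⟨m, hm, hmT⟩ := hTM'.exists_conj_le
    (Q := (S.map T.subtype).map (MulAut.conj g⁻¹).toMonoidHom)
    (((h.pg.to_subgroup S).map _).map _) (by
      rintro _ ⟨_, ⟨s, hs, rfl⟩, rfl⟩
      simpa using hS s hs)
  let f : S →* T := ((MulAut.conj m).toMonoidHom.comp ((MulAut.conj g⁻¹).toMonoidHom.comp
    (T.subtype.comp S.subtype))).codRestrict _ fun s => hmT ⟨_, ⟨_, ⟨s, s.2, rfl⟩, rfl⟩, rfl⟩
  have hf : Function.Injective f := fun x y e => Subtype.ext (Subtype.ext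
    ((MulAut.conj g⁻¹).injective ((MulAut.conj m).injective (congrArg Subtype.val e))))
  obtain ⟨h1, h3⟩ := h.small f hf hc
  have : m * g⁻¹ ∈ M := H7.mem_normalizer_of_forall_conj_mem (by
    rintro _ ⟨n, hn, rfl⟩
    refine ⟨f ⟨n, h1 hn⟩, h3 ▸ mem_map_of_mem f hn, ?_⟩
    simp [f, mul_assoc])
  exact hg (inv_mem_iff.mp ((mul_mem_cancel_left hm).mp this))

theorem cen_inf (h : Hyp W F) :
    T ⊓ centralizer ((Z T 3).map T.subtype : Set G) = W.map T.subtype := by
  ext x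
  constructor
  · rintro ⟨h1, h2⟩
    refine ⟨⟨x, h1⟩, ?_, rfl⟩
    rw [SetLike.mem_coe, h.hW]
    exact fun n hn => Subtype.ext (h2 n ⟨n, hn, rfl⟩)
  · rintro ⟨w, hw, rfl⟩
    refine ⟨w.2, ?_⟩
    rintro _ ⟨n, hn, rfl⟩
    exact congrArg Subtype.val (h.zc hn hw)

theorem nor_le (h : Hyp W F) : normalizer (W.map T.subtype : Set G) ≤
    normalizer ((Z T 3).map T.subtype : Set G) := by
  rw [← h.comm_eq, map_commutator]
  exact H7.le_normalizer_commutator le_rfl le_rfl

theorem exists_rho (h : Hyp W F) (hT : IsSylowOf 2 T ⊤) (h2 : ∀ H : Subgroup G, H.index ≠ 2) :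
    ∃ ρ : normalizer ((Z T 3).map T.subtype : Set G) →* Matrix.SpecialLinearGroup (Fin 3) (ZMod 2),
      Function.Surjective ρ ∧ ∀ g, g ∈ ρ.ker ↔ g.1 ∈ centralizer ((Z T 3).map T.subtype : Set G) := by
  haveI := Fact.mk Nat.prime_two
  have hTM := T_le_nor (Z T 3)
  have ci := cen_inf h
  have h2' := no_index_two h hT h2
  have c8 : Nat.card ((Z T 3).map T.subtype) = 8 := by
    rw [card_map_of_injective T.subtype_injective, h.cardZ.2.2]
  have sq : ∀ d ∈ (Z T 3).map T.subtype, d * d = 1 := by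
    rintro _ ⟨n, hn, rfl⟩; exact congrArg Subtype.val (h.z3_sq n hn)
  generalize (Z T 3).map T.subtype = D at *
  set M := normalizer (D : Set G)
  have hTM' := (hT.of_le hTM le_top).subgroupOf le_rfl
  rw [subgroupOf_self] at hTM'
  have sq' : ∀ d ∈ D.subgroupOf M, d * d = 1 := fun d hd => Subtype.ext (sq d hd)
  obtain ⟨n, hn, ⟨C⟩⟩ := exists_coord (D.subgroupOf M) ⊥ (sup_le
    (commutator_le.mpr fun x hx y hy =>
      commutatorElement_eq_one_iff_mul_comm.mpr (comm_of_sq sq' hx hy))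
    (by rw [closure_le]; rintro _ ⟨x, hx, rfl⟩; rw [_root_.sq]; exact sq' x hx))
  rw [card_map_of_injective ((MonoidHom.ker_eq_bot_iff _).mp (QuotientGroup.ker_mk' _)),
    Nat.card_congr (subgroupOfEquivOfLe le_normalizer).toEquiv, c8] at hn
  obtain rfl : n = 3 := (Nat.pow_right_injective le_rfl hn.symm : n = 3)
  have hk : ∀ g, g ∈ C.ρ.ker ↔ g.1 ∈ centralizer (D : Set G) := fun g => by
    rw [C.mem_ker]
    simp only [mem_bot, commutatorElement_eq_one_iff_mul_comm]
    exact ⟨fun hg d hd => congrArg Subtype.val (hg ⟨d, le_normalizer hd⟩ hd),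
      fun hg q hq => Subtype.ext (hg q hq)⟩
  refine ⟨C.ρ, surj168 (by rw [card_sl_two]; decide) h2' C.ρ hTM' ?_ fun g hg => ?_, hk⟩
  · have c1 := H4.card_eq_card_map_mul C.ρ (T.subgroupOf M)
    have e : T.subgroupOf M ⊓ C.ρ.ker = (W.map T.subtype).subgroupOf M := by
      ext x; rw [← ci, mem_inf, hk]; rfl
    rw [e, Nat.card_congr (subgroupOfEquivOfLe hTM).toEquiv,
      Nat.card_congr (subgroupOfEquivOfLe ((map_subtype_le W).trans hTM)).toEquiv,
      card_map_of_injective T.subtype_injective, h.cards.1, h.cards.2.1] at c1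
    omega
  · obtain ⟨a, ha, b, hb, rfl, ⟨k, hk'⟩, hb'⟩ := H4.exists_pPart 2 g
    have ha' : a ∈ T.subgroupOf M := hTM'.le_of_le_normalizer' (H4.isPGroup_zpowers_of_pow hk') le_top
      (zpowers_le.mpr (zpowers_le.mpr hg ha)) (mem_zpowers a)
    have hbn : (b : G) ∈ normalizer (T : Set G) := H7.mem_normalizer_of_forall_conj_mem fun t ht =>
      H7.conj_mem_of_mem_normalizer (zpowers_le.mpr hg hb) (n := ⟨t, hTM ht⟩) ht
    have e := h.aut_eq_one (α := T.normalizerMonoidHom ⟨b, hbn⟩) (Nat.coprime_two_right.mp hb') (by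
      rw [← map_pow, show (⟨b, hbn⟩ : normalizer (T : Set G)) ^ orderOf b = 1 from
        Subtype.ext (congrArg (fun x : M => (x : G)) (pow_orderOf_eq_one b)), map_one])
    have hb1 : b ∈ C.ρ.ker := (hk b).mpr fun d hd => by
      have hdT : d ∈ T := by
        obtain ⟨m, hm, e⟩ := (hT.of_le hTM le_top).exists_conj_le (Q := D)
          (H4.isPGroup_iff_forall.mpr fun x hx => ⟨1, by rw [pow_one, _root_.sq, sq x hx]⟩)
          le_normalizer
        have := e ⟨m⁻¹ * d * m, H7.conj_mem_of_mem_normalizer' hm hd, rfl⟩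
        simpa [mul_assoc] using this
      exact (mul_inv_eq_iff_eq_mul.mp (congrArg (fun β : MulAut T => (β ⟨d, hdT⟩ : G)) e)).symm
    rw [map_mul, show C.ρ b = 1 from hb1, mul_one]
    exact mem_map_of_mem _ ha'

theorem sylW (h : Hyp W F) (hT : IsSylowOf 2 T ⊤) :
    IsSylowOf 2 (W.map T.subtype) (centralizer ((Z T 3).map T.subtype : Set G)) := by
  haveI := Fact.mk Nat.prime_two
  rw [← cen_inf h]
  exact hT.inf_of_le_normalizer le_top
    ((T_le_nor (Z T 3)).trans (H7.normalizer_le_normalizer_centralizer _))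

theorem cen_act (h : Hyp W F) (hT : IsSylowOf 2 T ⊤)
    (ρ : normalizer (W.map T.subtype : Set G) →* Matrix.SpecialLinearGroup (Fin 3) (ZMod 2))
    (hρ : Function.Surjective ρ)
    (hk : ∀ g, g ∈ ρ.ker ↔ g.1 ∈ centralizer ((Z T 3).map T.subtype : Set G)) {g w : G}
    (h1 : g ∈ normalizer (W.map T.subtype : Set G))
    (h2 : g ∈ centralizer ((Z T 3).map T.subtype : Set G)) (hw : w ∈ W.map T.subtype) :
    ⁅w, g⁆ ∈ (Z T 3).map T.subtype := by
  haveI := Fact.mk Nat.prime_two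
  haveI := h.Wn
  haveI := sl_two_simple (ι := Fin 3) (by simp)
  have hTN := T_le_nor W
  have hNM := nor_le h
  have ci := cen_inf h
  have hDW : (Z T 3).map T.subtype ≤ W.map T.subtype := map_mono h.cards.2.2.2
  have c8 : Nat.card ((Z T 3).map T.subtype) = 8 := by
    rw [card_map_of_injective T.subtype_injective, h.cardZ.2.2]
  have c11 : Nat.card (W.map T.subtype) = 2 ^ 11 := by
    rw [card_map_of_injective T.subtype_injective, h.cards.2.1]
  have sq : ∀ d ∈ W.map T.subtype, d * d ∈ (Z T 3).map T.subtype := by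
    rintro _ ⟨n, hn, rfl⟩; exact ⟨_, h.F_le (h.sq n hn), rfl⟩
  have cm : ∀ d ∈ W.map T.subtype, ∀ e ∈ W.map T.subtype, ⁅d, e⁆ ∈ (Z T 3).map T.subtype := by
    rintro _ ⟨n, hn, rfl⟩ _ ⟨m, hm, rfl⟩; exact ⟨_, h.F_le (h.cm n hn m hm), rfl⟩
  obtain ⟨s, hs, hs'⟩ := h.exists_z le_rfl
  have hsW : s ∈ W := h.dich' (N := W) le_rfl (fun hc => by
    have := card_le_of_le hc
    rw [h.cards.2.1, h.cardZ.2.2] at this; omega) hs
  have s0 : (s : G) ∈ W.map T.subtype := mem_map'.mpr hsW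
  have s1 : (s : G) ∉ (Z T 3).map T.subtype := fun hc => hs' (mem_map'.mp hc)
  have s2 : ∀ t ∈ T, ⁅(s : G), t⁆ ∈ (Z T 3).map T.subtype := fun t ht => ⟨_, hs ⟨t, ht⟩, rfl⟩
  have s3 : ∀ x ∈ W.map T.subtype, (∀ t ∈ T, ⁅x, t⁆ ∈ (Z T 3).map T.subtype) →
      x ∈ (Z T 3).map T.subtype ∨ x⁻¹ * s ∈ (Z T 3).map T.subtype := by
    rintro _ ⟨x, hx, rfl⟩ hx'
    by_cases e : x ∈ Z T 3
    · exact Or.inl (mem_map'.mpr e)
    · exact Or.inr ⟨_, h.two' le_rfl (inv_mem fun t => mem_map'.mp (hx' t t.2)) hs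
        (by rwa [inv_mem_iff]) hs', rfl⟩
  have hWT : W.map T.subtype ≤ T := map_subtype_le W
  generalize (Z T 3).map T.subtype = D at *
  generalize W.map T.subtype = U at *
  let N := normalizer (U : Set G)
  haveI : (D.subgroupOf N).Normal := (normal_subgroupOf_iff_le_normalizer
    (hDW.trans le_normalizer)).mpr hNM
  let π := QuotientGroup.mk' (D.subgroupOf N)
  have πs : Function.Surjective π := QuotientGroup.mk'_surjective _
  have π1 : ∀ x : N, π x = 1 ↔ x.1 ∈ D := fun x => QuotientGroup.eq_one_iff x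
  let V := (U.subgroupOf N).map π
  haveI : V.Normal := Normal.map inferInstance π πs
  have V2 : ∀ x ∈ V, x * x = 1 := by
    rintro _ ⟨x, hx, rfl⟩; rw [← map_mul, π1]; exact sq _ hx
  haveI : IsMulCommutative V := ⟨⟨fun x y => Subtype.ext (comm_of_sq V2 x.2 y.2)⟩⟩
  have cV : Nat.card V = 2 ^ 8 := by
    have c1 := H4.card_eq_card_map_mul π (U.subgroupOf N)
    rw [QuotientGroup.ker_mk', inf_of_le_right (subgroupOf_mono N hDW),
      Nat.card_congr (subgroupOfEquivOfLe le_normalizer).toEquiv,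
      Nat.card_congr (subgroupOfEquivOfLe (hDW.trans le_normalizer)).toEquiv, c8, c11] at c1
    change Nat.card ((U.subgroupOf N).map π) = _
    omega
  have hTN' := (hT.of_le hTN le_top).subgroupOf le_rfl
  rw [subgroupOf_self] at hTN'
  let a : N →* MulAut V := MulAut.conjNormal.comp π
  have ha : ∀ (g x : N) (hx : x.1 ∈ U), a g ⟨π x, mem_map_of_mem π hx⟩ = ⟨π x, mem_map_of_mem π hx⟩ ↔
      ⁅x.1, g.1⁆ ∈ D := fun g x hx => by
    rw [Subtype.ext_iff]
    show π g * π x * (π g)⁻¹ = π x ↔ _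
    rw [mul_inv_eq_iff_eq_mul, eq_comm, ← commutatorElement_eq_one_iff_mul_comm,
      ← map_commutatorElement, π1]
    rfl
  have key := faith' (by rw [card_sl_two]; decide) (fun v : V => Subtype.ext (by
      rw [_root_.sq]; exact V2 v v.2)) cV a ρ hρ hTN' (fun t ht => by
      have h1 : t.1 ∈ U := ci ▸ ⟨ht.1, (hk t).mp ht.2⟩
      ext ⟨_, x, hx, rfl⟩
      exact congrArg Subtype.val ((ha t x hx).mpr (cm _ hx _ h1)))
    (s := ⟨π ⟨s, le_normalizer s0⟩, mem_map_of_mem π s0⟩)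
    (fun e => s1 ((π1 _).mp (congrArg Subtype.val e))) (fun t ht => (ha t _ s0).mpr (s2 t ht)) (by
      rintro ⟨_, x, hx, rfl⟩ hv
      rcases s3 x hx (fun t ht => (ha ⟨t, hTN ht⟩ x hx).mp (hv _ ht)) with e | e
      · exact Or.inl (Subtype.ext ((π1 x).mpr e))
      · exact Or.inr (Subtype.ext (QuotientGroup.eq.mpr e)))
  have := key ((hk ⟨g, h1⟩).mpr h2)
  exact (ha ⟨g, h1⟩ ⟨w, le_normalizer hw⟩ hw).mp (by rw [show a ⟨g, h1⟩ = 1 from this]; rfl)

theorem main (h : Hyp W F) (hT : IsSylowOf 2 T ⊤) (h2 : ∀ H : Subgroup G, H.index ≠ 2)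
    {U D N M : Subgroup G} (hU : U = W.map T.subtype) (hD : D = (Z T 3).map T.subtype)
    (hN : N = normalizer (U : Set G)) (hM : M = normalizer (D : Set G)) :
    (N.subgroupOf M ⊔ oddCore M = ⊤) ∧ ∃ (_ : (U.subgroupOf N ⊔ oddCore N).Normal),
        Nonempty (N ⧸ (U.subgroupOf N ⊔ oddCore N) ≃* GL (Fin 3) (ZMod 2)) := by
  haveI := Fact.mk Nat.prime_two
  haveI := sl_two_simple (ι := Fin 3) (by simp)
  subst hN hM
  obtain ⟨ρ, hρ, hk⟩ := exists_rho h hT h2
  have hNM := nor_le h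
  have hS := sylW h hT
  have ca := fun a b c => @cen_act G _ _ T W F h hT a b c
  have hDU : (Z T 3).map T.subtype ≤ W.map T.subtype := map_mono h.cards.2.2.2
  rw [← hU] at hNM hS hDU
  rw [← hD] at hNM hS hDU
  subst hU hD
  generalize (Z T 3).map T.subtype = D at *
  generalize W.map T.subtype = U at *
  let N := normalizer (U : Set G)
  let M := normalizer (D : Set G)
  let C := centralizer (D : Set G)
  have hCM : C ≤ M := centralizer_le_normalizer _
  have hMC : M ≤ normalizer (C : Set G) := H7.normalizer_le_normalizer_centralizer D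
  let ρ' := ρ.comp (inclusion hNM)
  have hk' : ∀ g, g ∈ ρ'.ker ↔ g.1 ∈ C := fun g => hk (inclusion hNM g)
  have hρ' : Function.Surjective ρ' := fun x => by
    obtain ⟨g, rfl⟩ := hρ x
    obtain ⟨n, hn, hg⟩ := hS.frattini (hMC g.2)
    refine ⟨⟨_, hg⟩, ?_⟩
    show ρ ((⟨n, hCM hn⟩ : M)⁻¹ * g) = ρ g
    rw [map_mul, map_inv, show ρ ⟨n, hCM hn⟩ = 1 from (hk _).mpr hn, inv_one, one_mul]
  have hS' := hS.subgroupOf le_rfl
  rw [subgroupOf_self] at hS'
  have h3 := npc_central (D := D.subgroupOf C)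
    (fun d hd => mem_center_iff.mpr fun g => Subtype.ext (g.2 d hd).symm) (subgroupOf_mono C hDU) hS'
    fun g hg w hw => ca ρ' hρ' hk' (H7.mem_normalizer_of_forall_conj_mem fun u hu =>
      H7.conj_mem_of_mem_normalizer hg (n := ⟨u, hS.le hu⟩) hu) g.2 hw
  have h4 : ∀ c ∈ C, ∃ o ∈ H4.pPrimeCoreIn 2 C, ∃ u ∈ U, o * u = c := fun c hc => by
    obtain ⟨o, ho, u, hu, e⟩ := (H7.mem_sup_of_le_normalizer_left (by
      rw [normalizer_eq_top]; exact le_top)).mp (h3 ▸ mem_top (⟨c, hc⟩ : C))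
    exact ⟨o, mem_map_of_mem _ ho, u, hu, congrArg Subtype.val e⟩
  have hO : M ≤ normalizer (H4.pPrimeCoreIn 2 C : Set G) :=
    hMC.trans (H4.normalizer_le_normalizer_pPrimeCoreIn 2 C)
  have oc := H4.coprime_card_pPrimeCoreIn 2 C
  have mo : ∀ (H : Subgroup G) (x : H), x.1 ∈ H4.pPrimeCoreIn 2 H → x ∈ oddCore H := fun H x hx =>
    (mem_map_iff_mem H.subtype_injective).mp hx
  have hker : ρ'.ker = U.subgroupOf N ⊔ oddCore N := by
    refine le_antisymm (fun g hg => ?_) (sup_le (fun u hu => (hk' u).mpr (hS.le hu)) ?_)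
    · obtain ⟨o, ho, u, hu, e⟩ := h4 g ((hk' g).mp hg)
      have hoN : o ∈ N := (mul_mem_cancel_right (le_normalizer hu)).mp (e ▸ g.2)
      rw [show g = ⟨o, hoN⟩ * ⟨u, le_normalizer hu⟩ from Subtype.ext e.symm]
      refine mul_mem (mem_sup_right (mo N _ ?_)) (mem_sup_left hu)
      exact H4.le_pPrimeCoreIn (N := H4.pPrimeCoreIn 2 C ⊓ N) inf_le_right
        (H7.le_normalizer_inf (hNM.trans hO) le_normalizer)
        (H4.coprime_card_of_le inf_le_left oc) ⟨ho, hoN⟩
    · rw [← Subgroup.map_eq_bot_iff]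
      refine (Normal.map inferInstance ρ' hρ').eq_bot_or_eq_top.resolve_right fun e => ?_
      have := H4.coprime_card_map (H4.coprime_card_pPrimeCore 2 N) ρ'
      rw [e, card_top, card_sl_two] at this
      revert this; decide
  refine ⟨eq_top_iff.mpr fun g _ => ?_, hker ▸ inferInstance, ?_⟩
  · obtain ⟨n, hn, hg⟩ := hS.frattini (hMC g.2)
    obtain ⟨o, ho, u, hu, rfl⟩ := h4 n hn
    have ho' := H4.le_pPrimeCoreIn ((H4.pPrimeCoreIn_le 2 C).trans hCM) hO oc ho
    have hoM := H4.pPrimeCoreIn_le 2 M ho'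
    rw [show g = ⟨o, hoM⟩ * (⟨o, hoM⟩⁻¹ * g) by group]
    refine mul_mem (mem_sup_right (mo M _ ho')) (mem_sup_left ?_)
    have : (o⁻¹ * g : G) = u * ((o * u)⁻¹ * g) := by group
    show (o⁻¹ * g : G) ∈ N
    rw [this]
    exact mul_mem (le_normalizer hu) hg
  · exact ⟨((QuotientGroup.quotientMulEquivOfEq hker.symm).trans
      (QuotientGroup.quotientKerEquivOfSurjective ρ' hρ')).trans glToSL.symm⟩

end H8.Ru
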