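import Cfsg.Agent.H8.Smith1

/-! No cyclic quotient of order four for the centraliser of the centre of a large extraspecial
subgroup. -/

set_option autoImplicit false
set_option linter.unusedSectionVars false

namespace H8
open Subgroup H9 Cfsg H7 H4
open scoped commutatorElement

variable {G : Type*} [Group G] [Finite G] {E : Subgroup G} {z : G}

theorem es_str (h : ES E z) {w y : G} (w2 : w * w = 1) (wN : w ∈ normalizer (E : Set G))
    (wz : w * z = z * w) (wC : w ∉ centralizer (E : Set G))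
    (hA : ∀ a ∈ E, ∀ b ∈ E, a * w = w * a → b * w = w * b → a * b = b * a) (y1 : y ∈ E)
    (y2 : y * w = w * y) (y3 : y * y = z) :
    (∀ c ∈ E, (∀ a ∈ E, a * w = w * a → a * c = c * a) → c * w = w * c) ∧
    ∃ e ∈ E, e * w ≠ w * e ∧ ∀ a ∈ E, a * w = w * a → a * a = 1 →
      a * e = e * a ∧ ∃ q ∈ E, q * w * q⁻¹ = w * a := by
  have iw : w⁻¹ = w := inv_eq_of_mul_eq_one_right w2
  set Q := esW h w wz
  have mQ : ∀ q, q ∈ Q ↔ q ∈ E ∧ (w * q * w⁻¹ = q ∨ w * q * w⁻¹ = z * q) := fun q => mem_esW h wz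
  have mQ' : ∀ q, q ∈ Q ↔ q ∈ E ∧ ⁅w, q⁆ ∈ zpowers z := fun q => by
    rw [mQ, h.mem_zpowers_iff, commutatorElement_def, mul_inv_eq_one,
      mul_inv_eq_iff_eq_mul (b := q)]
  have hU := h.closure_commutators w2 wN wz wC mQ'
  have hc : ∀ q ∈ E, ⁅w, q⁆ ∈ E := fun q hq => mul_mem (H6.conj_mem wN hq) (inv_mem hq)
  have U1 : ∀ u ∈ Q ⊓ centralizer (Q : Set G), ∃ q ∈ E, ∃ c ∈ zpowers z, u = c * ⁅w, q⁆ := by
    intro u hu
    rw [← hU] at hu
    induction hu using closure_induction with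
    | mem x hx => obtain ⟨q, hq, rfl⟩ := hx; exact ⟨q, hq, 1, one_mem _, by simp⟩
    | one => exact ⟨1, one_mem _, 1, one_mem _, by simp⟩
    | mul a b _ _ ha hb =>
      obtain ⟨q, hq, c, hc1, rfl⟩ := ha
      obtain ⟨r, hr, d, hd, rfl⟩ := hb
      have k := h.mem_zpowers_iff.2 (h.comm (hc r hr) hq)
      refine ⟨q * r, mul_mem hq hr, c * d * ⁅⁅w, r⁆, q⁆, mul_mem (mul_mem hc1 hd) k, ?_⟩
      have e : ⁅w, q * r⁆ = ⁅w, q⁆ * (⁅⁅w, r⁆, q⁆⁻¹ * ⁅w, r⁆) := by
        simp only [commutatorElement_def]; group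
      rw [e, ← mul_assoc ⁅w, q⁆, h.comm_aux (hc q hq) (inv_mem k), mul_assoc c, ← mul_assoc _ d,
        h.comm_aux (hc q hq) hd]
      group
    | inv a _ ha =>
      obtain ⟨q, hq, c, hc1, rfl⟩ := ha
      refine ⟨w * q * w⁻¹, H6.conj_mem wN hq, c⁻¹, inv_mem hc1, ?_⟩
      rw [mul_inv_rev, h.comm_aux (inv_mem (hc q hq)) (inv_mem hc1), mul_right_inj,
        commutatorElement_def, commutatorElement_def, iw]
      calc _ = q * (w⁻¹ * q⁻¹ * w⁻¹) := by group
        _ = q * (w * q⁻¹ * w) := by rw [iw]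
        _ = (w * w) * q * (w * w) * (w * q⁻¹ * w) := by rw [w2, one_mul, mul_one]
        _ = _ := by rw [mul_inv_rev, mul_inv_rev, iw]; group
  have U2 : ∀ u ∈ Q ⊓ centralizer (Q : Set G), u * w = w * u → u * u = 1 := fun u hu e => by
    obtain ⟨q, hq, c, hc1, rfl⟩ := U1 u hu
    have cw : c * w = w * c := by
      rcases h.mem_zpowers_iff.1 hc1 with rfl | rfl
      · simp
      · exact wz.symm
    have c2 : c * c = 1 := by
      rcases h.mem_zpowers_iff.1 hc1 with rfl | rfl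
      · simp
      · exact h.sq_z
    rw [← mul_assoc, ← cw, mul_assoc, mul_assoc, mul_right_inj] at e
    have := conj_commutator_of_sq (r := q) w2
    rw [← e, mul_inv_cancel_right] at this
    rw [sq_mul_comm (h.comm_aux (hc q hq) hc1).symm, c2, one_mul]
    nth_rewrite 1 [this]
    exact inv_mul_cancel _
  have AQ : ∀ a ∈ E, a * w = w * a → a ∈ Q := fun a ha e =>
    (mQ a).2 ⟨ha, Or.inl (by rw [← e, mul_inv_cancel_right])⟩
  have nA : ∀ e ∈ Q, e * w ≠ w * e → w * e * w⁻¹ = z * e := fun e he c =>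
    ((mQ e).1 he).2.resolve_left fun d => c (mul_inv_eq_iff_eq_mul.1 d).symm
  have cen : ∀ e ∈ Q, e * w ≠ w * e → ∀ a ∈ E, a * w = w * a → a * e = e * a →
      a ∈ Q ⊓ centralizer (Q : Set G) := fun e he c a ha aw ae => ⟨AQ a ha aw, fun q hq => by
    by_cases d : q * w = w * q
    · exact hA q hq.1 a ha d aw
    · have h1 : (q * e) * w = w * (q * e) := by
        rw [eq_comm, ← mul_inv_eq_iff_eq_mul, ← conj_mul, nA e he c, nA q hq d, ← h.cent q hq.1,
          mul_assoc, ← mul_assoc z, h.sq_z, one_mul]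
      have h2 := hA _ (mul_mem hq.1 he.1) a ha h1 aw
      rw [mul_assoc, ← ae, ← mul_assoc, ← mul_assoc] at h2
      exact mul_right_cancel h2⟩
  have ny : y ∉ Q ⊓ centralizer (Q : Set G) := fun c => h.ne (y3 ▸ U2 y c y2)
  have key : ∀ e ∈ Q, y * e = e * y → e * w = w * e := fun e he c => by
    by_contra d; exact ny (cen e he d y y1 y2 c)
  refine ⟨fun c hc1 hc2 => key c ((mQ' c).2 ⟨hc1, h.mem_zpowers_iff.2 (h.center _ (hc c hc1)
    fun r hr => ?_)⟩) (hc2 y y1 y2), ?_⟩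
  · rw [eq_comm, ← commutatorElement_eq_one_iff_mul_comm, h.adj wN wz hc1 hr, iw,
      commutatorElement_eq_one_iff_mul_comm]
    have : ⁅w, r⁆ ∈ Q ⊓ centralizer (Q : Set G) := hU ▸ subset_closure ⟨r, hr, rfl⟩
    exact (hc2 _ (hc r hr) (key _ this.1 (this.2 y (AQ y y1 y2)))).symm
  obtain ⟨e, he, ey⟩ : ∃ e ∈ Q, e * y ≠ y * e := by
    by_contra c
    push Not at c
    exact ny ⟨AQ y y1 y2, c⟩
  have ew : e * w ≠ w * e := fun c => ey (hA e he.1 y y1 c y2)
  refine ⟨e, he.1, ew, fun a ha aw a2 => ?_⟩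
  have ae : a * e = e * a := by
    by_contra c
    have h1 : (a * y) * w = w * (a * y) := by rw [mul_assoc, y2, ← mul_assoc, aw, mul_assoc]
    have h2 : (a * y) * e = e * (a * y) := by
      rw [eq_comm, ← mul_inv_eq_iff_eq_mul, ← conj_mul, h.conj_eq he.1 ha (Ne.symm c),
        h.conj_eq he.1 y1 ey, ← h.cent a ha, mul_assoc, ← mul_assoc z, h.sq_z, one_mul]
    have := U2 _ (cen e he ew _ (mul_mem ha y1) h1 h2) h1
    rw [sq_mul_comm (hA a ha y y1 aw y2), a2, y3, one_mul] at this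
    exact h.ne this
  refine ⟨ae, ?_⟩
  obtain ⟨q, hq, c, hc1, rfl⟩ := U1 a (cen e he ew a ha aw ae)
  have e1 : w * ⁅w, q⁆ = q * w * q⁻¹ := by
    rw [commutatorElement_def, iw, ← mul_assoc, ← mul_assoc, ← mul_assoc, w2, one_mul]
  rcases h.mem_zpowers_iff.1 hc1 with rfl | rfl
  · exact ⟨q, hq, by rw [one_mul, e1]⟩
  · refine ⟨q * e, mul_mem hq he.1, ?_⟩
    have e2 : e * w * e⁻¹ = c * w := by
      have := nA e he ew
      rw [mul_inv_eq_iff_eq_mul] at this
      rw [mul_inv_eq_iff_eq_mul, mul_assoc c, this, ← mul_assoc, ← mul_assoc, h.sq_z, one_mul]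
    calc _ = q * (e * w * e⁻¹) * q⁻¹ := by group
      _ = c * (q * w * q⁻¹) := by rw [e2, ← mul_assoc, h.cent q hq]; group
      _ = _ := by rw [← e1, ← mul_assoc, ← wz, mul_assoc]

theorem es_no_four (hG : ∀ (f : G →* ℤˣ) (g : G), f g = 1) (h : ES E z)
    (hN : Cen z ≤ normalizer (E : Set G)) (hC : centralizer (E : Set G) ≤ E) {M K : Subgroup G}
    (hM : M.relIndex (Cen z) = 2) (hK1 : ∀ a ∈ Cen z, ∀ b ∈ Cen z, ⁅a, b⁆ ∈ K)
    (hK2 : ∀ x ∈ Cen z, x ∉ M → x * x ∉ K) : False := by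
  have : Fact (Nat.Prime 2) := ⟨Nat.prime_two⟩
  obtain ⟨P, g, x, p1, zP, p2, g1, g2, bad, x1, x2, x3, mx⟩ := es_alperin hG h hN hC hM
  have h' := h.conj g
  set w := g * z * g⁻¹ with hw
  set F := conjS g E with hF
  have EH : E ≤ Cen z := fun q hq => mem_Cen.2 (h.cent q hq).symm
  have cw : conjS g (Cen z) = Cen w := conjS_centralizer_singleton g z
  have hN' : Cen w ≤ normalizer (F : Set G) := by
    rw [← cw, ← conjS_normalizer]; exact conjS_mono g hN
  have hC' : centralizer (F : Set G) ≤ F := by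
    rw [← conjS_centralizer]; exact conjS_mono g hC
  have p3 : P ≤ Cen w := fun t ht => by
    rw [← cw]; exact mem_conjS.2 (p2 ((mem_normalizer_iff''.1 g1 t).1 ht))
  have wP : w ∈ P := (mem_normalizer_iff.1 g1 z).1 zP
  have wz : w * z = z * w := (mem_Cen.1 (p2 wP)).symm
  have gw : g * w * g⁻¹ = z := by
    have := mem_Cen'.1 (p2 g2)
    rw [← this, hw]; group
  have gF : conjS g F = E := by
    rw [hF, conjS_conjS]
    ext t
    rw [mem_conjS]
    exact (mem_normalizer_iff''.1 (hN (p2 g2)) t).symm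
  have xx : x * x = w := (h'.sq x x2).resolve_left fun c => hK2 x (p2 x1) x3 (c ▸ one_mem _)
  have wK : w ∉ K := xx ▸ hK2 x (p2 x1) x3
  have xz : x * z = z * x := (mem_Cen.1 (p2 x1)).symm
  have hB : ∀ a ∈ F, ∀ b ∈ F, a * z = z * a → b * z = z * b → a * b = b * a := by
    intro a ha b hb az bz
    rcases h'.comm ha hb with c | c
    · exact commutatorElement_eq_one_iff_mul_comm.1 c
    · exact absurd (c ▸ hK1 a (mem_Cen.2 az.symm) b (mem_Cen.2 bz.symm)) wK
  have hwz : w ≠ z := fun c => bad fun t ht => by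
    rw [conjS_one, mem_conjS, conj_mem_iff_of_relIndex_two hM (mem_Cen'.2 c) (p2 ht)]
  have zF : z ∉ F := fun c => by
    have l : ∀ m ∈ closure ({z, w} : Set G), m * m = 1 := fun m hm => by
      have : closure ({z, w} : Set G) ≤ zpowers z ⊔ zpowers w := by
        rw [closure_le]; rintro _ (rfl | rfl)
        exacts [mem_sup_left (mem_zpowers _), mem_sup_right (mem_zpowers _)]
      obtain ⟨a, ha, b, hb, rfl⟩ := (H5.mem_sup_left_iff (zpowers_le.2 (mem_Nor.2
        (by rw [wz]; simp)))).1 (this hm)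
      rcases h.mem_zpowers_iff.1 ha with rfl | rfl <;>
        rcases h'.mem_zpowers_iff.1 hb with rfl | rfl
      · simp
      · simpa using h'.sq_z
      · simpa using h.sq_z
      · rw [sq_mul_comm wz.symm, h.sq_z, h'.sq_z, mul_one]
    obtain ⟨u, u1, u2, u3⟩ := h'.exists_not_commute (M := closure {z, w})
      (subset_closure (by simp)) x2 fun d => h'.ne (xx ▸ l x d)
    exact u3 (hB u u1 x x2 (u2 z (subset_closure (by simp)) c).symm xz)
  have wE : w ∉ E := fun c => zF (gw ▸ conj_mem_conjS c)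
  have tr : ∀ a ∈ E, a * w = w * a → g⁻¹ * a * g ∈ F ∧ g⁻¹ * a * g * z = z * (g⁻¹ * a * g) :=
    fun a ha e => ⟨mem_conjS.1 (gF ▸ ha), by
      calc _ = g⁻¹ * (a * (g * z * g⁻¹)) * g := by group
        _ = _ := by rw [e, hw]; group⟩
  have hA : ∀ a ∈ E, ∀ b ∈ E, a * w = w * a → b * w = w * b → a * b = b * a := by
    intro a ha b hb aw bw
    have := hB _ (tr a ha aw).1 _ (tr b hb bw).1 (tr a ha aw).2 (tr b hb bw).2
    calc a * b = g * (g⁻¹ * a * g * (g⁻¹ * b * g)) * g⁻¹ := by group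
      _ = _ := by rw [this]; group
  obtain ⟨s1, e, e1, e2, e3⟩ := es_str h h'.sq_z (hN (p2 wP)) wz (fun c => wE (hC c)) hA
    (y := g * x * g⁻¹) (gF ▸ conj_mem_conjS x2) (by rw [hw, conj_mul, conj_mul, xz])
    (by rw [conj_mul, xx, gw])
  obtain ⟨-, f, f1, f2, f3⟩ := es_str h' h.sq_z (hN' (p3 zP)) wz.symm (fun c => zF (hC' c)) hB
    x2 xz xx
  have hD : E ⊓ F = ⊥ := by
    by_contra hD
    obtain ⟨d, d1, d2, d3, d4⟩ := exists_fixed_order_p (h.isPGroup.to_le inf_le_left) p1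
      (H7.le_normalizer_inf (p2.trans hN) (p3.trans hN')) hD
    rw [sq] at d3
    obtain ⟨a1, -⟩ := e3 d d1.1 (h'.cent d d1.2) d3
    obtain ⟨b1, q, -, b2⟩ := f3 d d1.2 (h.cent d d1.1) d3
    obtain ⟨r, -, b3⟩ := h.exists_conj d1.1 d3 d2 fun c => zF (c ▸ d1.2)
    have b4 : (r⁻¹ * q) * z * (r⁻¹ * q)⁻¹ = d := by
      calc _ = r⁻¹ * (q * z * q⁻¹) * r := by group
        _ = _ := by rw [b2, ← b3]; group
    have cd : conjS (r⁻¹ * q) (Cen z) = Cen d := by
      rw [← b4]; exact conjS_centralizer_singleton _ _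
    have Pd : P ≤ Cen d := fun t ht => mem_Cen.2 (d4 t (mem_sup_right ht)).symm
    have q1 : IsPGroup 2 ↥(P ⊔ zpowers e) := (p1.to_sup_of_normal_right' h.isPGroup
      (p2.trans hN)).to_le (sup_le_sup_left (zpowers_le.2 e1) _)
    have q2 : IsPGroup 2 ↥(P ⊔ zpowers f) := (p1.to_sup_of_normal_right' h'.isPGroup
      (p3.trans hN')).to_le (sup_le_sup_left (zpowers_le.2 f1) _)
    have c1 := mx.agree q1 le_sup_left (mem_sup_right (mem_zpowers e))
      (fun c => e2 (mem_Cen.1 (p3 c)).symm) (g₁ := 1) (g₂ := r⁻¹ * q)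
      (by rw [conjS_one]; exact sup_le p2 (zpowers_le.2 (EH e1)))
      (by rw [cd]; exact sup_le Pd (zpowers_le.2 (mem_Cen.2 a1)))
    have c2 := mx.agree q2 le_sup_left (mem_sup_right (mem_zpowers f))
      (fun c => f2 (mem_Cen.1 (p2 c)).symm) (g₁ := r⁻¹ * q) (g₂ := g)
      (by rw [cd]; exact sup_le Pd (zpowers_le.2 (mem_Cen.2 b1)))
      (by rw [cw]; exact sup_le p3 (zpowers_le.2 (mem_Cen.2 (h'.cent f f1).symm)))
    exact bad fun t ht => (c1 t ht).trans (c2 t ht)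
  have xN := hN (p2 x1)
  have ax : ∀ a ∈ E, a * w = w * a → ⁅x⁻¹, a⁆ = 1 := fun a ha aw => by
    refine mem_bot.1 (hD ▸ (mem_inf.2 ⟨mul_mem (H6.conj_mem (inv_mem xN) ha) (inv_mem ha), ?_⟩ :
      ⁅x⁻¹, a⁆ ∈ E ⊓ F))
    rw [commutatorElement_def, mul_assoc, mul_assoc, ← mul_assoc a]
    exact mul_mem (inv_mem x2) (H6.conj_mem (hN' (mem_Cen.2 aw.symm)) (inv_mem (inv_mem x2)))
  have fin : ∀ q ∈ E, q * w * q⁻¹ = w ∨ q * w * q⁻¹ = z * w := fun q hq => by
    have c0 : ⁅x, q⁆ ∈ E := mul_mem (H6.conj_mem xN hq) (inv_mem hq)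
    have c1 := s1 _ c0 fun a ha aw => by
      rw [eq_comm, ← commutatorElement_eq_one_iff_mul_comm, h.adj xN xz hq ha, ax a ha aw,
        commutatorElement_one_right]
    have c2 : x⁻¹ * ⁅x, q⁆ = ⁅x, q⁆ * x⁻¹ := commutatorElement_eq_one_iff_mul_comm.1 (ax _ c0 c1)
    have c3 : ⁅w, q⁆ = ⁅x, q⁆ * ⁅x, q⁆ := by
      calc _ = x * (⁅x, q⁆ * x⁻¹) * ⁅x, q⁆ := by
            rw [← xx]; simp only [commutatorElement_def]; group
        _ = _ := by rw [← c2]; group
    have c4 : q * w * q⁻¹ = ⁅w, q⁆⁻¹ * w := by rw [commutatorElement_def]; group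
    rw [c4, c3]
    rcases h.sq _ c0 with c | c <;> rw [c]
    · left; simp
    · right; rw [h.inv_z]
  have r1 := relIndex_Cen_le E w (fun u => u = w ∨ u = z * w) fin
  rw [card_subtype_or _ _ (fun a c d => h.ne (by rw [c] at d; simpa using d)),
    card_subtype_eq_one, card_subtype_eq_one] at r1
  obtain ⟨u, u1, u2⟩ := h.exists_inner h'.sq_z (hN (p2 wP)) (by rwa [inf_relIndex_right])
  apply wE
  rw [← mul_mem_cancel_left (inv_mem u1)]
  refine hC fun q hq => ?_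
  calc _ = u⁻¹ * (u * q * u⁻¹) * w := by group
    _ = _ := by rw [u2 q hq]; group

end H8
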