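import Mathlib
import Cfsg.Agent.H8.FusGraph

/-! Products of involutions of odd order in symmetric groups. -/

set_option autoImplicit false
set_option linter.unusedVariables false
set_option linter.style.haveILetI false
set_option linter.unusedSectionVars false
set_option linter.unusedSimpArgs false

namespace H8.SymG

open Equiv Equiv.Perm Function

variable {α : Type*} [Fintype α] [DecidableEq α]

/-- the point lies on a cycle of odd length -/
def Good (π : Perm α) (p : α) : Prop := ∃ k, Odd k ∧ (π ^ k) p = p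

/-- cycle length -/
noncomputable def per (π : Perm α) (p : α) : ℕ := minimalPeriod π p

theorem per_pos (π : Perm α) (p : α) : 0 < per π p :=
  minimalPeriod_pos_of_mem_periodicPts (π.injective.mem_periodicPts p)

theorem pow_per (π : Perm α) (p : α) : (π ^ per π p) p = p := by
  rw [Perm.coe_pow]; exact iterate_minimalPeriod

theorem per_dvd {π : Perm α} {p : α} {k : ℕ} (h : (π ^ k) p = p) : per π p ∣ k := by
  rw [Perm.coe_pow] at h; exact IsPeriodicPt.minimalPeriod_dvd h

theorem pow_inj {π : Perm α} {p : α} {i j : ℕ} (hi : i < per π p) (hj : j < per π p)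
    (h : (π ^ i) p = (π ^ j) p) : i = j := by
  rw [Perm.coe_pow, Perm.coe_pow] at h
  exact iterate_injOn_Iio_minimalPeriod hi hj h

theorem good_iff {π : Perm α} {p : α} : Good π p ↔ Odd (per π p) :=
  ⟨fun ⟨k, hk, h⟩ => hk.of_dvd_nat (per_dvd h), fun h => ⟨_, h, pow_per π p⟩⟩

theorem bad_even {π : Perm α} {p : α} (h : ¬ Good π p) : per π p % 2 = 0 := by
  rw [good_iff, Nat.odd_iff] at h; omega

theorem pow_add' (π : Perm α) (i j : ℕ) (p : α) : (π ^ (i + j)) p = (π ^ i) ((π ^ j) p) := by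
  rw [pow_add]; rfl

theorem good_pow {π : Perm α} {p : α} (k : ℕ) : Good π ((π ^ k) p) ↔ Good π p := by
  constructor
  · rintro ⟨m, hm, h⟩
    refine ⟨m, hm, (π ^ k).injective ?_⟩
    rw [← pow_add', add_comm, pow_add', h]
  · rintro ⟨m, hm, h⟩
    refine ⟨m, hm, ?_⟩
    rw [← pow_add', add_comm, pow_add', h]

theorem good_app {π : Perm α} {p : α} : Good π (π p) ↔ Good π p := by
  simpa using good_pow (π := π) (p := p) 1

theorem good_inv {π : Perm α} {p : α} (h : Good π p) : Good π⁻¹ p := by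
  obtain ⟨m, hm, h⟩ := h
  refine ⟨m, hm, ?_⟩
  rw [inv_pow, Perm.inv_eq_iff_eq, h]

theorem exists_odd (π : Perm α) : ∃ N, Odd N ∧ ∀ p, Good π p → (π ^ N) p = p := by
  classical
  refine ⟨∏ p ∈ Finset.univ.filter (Good π), per π p, ?_, fun p hp => ?_⟩
  · exact Finset.prod_induction _ Odd (fun a b => Odd.mul) odd_one fun p hp =>
      good_iff.mp (Finset.mem_filter.mp hp).2
  · obtain ⟨c, hc⟩ := Finset.dvd_prod_of_mem (fun p => per π p)
      (Finset.mem_filter.mpr ⟨Finset.mem_univ p, hp⟩)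
    rw [hc, pow_mul]
    exact pow_apply_eq_self_of_apply_eq_self (pow_per π p) c

theorem odd_order {π : Perm α} (h : ∀ p, Good π p) : Odd (orderOf π) := by
  obtain ⟨N, hN, h1⟩ := exists_odd π
  exact hN.of_dvd_nat (orderOf_dvd_of_pow_eq_one (Perm.ext fun p => h1 p (h p)))

theorem good_of_odd {π : Perm α} (h : Odd (orderOf π)) (p : α) : Good π p :=
  ⟨_, h, by rw [pow_orderOf_eq_one]; rfl⟩

theorem walk {π π' : Perm α} {S : Set α} (hag : ∀ p ∉ S, π' p = π p) {p : α} (k : ℕ)
    (h : ∀ i < k, (π ^ i) p ∉ S) : (π' ^ k) p = (π ^ k) p := by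
  induction k with
  | zero => rfl
  | succ k ih =>
    rw [pow_succ', pow_succ', Perm.mul_apply, Perm.mul_apply, ih fun i hi => h i (by omega),
      hag _ (h k (by omega))]

theorem transfer {π π' : Perm α} {S : Set α} (hag : ∀ p ∉ S, π' p = π p)
    (hS : ∀ p ∈ S, Good π' p) {p : α} (h : Good π p ∨ ∃ k, (π ^ k) p ∈ S) : Good π' p := by
  classical
  by_cases h1 : ∃ k, (π ^ k) p ∈ S
  · rw [← good_pow (Nat.find h1), walk hag _ fun i hi => Nat.find_min h1 hi]
    exact hS _ (Nat.find_spec h1)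
  · obtain ⟨k, hk, e⟩ := h.resolve_right h1
    exact ⟨k, hk, by rw [walk hag _ fun i _ hc => h1 ⟨i, hc⟩, e]⟩

theorem seg {π π' : Perm α} {S : Set α} (hag : ∀ p ∉ S, π' p = π p) {o s : α} {i k : ℕ}
    (hik : i < k) (hS : ∀ m, i < m → m < k → (π ^ m) o ∉ S) (hs : π' s = π ((π ^ i) o)) :
    (π' ^ (k - i)) s = (π ^ k) o := by
  obtain ⟨d, rfl⟩ := Nat.exists_eq_add_of_lt hik
  have e : π ((π ^ i) o) = (π ^ (i + 1)) o := by rw [pow_succ']; rfl
  rw [show i + d + 1 - i = d + 1 by omega, pow_succ, Perm.mul_apply, hs, e, walk hag d, ← pow_add',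
    show d + (i + 1) = i + d + 1 by omega]
  intro m hm
  rw [← pow_add']
  exact hS _ (by omega) (by omega)

section inv
variable {y z : Perm α} (hy : y * y = 1) (hz : z * z = 1)
include hy hz

theorem z_pow (k : ℕ) (p : α) : z (((y * z) ^ k) p) = ((y * z)⁻¹ ^ k) (z p) := by
  have hyi : y⁻¹ = y := inv_eq_of_mul_eq_one_right hy
  have hzi : z⁻¹ = z := inv_eq_of_mul_eq_one_right hz
  have : z * (y * z) * z⁻¹ = (y * z)⁻¹ := by rw [mul_inv_rev, hyi, hzi, mul_assoc, mul_assoc, hz]; simp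
  rw [← this, conj_pow, hzi, Perm.mul_apply, Perm.mul_apply, ← Perm.mul_apply z z, hz]; rfl

theorem good_z {p : α} : Good (y * z) (z p) ↔ Good (y * z) p := by
  have key : ∀ q, Good (y * z) q → Good (y * z) (z q) := fun q ⟨k, hk, e⟩ => by
    have := good_inv (π := (y * z)⁻¹) (p := z q) ⟨k, hk, by rw [← z_pow hy hz, e]⟩
    rwa [inv_inv] at this
  refine ⟨fun h => ?_, key p⟩
  have := key _ h
  rwa [← Perm.mul_apply, hz] at this

theorem fix_le [DecidablePred (Good (y * z))] :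
    (Finset.univ.filter fun p => y p = p ∧ Good (y * z) p).card ≤
      (Finset.univ.filter fun p => z p = p ∧ Good (y * z) p).card := by
  obtain ⟨N, ⟨j, rfl⟩, h1⟩ := exists_odd (y * z)
  refine Finset.card_le_card_of_injOn ((y * z) ^ j : Perm α) (fun p hp => ?_)
    (((y * z) ^ j).injective.injOn)
  simp only [Finset.coe_filter, Finset.mem_univ, true_and, Set.mem_ofPred_eq] at hp ⊢
  refine ⟨?_, (good_pow j).mpr hp.2⟩
  rw [z_pow hy hz, inv_pow, Perm.inv_eq_iff_eq, ← pow_add']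
  apply (y * z).injective
  rw [Perm.mul_apply y z (z p), ← Perm.mul_apply z z, hz, Perm.one_apply, hp.1,
    ← Perm.mul_apply, ← pow_succ', ← two_mul, h1 p hp.2]

theorem fix_iff (hc : (Finset.univ.filter fun p => y p = p).card =
      (Finset.univ.filter fun p => z p = p).card) :
    (∃ p, y p = p ∧ ¬ Good (y * z) p) ↔ ∃ p, z p = p ∧ ¬ Good (y * z) p := by
  classical
  have e : (y * z)⁻¹ = z * y := by
    rw [mul_inv_rev, inv_eq_of_mul_eq_one_right hy, inv_eq_of_mul_eq_one_right hz]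
  have e2 : Good (z * y) = Good (y * z) := by
    funext p
    apply propext
    refine ⟨fun h => ?_, fun h => e ▸ good_inv h⟩
    have := good_inv h
    rwa [← e, inv_inv] at this
  have h1 := fix_le hy hz
  have h2 := fix_le hz hy
  simp only [e2] at h2
  have h3 := Finset.card_filter_add_card_filter_not (s := Finset.univ.filter fun p => y p = p)
    (Good (y * z))
  have h4 := Finset.card_filter_add_card_filter_not (s := Finset.univ.filter fun p => z p = p)
    (Good (y * z))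
  rw [Finset.filter_filter, Finset.filter_filter] at h3 h4
  have h5 : (Finset.univ.filter fun p => y p = p ∧ ¬ Good (y * z) p).card =
      (Finset.univ.filter fun p => z p = p ∧ ¬ Good (y * z) p).card := by
    have h2' : (Finset.univ.filter fun p => z p = p ∧ Good (y * z) p).card ≤
      (Finset.univ.filter fun p => y p = p ∧ Good (y * z) p).card := by convert h2
    omega
  constructor
  · rintro ⟨p, hp⟩
    obtain ⟨q, hq⟩ := Finset.card_pos.mp (h5 ▸ Finset.card_pos.mpr
      ⟨p, Finset.mem_filter.mpr ⟨Finset.mem_univ p, hp⟩⟩)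
    exact ⟨q, (Finset.mem_filter.mp hq).2⟩
  · rintro ⟨p, hp⟩
    obtain ⟨q, hq⟩ := Finset.card_pos.mp (h5.symm ▸ Finset.card_pos.mpr
      ⟨p, Finset.mem_filter.mpr ⟨Finset.mem_univ p, hp⟩⟩)
    exact ⟨q, (Finset.mem_filter.mp hq).2⟩

/-- a reflection of a cycle: some point of the cycle is fixed -/
theorem refl_fix {a : α} {j : ℕ} (h : ((y * z) ^ j) a = z a) :
    ∃ i : ℕ, z (((y * z) ^ i) a) = ((y * z) ^ i) a ∨ y (((y * z) ^ i) a) = ((y * z) ^ i) a := by
  rcases Nat.even_or_odd' j with ⟨i, rfl | rfl⟩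
  · refine ⟨i, Or.inl ?_⟩
    rw [z_pow hy hz, ← h, inv_pow, Perm.inv_eq_iff_eq, ← pow_add', two_mul]
  · refine ⟨i + 1, Or.inr ?_⟩
    have e : ∀ q, y ((y * z) q) = z q := fun q => by
      rw [Perm.mul_apply, ← Perm.mul_apply, hy]; rfl
    rw [pow_succ', Perm.mul_apply (y * z), e, z_pow hy hz, ← h, inv_pow, Perm.inv_eq_iff_eq,
      ← Perm.mul_apply (y * z), ← pow_succ', ← pow_add', show i + (i + 1) = 2 * i + 1 by omega]

end inv

/-- the invariant of the construction -/
structure Inv (x y z : Perm α) : Prop where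
  sq : z * z = 1
  odd : ∀ p, Good (x * z) p
  tch : ∀ p, z p ≠ x p → Good (y * z) p
  spare : z = x ∨ ∃ f, z f = x f ∧ Good (y * z) f

theorem step {x y z : Perm α} (I : Inv x y z) (g : Perm α) (S : Set α)
    (hS : ∀ p ∈ S, z p ∈ S) (hg : ∀ p ∉ S, g p = p)
    (h1 : ∀ p ∈ S, Good (x * (g * z * g⁻¹)) p) (h2 : ∀ p ∈ S, Good (y * (g * z * g⁻¹)) p)
    {a : α} (ha : a ∈ S) (hb : ¬ Good (y * z) a)
    (h3 : (∀ p, Good (y * z) p ∨ p ∈ S) ∨
      ∃ f ∉ S, ¬ Good (y * z) f ∧ ∃ k, ((y * z) ^ k) f ∈ S) :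
    (∃ z' : Perm α, z' * z' = 1 ∧ (∀ p, Good (x * z') p) ∧ ∀ p, Good (y * z') p) ∨
    ∃ z', Inv x y z' ∧ {p | ¬ Good (y * z') p} ⊂ {p | ¬ Good (y * z) p} := by
  have zz : ∀ p, z (z p) = p := fun p => by rw [← Perm.mul_apply, I.sq]; rfl
  have e : ∀ p ∉ S, (g * z * g⁻¹) p = z p := fun p hp => by
    have : g⁻¹ p = p := by rw [Perm.inv_eq_iff_eq, hg p hp]
    rw [Perm.mul_apply, Perm.mul_apply, this, hg _ fun hc => hp (zz p ▸ hS _ hc)]
  have a1 : ∀ p ∉ S, (x * (g * z * g⁻¹)) p = (x * z) p := fun p hp => by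
    rw [Perm.mul_apply, e p hp]; rfl
  have a2 : ∀ p ∉ S, (y * (g * z * g⁻¹)) p = (y * z) p := fun p hp => by
    rw [Perm.mul_apply, e p hp]; rfl
  have sq : g * z * g⁻¹ * (g * z * g⁻¹) = 1 := by rw [conj_mul, I.sq]; simp
  have od : ∀ p, Good (x * (g * z * g⁻¹)) p := fun p => transfer a1 h1 (Or.inl (I.odd p))
  rcases h3 with h3 | ⟨f, hf, hf1, hf2⟩
  · exact Or.inl ⟨_, sq, od, fun p => transfer a2 h2 ((h3 p).imp id fun h => ⟨0, h⟩)⟩
  · refine Or.inr ⟨_, ⟨sq, od, fun p hp => ?_, Or.inr ⟨f, ?_, transfer a2 h2 (Or.inr hf2)⟩⟩,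
      fun p hp hc => hp (transfer a2 h2 (Or.inl hc)), fun hc => hc hb (h2 a ha)⟩
    · by_cases hpS : p ∈ S
      · exact h2 p hpS
      · exact transfer a2 h2 (Or.inl (I.tch p (e p hpS ▸ hp)))
    · rw [e f hf]
      by_contra hc
      exact hf1 (I.tch f hc)

theorem good3 {π : Perm α} {a b c : α} (h1 : π a = b) (h2 : π b = c) (h3 : π c = a) : Good π a :=
  ⟨3, by decide, by simp [pow_succ, h1, h2, h3]⟩

theorem good5 {π : Perm α} {a b c d e : α} (h1 : π a = b) (h2 : π b = c) (h3 : π c = d)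
    (h4 : π d = e) (h5 : π e = a) : Good π a :=
  ⟨5, by decide, by simp [pow_succ, h1, h2, h3, h4, h5]⟩

theorem mk3 {x z : Perm α} {u v w : α} (n1 : u ≠ v) (n2 : u ≠ w) (n3 : v ≠ w)
    (z1 : z u = v) (z2 : z v = u) (z3 : z w = w) (hx : ∀ p ∈ ({u, v, w} : Set α), x p = z p) :
    ∃ g : Perm α, (∀ p ∉ ({u, v, w} : Set α), g p = p) ∧
      (∀ p ∈ ({u, v, w} : Set α), Good (x * (g * z * g⁻¹)) p) ∧
      (g * z * g⁻¹) u = w ∧ (g * z * g⁻¹) w = u ∧ (g * z * g⁻¹) v = v := by
  have e1 : (swap v w * z * (swap v w)⁻¹) u = w := by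
    simp only [swap_inv, Perm.mul_apply]; grind
  have e2 : (swap v w * z * (swap v w)⁻¹) w = u := by
    simp only [swap_inv, Perm.mul_apply]; grind
  have e3 : (swap v w * z * (swap v w)⁻¹) v = v := by
    simp only [swap_inv, Perm.mul_apply]; grind
  refine ⟨swap v w, fun p hp => by grind, ?_, e1, e2, e3⟩
  have f1 : (x * (swap v w * z * (swap v w)⁻¹)) u = w := by
    rw [Perm.mul_apply, e1, hx _ (by simp), z3]
  have f2 : (x * (swap v w * z * (swap v w)⁻¹)) w = v := by
    rw [Perm.mul_apply, e2, hx _ (by simp), z1]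
  have f3 : (x * (swap v w * z * (swap v w)⁻¹)) v = u := by
    rw [Perm.mul_apply, e3, hx _ (by simp), z2]
  rintro p (rfl | rfl | rfl)
  exacts [good3 f1 f2 f3, good3 f3 f1 f2, good3 f2 f3 f1]

theorem mk5 {x z : Perm α} {a b c d f : α} (n : [a, b, c, d, f].Nodup)
    (z1 : z a = b) (z2 : z b = a) (z3 : z c = d) (z4 : z d = c) (z5 : z f = f)
    (hx : ∀ p ∈ ({a, b, c, d, f} : Set α), x p = z p) :
    ∃ g : Perm α, (∀ p ∉ ({a, b, c, d, f} : Set α), g p = p) ∧
      (∀ p ∈ ({a, b, c, d, f} : Set α), Good (x * (g * z * g⁻¹)) p) ∧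
      (g * z * g⁻¹) a = c ∧ (g * z * g⁻¹) c = a ∧ (g * z * g⁻¹) b = f ∧ (g * z * g⁻¹) f = b ∧
      (g * z * g⁻¹) d = d := by
  simp only [List.nodup_cons, List.mem_cons, List.not_mem_nil, or_false, not_or, List.nodup_nil,
    not_false_eq_true, and_true] at n
  obtain ⟨g, hg⟩ : ∃ g : Perm α, g = swap b c * swap d f := ⟨_, rfl⟩
  have e1 : (g * z * g⁻¹) a = c := by
    simp only [hg, mul_inv_rev, swap_inv, Perm.mul_apply]; grind
  have e2 : (g * z * g⁻¹) c = a := by
    simp only [hg, mul_inv_rev, swap_inv, Perm.mul_apply]; grind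
  have e3 : (g * z * g⁻¹) b = f := by
    simp only [hg, mul_inv_rev, swap_inv, Perm.mul_apply]; grind
  have e4 : (g * z * g⁻¹) f = b := by
    simp only [hg, mul_inv_rev, swap_inv, Perm.mul_apply]; grind
  have e5 : (g * z * g⁻¹) d = d := by
    simp only [hg, mul_inv_rev, swap_inv, Perm.mul_apply]; grind
  refine ⟨g, fun p hp => by simp only [hg, Perm.mul_apply]; grind, ?_, e1, e2, e3, e4, e5⟩
  have f1 : (x * (g * z * g⁻¹)) a = d := by rw [Perm.mul_apply, e1, hx _ (by simp), z3]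
  have f2 : (x * (g * z * g⁻¹)) d = c := by rw [Perm.mul_apply, e5, hx _ (by simp), z4]
  have f3 : (x * (g * z * g⁻¹)) c = b := by rw [Perm.mul_apply, e2, hx _ (by simp), z1]
  have f4 : (x * (g * z * g⁻¹)) b = f := by rw [Perm.mul_apply, e3, hx _ (by simp), z5]
  have f5 : (x * (g * z * g⁻¹)) f = a := by rw [Perm.mul_apply, e4, hx _ (by simp), z2]
  rintro p (rfl | rfl | rfl | rfl | rfl)
  exacts [good5 f1 f2 f3 f4 f5, good5 f4 f5 f1 f2 f3, good5 f3 f4 f5 f1 f2, good5 f2 f3 f4 f5 f1,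
    good5 f5 f1 f2 f3 f4]

theorem mk6 {x z : Perm α} {a b c d e f : α} (n : [a, b, c, d, e, f].Nodup)
    (z1 : z a = b) (z2 : z b = a) (z3 : z c = d) (z4 : z d = c) (z5 : z e = f) (z6 : z f = e)
    (S : Set α) (hS : ∀ p, p ∈ S ↔ p = a ∨ p = b ∨ p = c ∨ p = d ∨ p = e ∨ p = f)
    (hx : ∀ p ∈ S, x p = z p) :
    ∃ g : Perm α, (∀ p ∉ S, g p = p) ∧ (∀ p ∈ S, Good (x * (g * z * g⁻¹)) p) ∧
      (g * z * g⁻¹) a = e ∧ (g * z * g⁻¹) e = a ∧ (g * z * g⁻¹) b = c ∧ (g * z * g⁻¹) c = b ∧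
      (g * z * g⁻¹) d = f ∧ (g * z * g⁻¹) f = d := by
  simp only [List.nodup_cons, List.mem_cons, List.not_mem_nil, or_false, not_or, List.nodup_nil,
    not_false_eq_true, and_true] at n
  obtain ⟨g, hg⟩ : ∃ g : Perm α, g = swap a c * swap d e := ⟨_, rfl⟩
  have e1 : (g * z * g⁻¹) a = e := by
    simp only [hg, mul_inv_rev, swap_inv, Perm.mul_apply]; grind
  have e2 : (g * z * g⁻¹) e = a := by
    simp only [hg, mul_inv_rev, swap_inv, Perm.mul_apply]; grind
  have e3 : (g * z * g⁻¹) b = c := by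
    simp only [hg, mul_inv_rev, swap_inv, Perm.mul_apply]; grind
  have e4 : (g * z * g⁻¹) c = b := by
    simp only [hg, mul_inv_rev, swap_inv, Perm.mul_apply]; grind
  have e5 : (g * z * g⁻¹) d = f := by
    simp only [hg, mul_inv_rev, swap_inv, Perm.mul_apply]; grind
  have e6 : (g * z * g⁻¹) f = d := by
    simp only [hg, mul_inv_rev, swap_inv, Perm.mul_apply]; grind
  refine ⟨g, fun p hp => by simp only [hg, Perm.mul_apply]; grind, ?_, e1, e2, e3, e4, e5, e6⟩
  have f1 : (x * (g * z * g⁻¹)) a = f := by rw [Perm.mul_apply, e1, hx _ (by simp [hS]), z5]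
  have f2 : (x * (g * z * g⁻¹)) f = c := by rw [Perm.mul_apply, e6, hx _ (by simp [hS]), z4]
  have f3 : (x * (g * z * g⁻¹)) c = a := by rw [Perm.mul_apply, e4, hx _ (by simp [hS]), z2]
  have f4 : (x * (g * z * g⁻¹)) b = d := by rw [Perm.mul_apply, e3, hx _ (by simp [hS]), z3]
  have f5 : (x * (g * z * g⁻¹)) d = e := by rw [Perm.mul_apply, e5, hx _ (by simp [hS]), z6]
  have f6 : (x * (g * z * g⁻¹)) e = b := by rw [Perm.mul_apply, e2, hx _ (by simp [hS]), z1]
  intro p hp
  rcases (hS p).mp hp with rfl | rfl | rfl | rfl | rfl | rfl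
  exacts [good3 f1 f2 f3, good3 f4 f5 f6, good3 f3 f1 f2, good3 f5 f6 f4, good3 f6 f4 f5,
    good3 f2 f3 f1]

theorem sc_pow (π : Perm α) (m : ℕ) (p : α) : π.SameCycle p ((π ^ m) p) :=
  ⟨m, by rw [zpow_natCast]⟩

theorem sc_app (π : Perm α) (p : α) : π.SameCycle p (π p) := ⟨1, by simp⟩

theorem good_sc {π : Perm α} {p q : α} (h : π.SameCycle p q) (hp : Good π p) : Good π q := by
  obtain ⟨m, rfl⟩ := h.exists_nat_pow_eq
  exact (good_pow m).mpr hp

theorem good_fix {π : Perm α} {p : α} (h : π p = p) : Good π p := ⟨1, odd_one, by simpa using h⟩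

/-- goodness through a closed walk -/
theorem good_of {π : Perm α} {p q : α} {k l : ℕ} (h1 : (π ^ k) p = q) (h2 : (π ^ l) q = p)
    (h : (l + k) % 2 = 1) : Good π p :=
  ⟨l + k, Nat.odd_iff.mpr h, by rw [pow_add', h1, h2]⟩

/-- conclusion of a step -/
def Res (x y z : Perm α) : Prop :=
  (∃ z' : Perm α, z' * z' = 1 ∧ (∀ p, Good (x * z') p) ∧ ∀ p, Good (y * z') p) ∨
    ∃ z', Inv x y z' ∧ {p | ¬ Good (y * z') p} ⊂ {p | ¬ Good (y * z) p}

theorem Inv.xz {x y z : Perm α} (I : Inv x y z) {p : α} (h : ¬ Good (y * z) p) : x p = z p := by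
  by_contra hc
  exact h (I.tch p (Ne.symm hc))

theorem stepA {x y z : Perm α} (hy : y * y = 1) (I : Inv x y z) {u w : α} (hu : y u = u)
    (bu : ¬ Good (y * z) u) (hw : z w = w) (bw : ¬ Good (y * z) w) : Res x y z := by
  have zz : ∀ p, z (z p) = p := fun p => by rw [← Perm.mul_apply, I.sq]; rfl
  obtain ⟨v, hv⟩ : ∃ v, z u = v := ⟨_, rfl⟩
  have zv : z v = u := by rw [← hv, zz]
  have bv : ¬ Good (y * z) v := by rw [← hv, good_z hy I.sq]; exact bu
  have pv : (y * z) v = u := by rw [Perm.mul_apply, zv, hu]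
  have nsc : ¬ (y * z).SameCycle u w := fun h => by
    obtain ⟨m, hm⟩ := h.exists_nat_pow_eq
    have e := z_pow hy I.sq m u
    rw [hm, hw, inv_pow, Perm.eq_inv_iff_eq, ← hm, ← pow_add', hv] at e
    exact bu ⟨m + m + 1, ⟨m, by ring⟩, by rw [pow_succ', Perm.mul_apply, e, pv]⟩
  have svu : (y * z).SameCycle v u := pv ▸ sc_app _ v
  have n1 : u ≠ v := fun e => bv (good_fix (by rw [pv, e]))
  have n2 : u ≠ w := fun e => nsc (e ▸ SameCycle.refl _ _)
  have n3 : v ≠ w := fun e => nsc (e ▸ svu.symm)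
  obtain ⟨g, g1, g2, e1, e2, e3⟩ := mk3 (x := x) n1 n2 n3 hv zv hw (by
    rintro p (rfl | rfl | rfl)
    exacts [I.xz bu, I.xz bv, I.xz bw])
  have hS : ∀ p ∈ ({u, v, w} : Set α), z p ∈ ({u, v, w} : Set α) := by
    rintro p (rfl | rfl | rfl) <;> simp [hv, zv, hw]
  have ag : ∀ p ∉ ({u, v, w} : Set α), (y * (g * z * g⁻¹)) p = (y * z) p := fun p hp => by
    have : g⁻¹ p = p := by rw [Perm.inv_eq_iff_eq, g1 p hp]
    simp only [Perm.mul_apply, this]
    rw [g1 _ fun hc => hp (zz p ▸ hS _ hc)]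
  refine step I g _ hS g1 g2 ?_ (a := u) (by simp) bu (Or.inr ⟨(y * z) w, ?_,
    by rwa [good_app], ?_⟩)
  · have hP := bad_even bv
    have hP' := per_pos (y * z) v
    have hQ := bad_even bw
    have hQ' := per_pos (y * z) w
    have s1 := seg ag (o := v) (s := v) (i := 1) (k := per (y * z) v) (by omega) (by
      rintro m h1 h2 (e | e | e)
      · have := pow_inj h2 (j := 1) (by omega) (by rw [e, pow_one, pv]); omega
      · have := pow_inj h2 (j := 0) (by omega) e; omega
      · exact nsc (svu.symm.trans (e ▸ sc_pow _ m v)))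
      (by rw [pow_one, pv, Perm.mul_apply, e3, Perm.mul_apply, hv])
    have s2 := seg ag (o := w) (s := u) (i := 0) (k := per (y * z) w) (by omega) (by
      rintro m h1 h2 (e | e | e)
      · exact nsc (e ▸ sc_pow _ m w).symm
      · exact nsc ((e ▸ sc_pow _ m w).trans svu).symm
      · have := pow_inj h2 (j := 0) (by omega) e; omega)
      (by rw [pow_zero, Perm.one_apply, Perm.mul_apply, e1, Perm.mul_apply, hw])
    rw [pow_per] at s1 s2
    have s3 : (y * (g * z * g⁻¹)) w = u := by rw [Perm.mul_apply, e2, hu]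
    have gu : Good (y * (g * z * g⁻¹)) u := good_of s2 (l := 1) (by simpa using s3) (by omega)
    rintro p (rfl | rfl | rfl)
    · exact gu
    · exact good_of s1 (l := 0) rfl (by omega)
    · rwa [← good_app, s3]
  · rintro (e | e | e)
    · exact nsc (e ▸ sc_app _ w).symm
    · exact nsc ((e ▸ sc_app _ w).trans svu).symm
    · exact bw (good_fix e)
  · obtain ⟨k, hk⟩ := (sc_app (y * z) w).symm.exists_nat_pow_eq
    exact ⟨k, by rw [hk]; simp⟩

theorem agree {y z g : Perm α} (hz : z * z = 1) {S : Set α} (hS : ∀ p ∈ S, z p ∈ S)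
    (g1 : ∀ p ∉ S, g p = p) : ∀ p ∉ S, (y * (g * z * g⁻¹)) p = (y * z) p := fun p hp => by
  have zz : ∀ p, z (z p) = p := fun p => by rw [← Perm.mul_apply, hz]; rfl
  have : g⁻¹ p = p := by rw [Perm.inv_eq_iff_eq, g1 p hp]
  simp only [Perm.mul_apply, this]
  rw [g1 _ fun hc => hp (zz p ▸ hS _ hc)]

/-- no bad point is fixed -/
def NoFix (y z : Perm α) : Prop := ∀ p, ¬ Good (y * z) p → y p ≠ p ∧ z p ≠ p

theorem NoFix.nsc {y z : Perm α} (hy : y * y = 1) (hz : z * z = 1) (N : NoFix y z) {a : α}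
    (ba : ¬ Good (y * z) a) : ¬ (y * z).SameCycle a (z a) := fun h => by
  obtain ⟨m, hm⟩ := h.exists_nat_pow_eq
  obtain ⟨i, hi⟩ := refl_fix hy hz hm
  have := N _ (mt (good_pow i).mp ba)
  exact hi.elim this.2 this.1

theorem pi_z {y z : Perm α} (hy : y * y = 1) (hz : z * z = 1) (a : α) :
    (y * z) (z ((y * z) a)) = z a := by
  have : y * z * z * (y * z) = z := by rw [mul_assoc y, hz, mul_one, ← mul_assoc, hy, one_mul]
  rw [← Perm.mul_apply z, ← Perm.mul_apply, ← mul_assoc, this]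

theorem stepB1 {x y z : Perm α} (hy : y * y = 1) (I : Inv x y z) (N : NoFix y z) {a : α}
    (ba : ¬ Good (y * z) a) (h2 : (y * z) ((y * z) a) ≠ a) : Res x y z := by
  have zz : ∀ p, z (z p) = p := fun p => by rw [← Perm.mul_apply, I.sq]; rfl
  have yz : ∀ p, y p = (y * z) (z p) := fun p => by rw [Perm.mul_apply, zz]
  have nsc := N.nsc hy I.sq ba
  have pd := pi_z hy I.sq a
  have pf := pi_z hy I.sq ((y * z) a)
  have bc : ¬ Good (y * z) ((y * z) a) := by rwa [good_app]
  have be : ¬ Good (y * z) ((y * z) ((y * z) a)) := by rwa [good_app]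
  have bb := mt (good_z hy I.sq).mp ba
  have bd := mt (good_z hy I.sq).mp bc
  have bf := mt (good_z hy I.sq).mp be
  obtain ⟨c, hc⟩ : ∃ c, (y * z) a = c := ⟨_, rfl⟩
  rw [hc] at pd pf bc be bd bf h2
  obtain ⟨e, he⟩ : ∃ e, (y * z) c = e := ⟨_, rfl⟩
  rw [he] at pf be bf h2
  obtain ⟨b, hb⟩ : ∃ b, z a = b := ⟨_, rfl⟩
  obtain ⟨d, hd⟩ : ∃ d, z c = d := ⟨_, rfl⟩
  obtain ⟨f, hf⟩ : ∃ f, z e = f := ⟨_, rfl⟩
  rw [hb] at nsc pd bb
  rw [hd] at pd pf bd
  rw [hf] at pf bf
  have zb : z b = a := by rw [← hb, zz]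
  have zd : z d = c := by rw [← hd, zz]
  have zf : z f = e := by rw [← hf, zz]
  have sac : (y * z).SameCycle a c := hc ▸ sc_app _ a
  have sae : (y * z).SameCycle a e := sac.trans (he ▸ sc_app _ c)
  have sdb : (y * z).SameCycle d b := pd ▸ sc_app _ d
  have sfb : (y * z).SameCycle f b := (pf ▸ sc_app _ f : (y * z).SameCycle f d).trans sdb
  have cr : ∀ p q, (y * z).SameCycle a p → (y * z).SameCycle q b → p ≠ q := fun p q h1 h2 e =>
    nsc (h1.trans (e ▸ h2))
  have saa : (y * z).SameCycle a a := SameCycle.refl _ _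
  have sbb : (y * z).SameCycle b b := SameCycle.refl _ _
  have nac : a ≠ c := fun e => ba (good_fix (by rw [hc, e]))
  have nce : c ≠ e := fun e => bc (good_fix (by rw [he, e]))
  have nd : [a, b, c, d, e, f].Nodup := by
    have := cr a b saa sbb; have := cr a d saa sdb; have := cr a f saa sfb
    have := cr c b sac sbb; have := cr c d sac sdb; have := cr c f sac sfb
    have := cr e b sae sbb; have := cr e d sae sdb; have := cr e f sae sfb
    simp only [List.nodup_cons, List.mem_cons, List.not_mem_nil, or_false, not_or, List.nodup_nil,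
      not_false_eq_true, and_true]
    grind
  obtain ⟨g, g1, g2, e1, e2, e3, e4, e5, e6⟩ := mk6 (x := x) nd hb zb hd zd hf zf
    {a, b, c, d, e, f} (by simp) (by
    rintro p (rfl | rfl | rfl | rfl | rfl | rfl)
    exacts [I.xz ba, I.xz bb, I.xz bc, I.xz bd, I.xz be, I.xz bf])
  have hS : ∀ p ∈ ({a, b, c, d, e, f} : Set α), z p ∈ ({a, b, c, d, e, f} : Set α) := by
    rintro p (rfl | rfl | rfl | rfl | rfl | rfl) <;> simp [hb, hd, hf, zb, zd, zf]
  have ag := agree (y := y) I.sq hS g1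
  have a2 : ((y * z) ^ 2) a = e := by rw [sq, Perm.mul_apply, hc, he]
  have f2 : ((y * z) ^ 2) f = b := by rw [sq, Perm.mul_apply, pf, pd]
  have hP := bad_even ba
  have hP' := per_pos (y * z) a
  have hP2 : per (y * z) a ≠ 2 := fun h => h2 (by rw [← a2, ← h, pow_per])
  have hQ := bad_even bf
  have hQ' := per_pos (y * z) f
  have hQ2 : per (y * z) f ≠ 2 := fun h => h2 (by rw [← zf, ← zb, ← f2, ← h, pow_per])
  have av : ∀ m, 2 < m → m < per (y * z) a → ((y * z) ^ m) a ∉ ({a, b, c, d, e, f} : Set α) := by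
    rintro m h1 h2 (h | h | h | h | h | h)
    · have := pow_inj h2 (j := 0) (by omega) h; omega
    · exact cr _ _ (sc_pow _ m a) sbb h
    · have := pow_inj h2 (j := 1) (by omega) (by rw [h, pow_one, hc]); omega
    · exact cr _ _ (sc_pow _ m a) sdb h
    · have := pow_inj h2 (j := 2) (by omega) (by rw [h, a2]); omega
    · exact cr _ _ (sc_pow _ m a) sfb h
  refine step I g _ hS g1 g2 ?_ (a := a) (by simp) ba (Or.inr ⟨((y * z) ^ 3) a,
    av 3 (by omega) (by omega), by rwa [good_pow], ?_⟩)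
  · have s1 := seg ag (o := a) (s := d) (i := 2) (k := per (y * z) a) (by omega) av
      (by rw [a2, Perm.mul_apply, e5, yz, zf])
    have s2 := seg ag (o := f) (s := e) (i := 2) (k := per (y * z) f) (by omega) (by
      rintro m h1 h2 (h | h | h | h | h | h)
      · exact cr _ _ saa ((sc_pow _ m f).symm.trans sfb) h.symm
      · have := pow_inj h2 (j := 2) (by omega) (by rw [h, f2]); omega
      · exact cr _ _ sac ((sc_pow _ m f).symm.trans sfb) h.symm
      · have := pow_inj h2 (j := 1) (by omega) (by rw [h, pow_one, pf]); omega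
      · exact cr _ _ sae ((sc_pow _ m f).symm.trans sfb) h.symm
      · have := pow_inj h2 (j := 0) (by omega) h; omega)
      (by rw [f2, Perm.mul_apply, e2, yz, hb])
    rw [pow_per] at s1 s2
    have t1 : (y * (g * z * g⁻¹)) a = d := by rw [Perm.mul_apply, e1, yz, hf, pf]
    have t2 : (y * (g * z * g⁻¹)) b = b := by rw [Perm.mul_apply, e3, yz, hd, pd]
    have t3 : (y * (g * z * g⁻¹)) c = c := by rw [Perm.mul_apply, e4, yz, zb, hc]
    have t4 : (y * (g * z * g⁻¹)) f = e := by rw [Perm.mul_apply, e6, yz, zd, he]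
    have gd := good_of s1 (l := 1) (by rwa [pow_one]) (by omega)
    have ge := good_of s2 (l := 1) (by rwa [pow_one]) (by omega)
    rintro p (rfl | rfl | rfl | rfl | rfl | rfl)
    · rwa [← good_app, t1]
    · exact good_fix t2
    · exact good_fix t3
    · exact gd
    · exact ge
    · rwa [← good_app, t4]
  · obtain ⟨k, hk⟩ := (sc_pow (y * z) 3 a).symm.exists_nat_pow_eq
    exact ⟨k, by rw [hk]; simp⟩

/-- a bad component on four points -/
structure Sq (y z : Perm α) (a b c d : α) : Prop where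
  za : z a = b
  zb : z b = a
  zc : z c = d
  zd : z d = c
  pa : (y * z) a = c
  pb : (y * z) b = d
  pc : (y * z) c = a
  pd : (y * z) d = b
  nd : [a, b, c, d].Nodup
  ba : ¬ Good (y * z) a
  bb : ¬ Good (y * z) b
  bc : ¬ Good (y * z) c
  bd : ¬ Good (y * z) d

theorem exists_sq {y z : Perm α} (hy : y * y = 1) (hz : z * z = 1) (N : NoFix y z) {a : α}
    (ba : ¬ Good (y * z) a) (h2 : (y * z) ((y * z) a) = a) : ∃ b c d, Sq y z a b c d := by
  have zz : ∀ p, z (z p) = p := fun p => by rw [← Perm.mul_apply, hz]; rfl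
  have nsc := N.nsc hy hz ba
  have pd := pi_z hy hz a
  have pf := pi_z hy hz ((y * z) a)
  have bc : ¬ Good (y * z) ((y * z) a) := by rwa [good_app]
  rw [h2] at pf
  refine ⟨z a, (y * z) a, z ((y * z) a), rfl, zz _, rfl, zz _, rfl, pf, h2, pd, ?_, ba,
    mt (good_z hy hz).mp ba, bc, mt (good_z hy hz).mp bc⟩
  have n1 : a ≠ z a := fun e => nsc (e ▸ SameCycle.refl _ _)
  have n2 : a ≠ (y * z) a := fun e => ba (good_fix e.symm)
  have n3 : (y * z) a ≠ z a := fun e => nsc (e ▸ sc_app _ _)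
  simp only [List.nodup_cons, List.mem_cons, List.not_mem_nil, or_false, not_or, List.nodup_nil,
    not_false_eq_true, and_true]
  generalize (y * z) a = c at *
  grind

theorem Sq.av {y z : Perm α} {a b c d e : α} (Q : Sq y z a b c d)
    (he : e ∉ ({a, b, c, d} : Set α)) (m : ℕ) : ((y * z) ^ m) e ∉ ({a, b, c, d} : Set α) := by
  induction m with
  | zero => exact he
  | succ m ih =>
    rw [pow_succ', Perm.mul_apply]
    rintro (h | h | h | h) <;> apply ih
    · rw [← Q.pc] at h; rw [(y * z).injective h]; simp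
    · rw [← Q.pd] at h; rw [(y * z).injective h]; simp
    · rw [← Q.pa] at h; rw [(y * z).injective h]; simp
    · rw [Set.mem_singleton_iff, ← Q.pb] at h; rw [(y * z).injective h]; simp

theorem Sq.avz {y z : Perm α} {a b c d e : α} (Q : Sq y z a b c d)
    (he : e ∉ ({a, b, c, d} : Set α)) : z e ∉ ({a, b, c, d} : Set α) := by
  rintro (h | h | h | h) <;> apply he
  · rw [← Q.zb] at h; rw [z.injective h]; simp
  · rw [← Q.za] at h; rw [z.injective h]; simp
  · rw [← Q.zd] at h; rw [z.injective h]; simp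
  · rw [Set.mem_singleton_iff, ← Q.zc] at h; rw [z.injective h]; simp

theorem stepB2 {x y z : Perm α} (hy : y * y = 1) (I : Inv x y z) (N : NoFix y z) {a b c d e : α}
    (Q : Sq y z a b c d) (be : ¬ Good (y * z) e) (he : e ∉ ({a, b, c, d} : Set α)) :
    Res x y z := by
  have zz : ∀ p, z (z p) = p := fun p => by rw [← Perm.mul_apply, I.sq]; rfl
  have yz : ∀ p, y p = (y * z) (z p) := fun p => by rw [Perm.mul_apply, zz]
  have nsc := N.nsc hy I.sq be
  have bf := mt (good_z hy I.sq).mp be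
  have hf' := Q.avz he
  obtain ⟨f, hf⟩ : ∃ f, z e = f := ⟨_, rfl⟩
  rw [hf] at nsc bf hf'
  have zf : z f = e := by rw [← hf, zz]
  have nd : [a, b, c, d, e, f].Nodup := by
    have := Q.nd
    have : e ≠ f := fun h => nsc (h ▸ SameCycle.refl _ _)
    simp only [List.nodup_cons, List.mem_cons, List.not_mem_nil, or_false, not_or, List.nodup_nil,
      not_false_eq_true, and_true] at *
    grind
  obtain ⟨g, g1, g2, e1, e2, e3, e4, e5, e6⟩ := mk6 (x := x) nd Q.za Q.zb Q.zc Q.zd hf zf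
    {a, b, c, d, e, f} (by simp) (by
    rintro p (rfl | rfl | rfl | rfl | rfl | rfl)
    exacts [I.xz Q.ba, I.xz Q.bb, I.xz Q.bc, I.xz Q.bd, I.xz be, I.xz bf])
  have hS : ∀ p ∈ ({a, b, c, d, e, f} : Set α), z p ∈ ({a, b, c, d, e, f} : Set α) := by
    rintro p (rfl | rfl | rfl | rfl | rfl | rfl) <;> simp [Q.za, Q.zb, Q.zc, Q.zd, hf, zf]
  have ag := agree (y := y) I.sq hS g1
  have hP := bad_even be
  have hP' := per_pos (y * z) e
  have hQ := bad_even bf
  have hQ' := per_pos (y * z) f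
  have av : ∀ m, 0 < m → m < per (y * z) e → ((y * z) ^ m) e ∉ ({a, b, c, d, e, f} : Set α) := by
    intro m h1 h2 h
    have := Q.av he m
    rcases h with (h | h | h | h | h | h)
    iterate 4 exact this (by rw [h]; simp)
    · have := pow_inj h2 (j := 0) (by omega) h; omega
    · exact nsc (h ▸ sc_pow _ m e)
  refine step I g _ hS g1 g2 ?_ (a := a) (by simp) Q.ba (Or.inr ⟨((y * z) ^ 1) e,
    av 1 (by omega) (by omega), by rwa [good_pow], ?_⟩)
  · have s1 := seg ag (o := e) (s := d) (i := 0) (k := per (y * z) e) (by omega) av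
      (by rw [pow_zero, Perm.one_apply, Perm.mul_apply, e5, yz, zf])
    have s2 := seg ag (o := f) (s := a) (i := 0) (k := per (y * z) f) (by omega) (by
      intro m h1 h2 h
      have := Q.av hf' m
      rcases h with (h | h | h | h | h | h)
      iterate 4 exact this (by rw [h]; simp)
      · exact nsc (h ▸ sc_pow _ m f).symm
      · have := pow_inj h2 (j := 0) (by omega) h; omega)
      (by rw [pow_zero, Perm.one_apply, Perm.mul_apply, e1, yz, hf])
    rw [pow_per] at s1 s2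
    have t1 : (y * (g * z * g⁻¹)) e = d := by rw [Perm.mul_apply, e2, yz, Q.za, Q.pb]
    have t2 : (y * (g * z * g⁻¹)) b = b := by rw [Perm.mul_apply, e3, yz, Q.zc, Q.pd]
    have t3 : (y * (g * z * g⁻¹)) c = c := by rw [Perm.mul_apply, e4, yz, Q.zb, Q.pa]
    have t4 : (y * (g * z * g⁻¹)) f = a := by rw [Perm.mul_apply, e6, yz, Q.zd, Q.pc]
    have gd := good_of s1 (l := 1) (by rwa [pow_one]) (by omega)
    have ga := good_of s2 (l := 1) (by rwa [pow_one]) (by omega)
    rintro p (rfl | rfl | rfl | rfl | rfl | rfl)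
    · exact ga
    · exact good_fix t2
    · exact good_fix t3
    · exact gd
    · rwa [← good_app, t1]
    · rwa [← good_app, t4]
  · obtain ⟨k, hk⟩ := (sc_pow (y * z) 1 e).symm.exists_nat_pow_eq
    exact ⟨k, by rw [hk]; simp⟩

theorem stepC1 {x y z : Perm α} (hy : y * y = 1) (I : Inv x y z) {a b c d f : α}
    (Q : Sq y z a b c d) (hall : ∀ p, Good (y * z) p ∨ p ∈ ({a, b, c, d} : Set α))
    (gf : Good (y * z) f) (xf : z f = x f) (zf : z f = f) : Res x y z := by
  have zz : ∀ p, z (z p) = p := fun p => by rw [← Perm.mul_apply, I.sq]; rfl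
  have yz : ∀ p, y p = (y * z) (z p) := fun p => by rw [Perm.mul_apply, zz]
  have hf' : f ∉ ({a, b, c, d} : Set α) := by
    rintro (rfl | rfl | rfl | rfl)
    exacts [Q.ba gf, Q.bb gf, Q.bc gf, Q.bd gf]
  have nd : [a, b, c, d, f].Nodup := by
    have := Q.nd
    simp only [List.nodup_cons, List.mem_cons, List.not_mem_nil, or_false, not_or, List.nodup_nil,
      not_false_eq_true, and_true] at *
    grind
  obtain ⟨g, g1, g2, e1, e2, e3, e4, e5⟩ := mk5 (x := x) nd Q.za Q.zb Q.zc Q.zd zf (by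
    rintro p (rfl | rfl | rfl | rfl | rfl)
    exacts [I.xz Q.ba, I.xz Q.bb, I.xz Q.bc, I.xz Q.bd, xf.symm])
  have hS : ∀ p ∈ ({a, b, c, d, f} : Set α), z p ∈ ({a, b, c, d, f} : Set α) := by
    rintro p (rfl | rfl | rfl | rfl | rfl) <;> simp [Q.za, Q.zb, Q.zc, Q.zd, zf]
  have ag := agree (y := y) I.sq hS g1
  have hQ := Nat.odd_iff.mp (good_iff.mp gf)
  refine step I g _ hS g1 g2 ?_ (a := a) (by simp) Q.ba (Or.inl fun p => (hall p).imp id (by
    rintro (rfl | rfl | rfl | rfl) <;> simp))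
  have s2 := seg ag (o := f) (s := b) (i := 0) (k := per (y * z) f) (by omega) (by
      intro m h1 h2 h
      have := Q.av hf' m
      rcases h with (h | h | h | h | h)
      iterate 4 exact this (by rw [h]; simp)
      have := pow_inj h2 (j := 0) (by omega) h; omega)
      (by rw [pow_zero, Perm.one_apply, Perm.mul_apply, e3, yz, zf])
  rw [pow_per] at s2
  have t1 : (y * (g * z * g⁻¹)) f = c := by rw [Perm.mul_apply, e4, yz, Q.zb, Q.pa]
  have t2 : (y * (g * z * g⁻¹)) c = d := by rw [Perm.mul_apply, e2, yz, Q.za, Q.pb]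
  have t3 : (y * (g * z * g⁻¹)) d = a := by rw [Perm.mul_apply, e5, yz, Q.zd, Q.pc]
  have t4 : (y * (g * z * g⁻¹)) a = b := by rw [Perm.mul_apply, e1, yz, Q.zc, Q.pd]
  generalize y * (g * z * g⁻¹) = σ at *
  have gb := good_of s2 (l := 4) (by simp [pow_succ, t1, t2, t3, t4]) (by omega)
  have ga : Good σ a := by rwa [← good_app, t4]
  have gd : Good σ d := by rwa [← good_app, t3]
  have gc : Good σ c := by rwa [← good_app, t2]
  have gf : Good σ f := by rwa [← good_app, t1]
  rintro p (rfl | rfl | rfl | rfl | rfl) <;> assumption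

theorem stepC2 {x y z : Perm α} (hx : x * x = 1) (hy : y * y = 1) (I : Inv x y z) {a b c d f : α}
    (Q : Sq y z a b c d) (hall : ∀ p, Good (y * z) p ∨ p ∈ ({a, b, c, d} : Set α))
    (gf : Good (y * z) f) (xf : z f = x f) (zf' : z f ≠ f) : Res x y z := by
  have zz : ∀ p, z (z p) = p := fun p => by rw [← Perm.mul_apply, I.sq]; rfl
  have yz : ∀ p, y p = (y * z) (z p) := fun p => by rw [Perm.mul_apply, zz]
  have hf' : f ∉ ({a, b, c, d} : Set α) := by
    rintro (rfl | rfl | rfl | rfl)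
    exacts [Q.ba gf, Q.bb gf, Q.bc gf, Q.bd gf]
  have he' := Q.avz hf'
  have ge := (good_z hy I.sq).mpr gf
  obtain ⟨e, zf⟩ : ∃ e, z f = e := ⟨_, rfl⟩
  rw [zf] at he' ge zf' xf
  have ze : z e = f := by rw [← zf, zz]
  have xe : x e = f := by rw [xf, ← Perm.mul_apply, hx]; rfl
  have nd : [b, a, c, d, e, f].Nodup := by
    have := Q.nd
    simp only [List.nodup_cons, List.mem_cons, List.not_mem_nil, or_false, not_or, List.nodup_nil,
      not_false_eq_true, and_true] at *
    grind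
  obtain ⟨g, g1, g2, e1, e2, e3, e4, e5, e6⟩ := mk6 (x := x) nd Q.zb Q.za Q.zc Q.zd ze zf
    {a, b, c, d, e, f} (by simp; tauto) (by
    rintro p (rfl | rfl | rfl | rfl | rfl | rfl)
    exacts [I.xz Q.ba, I.xz Q.bb, I.xz Q.bc, I.xz Q.bd, xe.trans ze.symm, xf.symm.trans zf.symm])
  have hS : ∀ p ∈ ({a, b, c, d, e, f} : Set α), z p ∈ ({a, b, c, d, e, f} : Set α) := by
    rintro p (rfl | rfl | rfl | rfl | rfl | rfl) <;> simp [Q.za, Q.zb, Q.zc, Q.zd, ze, zf]
  have ag := agree (y := y) I.sq hS g1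
  have hP := Nat.odd_iff.mp (good_iff.mp ge)
  have hQ := Nat.odd_iff.mp (good_iff.mp gf)
  refine step I g _ hS g1 g2 ?_ (a := a) (by simp) Q.ba (Or.inl fun p => (hall p).imp id (by
    rintro (rfl | rfl | rfl | rfl) <;> simp))
  have t1 : (y * (g * z * g⁻¹)) a = b := by rw [Perm.mul_apply, e3, yz, Q.zc, Q.pd]
  have t2 : (y * (g * z * g⁻¹)) c = d := by rw [Perm.mul_apply, e4, yz, Q.za, Q.pb]
  have t3 : (y * (g * z * g⁻¹)) e = c := by rw [Perm.mul_apply, e2, yz, Q.zb, Q.pa]
  have t4 : (y * (g * z * g⁻¹)) f = a := by rw [Perm.mul_apply, e6, yz, Q.zd, Q.pc]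
  have t5 : (y * (g * z * g⁻¹)) b = (y * z) f := by rw [Perm.mul_apply, e1, yz, ze]
  have t6 : (y * (g * z * g⁻¹)) d = (y * z) e := by rw [Perm.mul_apply, e5, yz, zf]
  generalize y * (g * z * g⁻¹) = σ at *
  have key : Good σ b ∧ Good σ d := by
    by_cases sc : (y * z).SameCycle f e
    · obtain ⟨j0, hj0⟩ := sc.exists_nat_pow_eq
      have hQ' := per_pos (y * z) f
      obtain ⟨j, hj, hje⟩ : ∃ j < per (y * z) f, ((y * z) ^ j) f = e :=
        ⟨j0 % per (y * z) f, Nat.mod_lt _ hQ', by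
          rw [← hj0]
          conv_rhs => rw [← Nat.mod_add_div j0 (per (y * z) f), pow_add', pow_mul,
            pow_apply_eq_self_of_apply_eq_self (pow_per _ f)]⟩
      have j0 : j ≠ 0 := by rintro rfl; exact zf' hje.symm
      have av : ∀ m, 0 < m → m < per (y * z) f → m ≠ j →
          ((y * z) ^ m) f ∉ ({a, b, c, d, e, f} : Set α) := by
        intro m h1 h2 h3 h
        have := Q.av hf' m
        rcases h with (h | h | h | h | h | h)
        iterate 4 exact this (by rw [h]; simp)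
        · exact h3 (pow_inj h2 hj (h.trans hje.symm))
        · have := pow_inj h2 (j := 0) (by omega) h; omega
      have s1 := seg ag (o := f) (s := b) (i := 0) (k := j) (by omega)
        (fun m h1 h2 => av m h1 (by omega) (by omega)) t5
      have s2 := seg ag (o := f) (s := d) (i := j) (k := per (y * z) f) (by omega)
        (fun m h1 h2 => av m (by omega) (by omega) (by omega)) (by rw [t6, hje])
      rw [pow_per] at s2
      rw [hje] at s1
      have s3 : (σ ^ (2 + (j - 0))) b = d := by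
        rw [pow_add', s1]; simp [pow_succ, t2, t3]
      have s4 : (σ ^ (2 + (per (y * z) f - j))) d = b := by
        rw [pow_add', s2]; simp [pow_succ, t1, t4]
      exact ⟨good_of s3 s4 (by omega), good_of s4 s3 (by omega)⟩
    · have s1 := seg ag (o := f) (s := b) (i := 0) (k := per (y * z) f) (by omega) (by
        intro m h1 h2 h
        have := Q.av hf' m
        rcases h with (h | h | h | h | h | h)
        iterate 4 exact this (by rw [h]; simp)
        · exact sc (h ▸ sc_pow _ m f)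
        · have := pow_inj h2 (j := 0) (by omega) h; omega) t5
      have s2 := seg ag (o := e) (s := d) (i := 0) (k := per (y * z) e) (by omega) (by
        intro m h1 h2 h
        have := Q.av he' m
        rcases h with (h | h | h | h | h | h)
        iterate 4 exact this (by rw [h]; simp)
        · have := pow_inj h2 (j := 0) (by omega) h; omega
        · exact sc (h ▸ sc_pow _ m e).symm) t6
      rw [pow_per] at s1 s2
      exact ⟨good_of s1 (l := 2) (by simp [pow_succ, t1, t4]) (by omega),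
        good_of s2 (l := 2) (by simp [pow_succ, t2, t3]) (by omega)⟩
  obtain ⟨gb, gd⟩ := key
  have ga : Good σ a := by rwa [← good_app, t1]
  have gc : Good σ c := by rwa [← good_app, t2]
  have gf : Good σ f := by rwa [← good_app, t4]
  have ge : Good σ e := by rwa [← good_app, t3]
  rintro p (rfl | rfl | rfl | rfl | rfl | rfl) <;> assumption

theorem fix_card {x y : Perm α} (h : IsConj x y) :
    (Finset.univ.filter fun p => x p = p).card = (Finset.univ.filter fun p => y p = p).card := by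
  obtain ⟨g, rfl⟩ := isConj_iff.mp h
  refine Finset.card_equiv g fun p => ?_
  rw [Finset.mem_filter, Finset.mem_filter]
  simp

theorem exists_fifth (hn : 5 ≤ Fintype.card α) (a b c d : α) :
    ∃ f, f ∉ ({a, b, c, d} : Set α) := by
  by_contra hc
  push Not at hc
  have : (Finset.univ : Finset α) ⊆ {a, b, c, d} := fun p _ => by simpa using hc p
  have h1 := Finset.card_le_card this
  have h2 : ({a, b, c, d} : Finset α).card ≤ 4 := Finset.card_le_four
  rw [Finset.card_univ] at h1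
  omega

theorem res {x y z : Perm α} (hn : 5 ≤ Fintype.card α) (hx : x * x = 1) (hy : y * y = 1)
    (hxy : IsConj x y) (I : Inv x y z) : Res x y z := by
  by_cases hall : ∀ p, Good (y * z) p
  · exact Or.inl ⟨z, I.sq, I.odd, hall⟩
  push Not at hall
  obtain ⟨a, ba⟩ := hall
  have fi := fix_iff hy I.sq (fix_card (hxy.symm.trans
    (isConj_of_odd_mul hx I.sq (odd_order I.odd))))
  by_cases h1 : ∃ p, y p = p ∧ ¬ Good (y * z) p
  · obtain ⟨w, hw, bw⟩ := fi.mp h1
    obtain ⟨u, hu, bu⟩ := h1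
    exact stepA hy I hu bu hw bw
  have N : NoFix y z := fun p hp => ⟨fun e => h1 ⟨p, e, hp⟩, fun e => h1 (fi.mpr ⟨p, e, hp⟩)⟩
  by_cases h2 : (y * z) ((y * z) a) = a
  swap
  · exact stepB1 hy I N ba h2
  obtain ⟨b, c, d, Q⟩ := exists_sq hy I.sq N ba h2
  by_cases h3 : ∀ p, Good (y * z) p ∨ p ∈ ({a, b, c, d} : Set α)
  swap
  · push Not at h3
    obtain ⟨e, be, he⟩ := h3
    exact stepB2 hy I N Q be he
  obtain ⟨f, xf, gf⟩ : ∃ f, z f = x f ∧ Good (y * z) f := by
    rcases I.spare with e | e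
    · obtain ⟨f, hf⟩ := exists_fifth hn a b c d
      exact ⟨f, by rw [e], (h3 f).resolve_right hf⟩
    · exact e
  by_cases zf : z f = f
  · exact stepC1 hy I Q h3 gf xf zf
  · exact stepC2 hx hy I Q h3 gf xf zf

theorem exists_mid {x y : Perm α} (hn : 5 ≤ Fintype.card α) (hx : x * x = 1) (hy : y * y = 1)
    (hxy : IsConj x y) : ∃ z, z * z = 1 ∧ Odd (orderOf (x * z)) ∧ Odd (orderOf (y * z)) := by
  have key : ∀ (B : Set α) (z : Perm α), Inv x y z → {p | ¬ Good (y * z) p} = B →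
      ∃ z, z * z = 1 ∧ Odd (orderOf (x * z)) ∧ Odd (orderOf (y * z)) := by
    intro B
    induction B using WellFoundedLT.induction with
    | ind B ih =>
      intro z I hB
      rcases res hn hx hy hxy I with ⟨z', h1, h2, h3⟩ | ⟨z', I', h⟩
      · exact ⟨z', h1, odd_order h2, odd_order h3⟩
      · exact ih _ (hB ▸ h) z' I' rfl
  exact key _ x ⟨hx, fun p => good_fix (by rw [hx]; rfl), fun p h => absurd rfl h, Or.inl rfl⟩ rfl

theorem not_good {π : Perm α} {a : α} (h1 : π a ≠ a) (h2 : π (π a) = a) : ¬ Good π a := by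
  rintro ⟨k, ⟨j, rfl⟩, h⟩
  apply h1
  rwa [pow_succ', pow_mul, Perm.mul_apply,
    pow_apply_eq_self_of_apply_eq_self (f := π ^ 2) (by rw [sq]; exact h2)] at h

theorem exists_even {t : Perm α} (hn : 5 ≤ Fintype.card α) (ht : t * t = 1) (h1 : t ≠ 1) :
    ∃ y, IsConj t y ∧ ¬ Odd (orderOf (t * y)) := by
  have tt : ∀ p, t (t p) = p := fun p => by rw [← Perm.mul_apply, ht]; rfl
  obtain ⟨a, ha⟩ : ∃ a, t a ≠ a := by
    by_contra hc
    push Not at hc
    exact h1 (Perm.ext hc)
  by_cases h : ∃ c, c ≠ a ∧ c ≠ t a ∧ t c ≠ c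
  · obtain ⟨c, c1, c2, c3⟩ := h
    refine ⟨swap (t a) c * t * (swap (t a) c)⁻¹, isConj_iff.mpr ⟨_, rfl⟩, fun ho =>
      not_good (a := a) ?_ ?_ (good_of_odd ho a)⟩
    · simp only [swap_inv, Perm.mul_apply]; grind
    · simp only [swap_inv, Perm.mul_apply]; grind
  · push Not at h
    obtain ⟨c, hc⟩ := exists_fifth hn a (t a) a a
    obtain ⟨d, hd⟩ := exists_fifth hn a (t a) c c
    simp only [Set.mem_insert_iff, Set.mem_singleton_iff, not_or] at hc hd
    have h2 := h c hc.1 hc.2.1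
    have h3 := h d hd.1 hd.2.1
    refine ⟨(swap a c * swap (t a) d) * t * (swap a c * swap (t a) d)⁻¹, isConj_iff.mpr ⟨_, rfl⟩,
      fun ho => not_good (a := a) ?_ ?_ (good_of_odd ho a)⟩
    · simp only [mul_inv_rev, swap_inv, Perm.mul_apply]; grind
    · simp only [mul_inv_rev, swap_inv, Perm.mul_apply]; grind

end H8.SymG
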